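import Cfsg.Agent.Lib.RelMcKay.Conj
import Cfsg.Agent.Lib.Coprime.Action

/-!
# The commutation scalar under the correspondence, when one element is centralised
-/

set_option autoImplicit false
set_option linter.unusedSectionVars false

open scoped ComplexConjugate Classical commutatorElement

namespace Cfsg.Agent.Lib.RelMcKay

open Cfsg Cfsg.Agent.Lib.Char Cfsg.Agent.Lib.CharClifford

universe u

variable {G : Type u} [Group G] [Finite G] {p : ℕ} [hp : Fact p.Prime]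

/-- An irreducible character over an invariant one extends it when the quotient is generated by one element. -/
theorem extends_of_over_adjoin {C : Subgroup G} {φ : IrrCharacter C} {g : G} (hg : Fixes (φ : C → ℂ) g)
    {CJ : Subgroup G} (hCJ : CJ = C ⊔ Subgroup.zpowers g) (hle : C ≤ CJ) (β : IrrCharacter CJ)
    (h : ip (β : CJ → ℂ) (φ : C → ℂ) ≠ 0) :
    ∀ c : C, (β : CJ → ℂ) (Subgroup.inclusion hle c) = (φ : C → ℂ) c := by
  subst hCJ
  obtain ⟨η, hη, hext⟩ := exists_ext φ.2 hg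
  haveI := normal_subgroupOf_adjoin hg
  let J : Subgroup G := C ⊔ Subgroup.zpowers g
  haveI := Fintype.ofFinite J
  haveI := Fintype.ofFinite C
  haveI := Fintype.ofFinite (C.subgroupOf J)
  let e := Subgroup.subgroupOfEquivOfLe hle
  have hext' : ∀ n : C.subgroupOf J, η (n : J) = ((φ : C → ℂ) ∘ e) n := fun n => hext (e n)
  have hover : classInner (fun n : C.subgroupOf J => (β : J → ℂ) n) ((φ : C → ℂ) ∘ e) ≠ 0 := by
    rw [ip_eq_classInner hle] at h
    convert h using 1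
    rw [← classInner_comp_equiv e (fun c : C => (β : J → ℂ) (Subgroup.inclusion hle c)) (φ : C → ℂ)]
    rfl
  obtain ⟨γ, hγ, hγN, hγe⟩ := gallagher_exists (C.subgroupOf J) (isIrrCharacter_comp_equiv e φ.2)
    (isCharacter_of_isIrr hη) hext' β.2 hover
  obtain ⟨ψ, hψ, hψe⟩ := exists_irr_deflation hγ (C.subgroupOf J) fun n hn => hγN ⟨n, hn⟩
  have hgJ : g ∈ J := Subgroup.mem_sup_right (Subgroup.mem_zpowers g)
  haveI : IsMulCommutative (J ⧸ C.subgroupOf J) := by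
    have hcyc : ∀ z : J ⧸ C.subgroupOf J, z ∈ Subgroup.zpowers ((⟨g, hgJ⟩ : J) : J ⧸ C.subgroupOf J) := by
      intro z
      obtain ⟨y, rfl⟩ := QuotientGroup.mk_surjective z
      let W : Subgroup J :=
        (Subgroup.zpowers ((⟨g, hgJ⟩ : J) : J ⧸ C.subgroupOf J)).comap (QuotientGroup.mk' _)
      have hW : J ≤ W.map J.subtype := sup_le (fun k hk => ⟨⟨k, hle hk⟩, by
          show ((⟨k, hle hk⟩ : J) : J ⧸ C.subgroupOf J) ∈ Subgroup.zpowers _
          rw [(QuotientGroup.eq_one_iff (N := C.subgroupOf J) (⟨k, hle hk⟩ : J)).2 hk]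
          exact Subgroup.one_mem _, rfl⟩) (by
        rw [Subgroup.zpowers_le]
        exact ⟨⟨g, hgJ⟩, Subgroup.mem_zpowers _, rfl⟩)
      obtain ⟨w, hw, hwy⟩ := hW y.2
      rw [← show w = y from Subtype.ext hwy]
      exact hw
    haveI : IsCyclic (J ⧸ C.subgroupOf J) := ⟨⟨_, hcyc⟩⟩
    letI := IsCyclic.commGroup (α := J ⧸ C.subgroupOf J)
    exact ⟨⟨fun a b => mul_comm a b⟩⟩
  have hγ1 : γ 1 = 1 := by
    obtain ⟨m, τ, hτ, hτ'⟩ := hψ
    rw [← hψe 1, ← hτ', QuotientGroup.mk_one, Representation.char_one,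
      Representation.IsIrreducible.finrank_eq_one_of_isMulCommutative τ, Nat.cast_one]
  intro c
  have h1 := congrFun hγe (Subgroup.inclusion hle c)
  have h2 : γ (Subgroup.inclusion hle c) = γ 1 := hγN ⟨Subgroup.inclusion hle c, c.2⟩
  rw [Pi.mul_apply, h2, hγ1, one_mul, hext] at h1
  exact h1

/-- An element of a `p`-group centralising the generator modulo `L` fixes every extension. -/
theorem fixes_ext {L K : Subgroup G} [hL : L.Normal] (hLK : L ≤ K) {θ : IrrCharacter K} {t g : G}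
    (hθt : Fixes (θ : K → ℂ) t) (hθg : Fixes (θ : K → ℂ) g) (htg : ⁅g, t⁆ ∈ L) {e : ℕ}
    (ht : t ^ p ^ e = 1) (hidx : ¬ p ∣ K.relIndex (K ⊔ Subgroup.zpowers g))
    {η : (K ⊔ Subgroup.zpowers g : Subgroup G) → ℂ} (hη : IsIrrCharacter _ η)
    (hext : ∀ k : K, η (Subgroup.inclusion le_sup_left k) = (θ : K → ℂ) k) : Fixes η t := by
  haveI := normal_subgroupOf_adjoin hθg
  have hc : ⁅t, g⁆ ∈ K := by
    rw [← commutatorElement_inv]; exact K.inv_mem (hLK htg)
  obtain ⟨l, hl, hle⟩ := exists_twist_hom θ.2 hθt hθg hc hη hext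
  have hgJ : g ∈ K ⊔ Subgroup.zpowers g := Subgroup.mem_sup_right (Subgroup.mem_zpowers g)
  let J : Subgroup G := K ⊔ Subgroup.zpowers g
  have hn : ∀ h ∈ J, t⁻¹ * h * t ∈ J := conj_mem_adjoin hθt hθg hc
  -- conjugation by `t` fixes the quotient by `K`
  have hmod : ∀ h : J, l ⟨t⁻¹ * h * t, hn h h.2⟩ = l h := by
    let f : J →* J := MonoidHom.codRestrict ((MulAut.conj t⁻¹).toMonoidHom.comp J.subtype) J fun y => by
      simpa using hn y y.2
    have hf : ∀ y : J, (⟨t⁻¹ * y * t, hn y y.2⟩ : J) = f y := fun y => Subtype.ext (by simp [f])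
    intro h
    rw [hf]
    let E : Subgroup J :=
      { carrier := {y | l (f y) = l y}
        one_mem' := by simp
        mul_mem' := fun {a b} ha hb => by
          show l (f (a * b)) = l (a * b)
          rw [map_mul, map_mul, map_mul, ha, hb]
        inv_mem' := fun {a} ha => by
          show l (f a⁻¹) = l a⁻¹
          rw [map_inv, map_inv, map_inv, ha] }
    have hE : J ≤ E.map J.subtype := sup_le (fun k hk => ⟨⟨k, Subgroup.mem_sup_left hk⟩, by
        show l (f _) = l _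
        rw [hl ⟨k, Subgroup.mem_sup_left hk⟩ hk, hl]
        rw [← hf]
        exact Nrm.mem_conj_inv hθt.1 hk, rfl⟩) (by
      rw [Subgroup.zpowers_le]
      refine ⟨⟨g, hgJ⟩, ?_, rfl⟩
      show l (f ⟨g, hgJ⟩) = l ⟨g, hgJ⟩
      have hm : t⁻¹ * g * t * g⁻¹ ∈ K := by
        have h1 : t⁻¹ * ⁅t, g⁆⁻¹ * t ∈ K := Nrm.mem_conj_inv hθt.1 (K.inv_mem hc)
        convert h1 using 1
        rw [commutatorElement_def]; group
      rw [show f ⟨g, hgJ⟩ = ⟨t⁻¹ * g * t * g⁻¹, Subgroup.mem_sup_left hm⟩ * ⟨g, hgJ⟩ from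
          Subtype.ext (by simp [f, mul_assoc]), map_mul, hl _ hm, one_mul])
    obtain ⟨y, hy, hye⟩ := hE h.2
    rw [← show y = h from Subtype.ext hye]
    exact hy
  -- iterate
  have hiter : ∀ (i : ℕ) (h h' : J), (h' : G) = (t ^ i)⁻¹ * h * t ^ i →
      η h' = ((l h : ℂ)) ^ i * η h ∧ l h' = l h := by
    intro i
    induction i with
    | zero =>
      intro h h' e'
      rw [show h' = h from Subtype.ext (by simpa using e'), pow_zero, one_mul]
      exact ⟨rfl, rfl⟩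
    | succ i ih =>
      intro h h' e'
      have hmem : (t ^ i)⁻¹ * h * t ^ i ∈ J := by
        have : t * h' * t⁻¹ ∈ J := by
          have hnn : Nrm J t := fun k => ⟨fun hk => by
            have h2 := conj_mem_adjoin ((fixer (θ : K → ℂ)).inv_mem hθt) hθg (by
              rw [show ⁅t⁻¹, g⁆ = t⁻¹ * ⁅t, g⁆⁻¹ * t by rw [commutatorElement_def, commutatorElement_def]; group]
              exact Nrm.mem_conj_inv hθt.1 (K.inv_mem hc)) k hk
            simpa using h2, fun hk => by simpa [mul_assoc] using hn _ hk⟩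
          exact (hnn _).1 h'.2
        rw [e', pow_succ] at this
        simpa [mul_assoc] using this
      obtain ⟨h1, h2⟩ := ih h ⟨_, hmem⟩ rfl
      have e2 : (h' : G) = t⁻¹ * ((⟨_, hmem⟩ : J) : G) * t := by
        rw [e', pow_succ]; group
      rw [hle ⟨_, hmem⟩ h' e2, h1, h2, pow_succ]
      refine ⟨by ring, ?_⟩
      rw [show h' = ⟨t⁻¹ * ((⟨_, hmem⟩ : J) : G) * t, hn _ hmem⟩ from Subtype.ext e2]
      exact (hmod ⟨_, hmem⟩).trans h2
  have hone : ∀ h : J, (∃ b : K, (h : G) = g * b) → η h = 0 ∨ l h = 1 := by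
    intro h _
    by_cases h0 : η h = 0
    · exact Or.inl h0
    refine Or.inr ?_
    have h1 := (hiter (p ^ e) h h (by rw [ht]; simp)).1
    have h2 : (l h : ℂ) ^ p ^ e = 1 := (mul_eq_right₀ h0).1 h1.symm
    have h3 : l h ^ (K.subgroupOf J).index = 1 :=
      apply_pow_index_eq_one (N := K.subgroupOf J) l (fun n => hl (n : J) n.2) h
    have h4 : l h ^ p ^ e = 1 := Units.ext (by rw [Units.val_pow_eq_pow_val, h2]; rfl)
    have h5 : orderOf (l h) ∣ Nat.gcd (p ^ e) (K.subgroupOf J).index :=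
      Nat.dvd_gcd (orderOf_dvd_of_pow_eq_one h4) (orderOf_dvd_of_pow_eq_one h3)
    rw [(Nat.Coprime.pow_left e (hp.out.coprime_iff_not_dvd.2 (show ¬ p ∣ (K.subgroupOf J).index from hidx))).gcd_eq_one, Nat.dvd_one,
      orderOf_eq_one_iff] at h5
    exact h5
  have hlg : l ⟨g, hgJ⟩ = 1 := by
    by_contra hne
    have hv : ∀ h : J, (∃ b : K, (h : G) = g * b) → η h = 0 := fun h ⟨b, hb⟩ =>
      (hone h ⟨b, hb⟩).resolve_right fun h1 => hne (by
        rw [show h = ⟨g, hgJ⟩ * Subgroup.inclusion le_sup_left b from Subtype.ext hb, map_mul,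
          hl (Subgroup.inclusion _ b) b.2, mul_one] at h1
        exact h1)
    have hgg : ⁅g, g⁆ ∈ K := by simp
    have hz : ∀ h h' : J, (∃ b : K, (h : G) = g * b) → (h' : G) = g⁻¹ * h * g → η h' = 0 ∧ η h = 0 := by
      intro h h' ⟨b, hb⟩ e'
      refine ⟨hv h' ⟨⟨g⁻¹ * b * g, Nrm.mem_conj_inv hθg.1 b.2⟩, ?_⟩, hv h ⟨b, hb⟩⟩
      rw [e', hb]
      simp [mul_assoc]
    have e0 := lam_eq_of_ext θ.2 hθg le_sup_left hgJ hgg hθg (isCharacter_of_isIrr hη) hext 0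
      fun h h' hb e' => by rw [(hz h h' hb e').1]; ring
    have e1 := lam_eq_of_ext θ.2 hθg le_sup_left hgJ hgg hθg (isCharacter_of_isIrr hη) hext 1
      fun h h' hb e' => by rw [(hz h h' hb e').1, (hz h h' hb e').2]; ring
    exact zero_ne_one (e0.symm.trans e1)
  have hltriv : ∀ h : J, l h = 1 := by
    have hE : J ≤ l.ker.map J.subtype := sup_le (fun k hk => ⟨⟨k, Subgroup.mem_sup_left hk⟩, hl _ hk, rfl⟩) (by
      rw [Subgroup.zpowers_le]
      exact ⟨⟨g, hgJ⟩, hlg, rfl⟩)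
    intro h
    obtain ⟨y, hy, hye⟩ := hE h.2
    rw [← show y = h from Subtype.ext hye]
    exact hy
  have hnn : Nrm J t := by
    intro k
    refine ⟨fun hk => ?_, fun hk => by simpa [mul_assoc] using hn _ hk⟩
    have hc2 : ⁅t⁻¹, g⁆ ∈ K := by
      rw [show ⁅t⁻¹, g⁆ = t⁻¹ * ⁅t, g⁆⁻¹ * t by rw [commutatorElement_def, commutatorElement_def]; group]
      exact Nrm.mem_conj_inv hθt.1 (K.inv_mem hc)
    simpa using conj_mem_adjoin ((fixer (θ : K → ℂ)).inv_mem hθt) hθg hc2 k hk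
  refine ⟨hnn, fun k k' e' => ?_⟩
  have h1 := hle k' k (by rw [e']; group)
  rw [h1, hltriv, Units.val_one, one_mul]

/-- The scalar is preserved when `g` is centralised by `T` modulo `L`. -/
theorem lam_eq_centralised {L K T : Subgroup G} [hL : L.Normal] (A : Act p L K T) {x g : G}
    (hidx : ¬ p ∣ L.relIndex (K ⊔ Subgroup.zpowers g)) (hg : g ∈ cm L T) (hxT : Nrm T x)
    (hc : ⁅x, g⁆ ∈ K ⊓ cm L T) {θ : IrrCharacter K} (hθT : ∀ t ∈ T, Fixes (θ : K → ℂ) t)
    (hθx : Fixes (θ : K → ℂ) x) (hθg : Fixes (θ : K → ℂ) g)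
    {φ : IrrCharacter (K ⊓ cm L T : Subgroup G)}
    (hφT : ∀ t ∈ T, Fixes (φ : (K ⊓ cm L T : Subgroup G) → ℂ) t)
    (hφx : Fixes (φ : (K ⊓ cm L T : Subgroup G) → ℂ) x)
    (hφg : Fixes (φ : (K ⊓ cm L T : Subgroup G) → ℂ) g)
    (hocc : Occ p (θ : K → ℂ) (φ : (K ⊓ cm L T : Subgroup G) → ℂ)) :
    lam (K ⊓ cm L T) (φ : (K ⊓ cm L T : Subgroup G) → ℂ) x g = lam K (θ : K → ℂ) x g := by
  have hgJ : g ∈ K ⊔ Subgroup.zpowers g := Subgroup.mem_sup_right (Subgroup.mem_zpowers g)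
  have hKJ : K ≤ K ⊔ Subgroup.zpowers g := le_sup_left
  have hidxK : ¬ p ∣ K.relIndex (K ⊔ Subgroup.zpowers g) := fun h =>
    hidx (h.trans (Dvd.intro_left _ (Subgroup.relIndex_mul_relIndex L K _ A.le hKJ)))
  obtain ⟨η, hη, hext⟩ := exists_ext θ.2 hθg
  have hηT : ∀ t ∈ T, Fixes η t := fun t ht => by
    obtain ⟨e, he⟩ := A.pgrp ⟨t, ht⟩
    exact fixes_ext A.le (hθT t ht) hθg ((mem_cm_comm.1 hg) t ht) (congrArg Subtype.val he) hidxK hη hext
  have AJ : Act p L (K ⊔ Subgroup.zpowers g) T :=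
    ⟨A.le.trans hKJ, fun t ht k hk => ((hηT t ht).1 k).1 hk, A.pgrp, hidx⟩
  have hgn : Subgroup.zpowers g ≤ Subgroup.normalizer (K : Set G) := by
    rw [Subgroup.zpowers_le]; exact fixer_le_normalizer _ hθg
  have hCJ : (K ⊔ Subgroup.zpowers g) ⊓ cm L T = (K ⊓ cm L T) ⊔ Subgroup.zpowers g := by
    refine le_antisymm (fun z hz => ?_) (sup_le (inf_le_inf_right _ hKJ) ?_)
    · obtain ⟨b, hb, a, ha, rfl⟩ := (Coprime.mem_sup_of_le_normalizer hgn).1 (sup_comm K _ ▸ hz.1)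
      have hbm : b ∈ cm L T := (Subgroup.zpowers_le.2 hg) hb
      exact Subgroup.mul_mem _ (Subgroup.mem_sup_right hb) (Subgroup.mem_sup_left ⟨ha, by
        simpa using (cm L T).mul_mem ((cm L T).inv_mem hbm) hz.2⟩)
    · rw [Subgroup.zpowers_le]; exact ⟨hgJ, hg⟩
  have hCle : K ⊓ cm L T ≤ (K ⊔ Subgroup.zpowers g) ⊓ cm L T := inf_le_inf_right _ hKJ
  let Θ : IrrCharacter (K ⊔ Subgroup.zpowers g : Subgroup G) := ⟨η, hη⟩
  have hocc' : Occ p (Θ : (K ⊔ Subgroup.zpowers g : Subgroup G) → ℂ) (φ : (K ⊓ cm L T : Subgroup G) → ℂ) := by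
    obtain ⟨m, hm, hd⟩ := hocc
    haveI := Fintype.ofFinite (K ⊓ cm L T : Subgroup G)
    refine ⟨m, ?_, hd⟩
    rw [← hm, ip_eq_classInner (hCle.trans inf_le_left), ip_eq_classInner inf_le_left]
    congr 1
    funext c
    exact hext (Subgroup.inclusion inf_le_left c)
  obtain ⟨β, hβT, hβ1, hβ2⟩ := descend hCle inf_le_left Θ φ A.pgrp hηT hφT
    (fun t ht c hc' => ⟨AJ.norm t ht c hc'.1, ((Nrm.cm (L := L)
      (nrm_iff.2 (Subgroup.le_normalizer ht))) c).1 hc'.2⟩) hocc'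
  have hβext : ∀ c : (K ⊓ cm L T : Subgroup G),
      (β : ((K ⊔ Subgroup.zpowers g) ⊓ cm L T : Subgroup G) → ℂ) (Subgroup.inclusion hCle c) =
        (φ : (K ⊓ cm L T : Subgroup G) → ℂ) c := by
    refine extends_of_over_adjoin hφg hCJ hCle β ?_
    obtain ⟨m, hm, hd⟩ := hβ2
    rw [hm]
    exact Nat.cast_ne_zero.2 fun h0 => hd (h0 ▸ dvd_zero p)
  obtain ⟨l, hl, hle⟩ := exists_twist_hom θ.2 hθx hθg hc.1 hη hext
  have hgC : g ∈ (K ⊔ Subgroup.zpowers g) ⊓ cm L T := ⟨hgJ, hg⟩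
  have hxJ : Nrm (K ⊔ Subgroup.zpowers g) x := fun k => by
    constructor
    · intro hk
      have hc2 : ⁅x⁻¹, g⁆ ∈ K := by
        rw [show ⁅x⁻¹, g⁆ = x⁻¹ * ⁅x, g⁆⁻¹ * x by rw [commutatorElement_def, commutatorElement_def]; group]
        exact Nrm.mem_conj_inv hθx.1 (K.inv_mem hc.1)
      simpa using conj_mem_adjoin ((fixer (θ : K → ℂ)).inv_mem hθx) hθg hc2 k hk
    · intro hk
      simpa [mul_assoc] using conj_mem_adjoin hθx hθg hc.1 _ hk
  -- the twisted pair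
  have hxJi := hxJ.inv
  have hxCJ : Nrm ((K ⊔ Subgroup.zpowers g) ⊓ cm L T) x⁻¹ := hxJi.inf (Nrm.cm hxT.inv)
  let lC : ((K ⊔ Subgroup.zpowers g) ⊓ cm L T : Subgroup G) →* ℂˣ :=
    (l.comp (Subgroup.inclusion inf_le_left))
  let β' : IrrCharacter ((K ⊔ Subgroup.zpowers g) ⊓ cm L T : Subgroup G) :=
    ⟨fun c => ((lC⁻¹ : _ →* ℂˣ) c : ℂ) * (cj hxCJ β : _ → ℂ) c,
      isIrrCharacter_linear_mul (cj hxCJ β).2 lC⁻¹⟩
  have hβ'eq : β' = β := by
    refine AJ.corr_unique hηT ?_ hβT ?_ hβ1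
    · intro t ht
      have h1 := fixes_cj hxCJ hxT.inv hβT t ht
      refine ⟨h1.1, fun k k' e' => ?_⟩
      show ((lC⁻¹ : _ →* ℂˣ) k' : ℂ) * _ = ((lC⁻¹ : _ →* ℂˣ) k : ℂ) * _
      rw [h1.2 k k' e']
      congr 2
      have hm : (k' : G) * (k : G)⁻¹ ∈ K :=
        A.le (by rw [e']; exact mem_cm.1 k.2.2 t ht)
      rw [show k' = ⟨(k' : G) * (k : G)⁻¹, ((K ⊔ Subgroup.zpowers g) ⊓ cm L T).mul_mem k'.2
          (Subgroup.inv_mem _ k.2)⟩ * k from Subtype.ext (by simp), map_mul]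
      rw [MonoidHom.inv_apply]
      rw [show lC ⟨(k' : G) * (k : G)⁻¹, _⟩ = 1 from hl _ hm, inv_one, one_mul]
    · obtain ⟨m, hm, hd⟩ := hβ1
      refine ⟨m, ?_, hd⟩
      haveI := Fintype.ofFinite ((K ⊔ Subgroup.zpowers g) ⊓ cm L T : Subgroup G)
      rw [ip_eq_classInner inf_le_left] at hm ⊢
      rw [← hm, classInner, classInner]
      congr 1
      refine Fintype.sum_equiv (conjEquiv hxCJ).toEquiv _ _ fun c => ?_
      show η (Subgroup.inclusion inf_le_left c) * conj (((lC⁻¹ : _ →* ℂˣ) c : ℂ) *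
          (β : _ → ℂ) (conjEquiv hxCJ c)) =
        η (Subgroup.inclusion inf_le_left (conjEquiv hxCJ c)) * conj ((β : _ → ℂ) (conjEquiv hxCJ c))
      rw [hle (Subgroup.inclusion inf_le_left c) (Subgroup.inclusion inf_le_left (conjEquiv hxCJ c))
        (by simp [coe_conjEquiv]), map_mul, MonoidHom.inv_apply]
      have hu : conj (((lC c)⁻¹ : ℂˣ) : ℂ) = (lC c : ℂ) := by
        haveI : Finite ((K ⊔ Subgroup.zpowers g) ⊓ cm L T : Subgroup G) := inferInstance
        have h1 : ‖((lC c : ℂˣ) : ℂ)‖ = 1 := by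
          refine Complex.norm_eq_one_of_pow_eq_one (n := orderOf c) ?_ (orderOf_pos c).ne'
          rw [← Units.val_pow_eq_pow_val, ← map_pow, pow_orderOf_eq_one, map_one]; rfl
        rw [Units.val_inv_eq_inv_val, Complex.inv_eq_conj h1, Complex.conj_conj]
      rw [hu]
      show η _ * ((lC c : ℂ) * _) = ((l (Subgroup.inclusion inf_le_left c) : ℂ) * η _) * _
      simp only [lC, MonoidHom.comp_apply]
      ring
  have hgb : ∀ b : K, g * b ∈ K ⊔ Subgroup.zpowers g := fun b =>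
    Subgroup.mul_mem _ hgJ (Subgroup.mem_sup_left b.2)
  rw [lam_eq_of_ext θ.2 hθx hKJ hgJ hc.1 hθg (isCharacter_of_isIrr hη) hext (l ⟨g, hgJ⟩ : ℂ)
    (fun h h' ⟨b, hb⟩ e' => by
      rw [hle h h' e']
      congr 2
      rw [show h = ⟨g, hgJ⟩ * Subgroup.inclusion hKJ b from Subtype.ext hb, map_mul,
        hl (Subgroup.inclusion hKJ b) b.2, mul_one]),
    lam_eq_of_ext φ.2 hφx hCle hgC hc hφg (isCharacter_of_isIrr β.2) hβext (l ⟨g, hgJ⟩ : ℂ)]
  intro h h' ⟨b, hb⟩ e'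
  have h1 := congrArg (fun z : IrrCharacter _ => (z : ((K ⊔ Subgroup.zpowers g) ⊓ cm L T : Subgroup G) → ℂ) h)
    hβ'eq
  simp only [β', cj_apply, MonoidHom.inv_apply] at h1
  rw [show h' = conjEquiv hxCJ h from Subtype.ext (by rw [e', coe_conjEquiv]; group)]
  have hlh : lC h = l ⟨g, hgJ⟩ := by
    show l (Subgroup.inclusion inf_le_left h) = _
    rw [show Subgroup.inclusion inf_le_left h = ⟨g, hgJ⟩ * Subgroup.inclusion (inf_le_left.trans hKJ) b from
      Subtype.ext hb, map_mul, hl (Subgroup.inclusion _ b) b.2.1, mul_one]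
  rw [hlh] at h1
  rw [← h1, ← mul_assoc, ← Units.val_mul, mul_inv_cancel, Units.val_one, one_mul]

end Cfsg.Agent.Lib.RelMcKay
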