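import Cfsg.Agent.Lib.RelMcKay.Corr

/-!
# Conjugates of characters of subgroups and the equivariance of the correspondence
-/

set_option autoImplicit false
set_option linter.unusedSectionVars false

open scoped ComplexConjugate Classical commutatorElement

namespace Cfsg.Agent.Lib.RelMcKay

open Cfsg Cfsg.Agent.Lib.Char Cfsg.Agent.Lib.CharClifford

universe u

variable {G : Type u} [Group G] [Finite G]

/-- `u` normalizes `K`, elementwise. -/
def Nrm (K : Subgroup G) (u : G) : Prop := ∀ k, k ∈ K ↔ u * k * u⁻¹ ∈ K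

theorem nrm_iff {K : Subgroup G} {u : G} : Nrm K u ↔ u ∈ Subgroup.normalizer (K : Set G) :=
  Subgroup.mem_normalizer_iff.symm

theorem Nrm.inv {K : Subgroup G} {u : G} (h : Nrm K u) : Nrm K u⁻¹ :=
  nrm_iff.2 (Subgroup.inv_mem _ (nrm_iff.1 h))

theorem Nrm.mem_conj_inv {K : Subgroup G} {u k : G} (h : Nrm K u) (hk : k ∈ K) : u⁻¹ * k * u ∈ K := by
  rw [h]; simpa [mul_assoc] using hk

/-- Conjugation of a normalized subgroup. -/
def conjEquiv {K : Subgroup G} {u : G} (h : Nrm K u) : K ≃* K where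
  toFun k := ⟨u * k * u⁻¹, (h k).1 k.2⟩
  invFun k := ⟨u⁻¹ * k * u, h.mem_conj_inv k.2⟩
  left_inv k := Subtype.ext (by simp [mul_assoc])
  right_inv k := Subtype.ext (by simp [mul_assoc])
  map_mul' k l := Subtype.ext (by simp [mul_assoc])

theorem coe_conjEquiv {K : Subgroup G} {u : G} (h : Nrm K u) (k : K) :
    (conjEquiv h k : G) = u * k * u⁻¹ := rfl

/-- The conjugate character. -/
def cj {K : Subgroup G} {u : G} (h : Nrm K u) (θ : IrrCharacter K) : IrrCharacter K :=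
  ⟨(θ : K → ℂ) ∘ conjEquiv h, isIrrCharacter_comp θ.2 (conjEquiv h).toMonoidHom (conjEquiv h).surjective⟩

theorem cj_apply {K : Subgroup G} {u : G} (h : Nrm K u) (θ : IrrCharacter K) (k : K) :
    (cj h θ : K → ℂ) k = (θ : K → ℂ) (conjEquiv h k) := rfl

theorem fixes_iff_cj {K : Subgroup G} {θ : IrrCharacter K} {u : G} (h : Nrm K u) :
    Fixes (θ : K → ℂ) u ↔ cj h θ = θ := by
  constructor
  · intro hf
    exact Subtype.ext (funext fun k => hf.2 k _ rfl)
  · intro e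
    refine ⟨h, fun k k' ek => ?_⟩
    conv_rhs => rw [← e]
    exact congrArg _ (Subtype.ext ek)

theorem cj_inj {K : Subgroup G} {u : G} (h : Nrm K u) {θ θ' : IrrCharacter K} (e : cj h θ = cj h θ') :
    θ = θ' := Subtype.ext (funext fun k => by
      have := congrArg (fun z : IrrCharacter K => (z : K → ℂ) ((conjEquiv h).symm k)) e
      simpa [cj_apply] using this)

theorem fixes_cj {K T : Subgroup G} {u : G} (h : Nrm K u) (hT : Nrm T u) {θ : IrrCharacter K}
    (hθ : ∀ t ∈ T, Fixes (θ : K → ℂ) t) : ∀ t ∈ T, Fixes (cj h θ : K → ℂ) t := by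
  intro t ht
  have h1 : Fixes (θ : K → ℂ) (u * t * u⁻¹) := hθ _ ((hT t).1 ht)
  have ht' : Nrm K t := (hθ t ht).1
  refine ⟨ht', fun k k' e => ?_⟩
  rw [cj_apply, cj_apply]
  exact h1.2 _ _ (by rw [coe_conjEquiv, coe_conjEquiv, e]; group)

theorem ip_cj {K C : Subgroup G} {u : G} (hK : Nrm K u) (hC : Nrm C u) (hCK : C ≤ K) (θ : IrrCharacter K)
    (φ : IrrCharacter C) :
    ip (cj hK θ : K → ℂ) (cj hC φ : C → ℂ) = ip (θ : K → ℂ) (φ : C → ℂ) := by
  have := Fintype.ofFinite C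
  rw [ip_eq_classInner hCK, ip_eq_classInner hCK, classInner, classInner]
  congr 1
  exact Fintype.sum_equiv (conjEquiv hC).toEquiv _ _ fun c => by
    rw [cj_apply, cj_apply]
    rfl

theorem Nrm.inf {K K' : Subgroup G} {u : G} (h : Nrm K u) (h' : Nrm K' u) : Nrm (K ⊓ K') u := fun k => by
  rw [Subgroup.mem_inf, Subgroup.mem_inf, h k, h' k]

theorem Nrm.cm {L T : Subgroup G} [hL : L.Normal] {u : G} (hT : Nrm T u) :
    Nrm (cm L T) u := fun k => by
  rw [mem_cm, mem_cm]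
  constructor
  · intro h t ht
    have h1 := hL.conj_mem _ (h (u⁻¹ * t * u) (hT.mem_conj_inv ht)) u
    convert h1 using 1
    group
  · intro h t ht
    have h1 := hL.conj_mem _ (h (u * t * u⁻¹) ((hT t).1 ht)) u⁻¹
    convert h1 using 1
    group

namespace Act

variable {p : ℕ} [hp : Fact p.Prime] {L J T : Subgroup G} [hL : L.Normal]

/-- The correspondence commutes with conjugation. -/
theorem corr_cj (A : Act p L J T) {u : G} (hT : Nrm T u) (hJ : Nrm J u) {θ : IrrCharacter J}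
    (hθ : ∀ t ∈ T, Fixes (θ : J → ℂ) t) {φ : IrrCharacter (J ⊓ cm L T : Subgroup G)}
    (hφ : ∀ t ∈ T, Fixes (φ : (J ⊓ cm L T : Subgroup G) → ℂ) t)
    (h : Occ p (θ : J → ℂ) (φ : (J ⊓ cm L T : Subgroup G) → ℂ)) :
    Occ p (cj hJ θ : J → ℂ) (cj (hJ.inf hT.cm) φ : (J ⊓ cm L T : Subgroup G) → ℂ) := by
  obtain ⟨m, hm, hd⟩ := h
  exact ⟨m, (ip_cj hJ (hJ.inf hT.cm) inf_le_left θ φ).trans hm, hd⟩

/-- An element fixing a character fixes its correspondent. -/
theorem fixes_corr (A : Act p L J T) {u : G} (hT : Nrm T u) {θ : IrrCharacter J}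
    (hθu : Fixes (θ : J → ℂ) u) (hθ : ∀ t ∈ T, Fixes (θ : J → ℂ) t)
    {φ : IrrCharacter (J ⊓ cm L T : Subgroup G)}
    (hφ : ∀ t ∈ T, Fixes (φ : (J ⊓ cm L T : Subgroup G) → ℂ) t)
    (h : Occ p (θ : J → ℂ) (φ : (J ⊓ cm L T : Subgroup G) → ℂ)) :
    Fixes (φ : (J ⊓ cm L T : Subgroup G) → ℂ) u := by
  have h1 := A.corr_cj hT hθu.1 hθ hφ h
  rw [(fixes_iff_cj hθu.1).1 hθu] at h1
  have hC : Nrm (J ⊓ RelMcKay.cm L T) u := Nrm.inf hθu.1 (Nrm.cm hT)
  exact (fixes_iff_cj hC).2 (A.corr_unique hθ (fixes_cj hC hT hφ) hφ h1 h)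

end Act

end Cfsg.Agent.Lib.RelMcKay
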