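import Cfsg.Agent.Lib.RelMcKay.Count
import Cfsg.Agent.Lib.RelMcKay.Conj
import Cfsg.Agent.Lib.CharClifford.Correspondence
import Cfsg.Agent.Lib.CharClifford.Divides
import Mathlib.GroupTheory.Sylow

/-!
# Clifford theory for subgroups of an ambient group, and orbit counting
-/

set_option autoImplicit false
set_option linter.unusedSectionVars false

open scoped ComplexConjugate Classical commutatorElement

namespace Cfsg.Agent.Lib.RelMcKay

open Cfsg Cfsg.Agent.Lib.Char Cfsg.Agent.Lib.CharClifford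

universe u v

variable {G : Type u} [Group G] [Finite G]

/-- The number of characters of `H` of degree prime to `p` over a function on a subgroup. -/
noncomputable def cnt (p : ℕ) (H : Subgroup G) {K : Subgroup G} (θ : K → ℂ) : ℕ :=
  Nat.card {χ : IrrCharacter H // ¬ p ∣ charDegree (χ : H → ℂ) ∧ ip (χ : H → ℂ) θ ≠ 0}

/-- Equivariant families of orbits with equal fibres have equal totals. -/
theorem card_eq_of_orbits {N : Type v} [Group N] [Finite N] {X₁ X₂ : Type u} [Finite X₁] [Finite X₂]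
    {Y₁ Y₂ : Type u} [Finite Y₁] [Finite Y₂] [MulAction N Y₁] [MulAction N Y₂]
    (r₁ : X₁ → Y₁ → Prop) (r₂ : X₂ → Y₂ → Prop)
    (i₁ : ∀ x (n : N) y, r₁ x y → r₁ x (n • y)) (i₂ : ∀ x (n : N) y, r₂ x y → r₂ x (n • y))
    (e₁ : ∀ x, ∃ y, r₁ x y) (e₂ : ∀ x, ∃ y, r₂ x y)
    (t₁ : ∀ x y y', r₁ x y → r₁ x y' → ∃ n : N, n • y = y')
    (t₂ : ∀ x y y', r₂ x y → r₂ x y' → ∃ n : N, n • y = y')
    (f : Y₁ ≃ Y₂) (hf : ∀ (n : N) y, f (n • y) = n • f y)
    (hfib : ∀ y, Nat.card {x // r₁ x y} = Nat.card {x // r₂ x (f y)}) :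
    Nat.card X₁ = Nat.card X₂ := by
  have key : ∀ {X : Type u} [Finite X] {Y : Type u} [Finite Y] [MulAction N Y] (r : X → Y → Prop),
      (∀ x (n : N) y, r x y → r x (n • y)) → (∀ x, ∃ y, r x y) →
      (∀ x y y', r x y → r x y' → ∃ n : N, n • y = y') →
      Nat.card (Σ y : Y, {x // r x y} × MulAction.stabilizer N y) = Nat.card X * Nat.card N := by
    intro X _ Y _ _ r i e t
    choose y₀ hy₀ using e
    choose c hc using fun (z : Σ y : Y, {x // r x y}) => t z.2.1 (y₀ z.2.1) z.1 (hy₀ _) z.2.2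
    let F : (Σ y : Y, {x // r x y} × MulAction.stabilizer N y) → X × N :=
      fun z => (z.2.1.1, (z.2.2 : N) * c ⟨z.1, z.2.1⟩)
    rw [← Nat.card_prod]
    refine Nat.card_congr (Equiv.ofBijective F ⟨?_, ?_⟩)
    · rintro ⟨y, ⟨x, hx⟩, ⟨n, hn⟩⟩ ⟨y', ⟨x', hx'⟩, ⟨n', hn'⟩⟩ h
      simp only [F, Prod.mk.injEq] at h
      obtain ⟨rfl, h2⟩ := h
      have e1 : (n * c ⟨y, x, hx⟩) • y₀ x = y := by
        rw [mul_smul, show c ⟨y, x, hx⟩ • y₀ x = y from hc ⟨y, x, hx⟩]
        exact MulAction.mem_stabilizer_iff.1 hn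
      have e2 : (n' * c ⟨y', x, hx'⟩) • y₀ x = y' := by
        rw [mul_smul, show c ⟨y', x, hx'⟩ • y₀ x = y' from hc ⟨y', x, hx'⟩]
        exact MulAction.mem_stabilizer_iff.1 hn'
      have hy : y = y' := by
        rw [← e1, ← e2]
        exact congrArg (· • y₀ x) h2
      subst hy
      obtain rfl : n = n' := mul_right_cancel h2
      rfl
    · rintro ⟨x, m⟩
      have hx : r x (m • y₀ x) := i x m _ (hy₀ x)
      refine ⟨⟨m • y₀ x, ⟨x, hx⟩, ⟨m * (c ⟨_, x, hx⟩)⁻¹, ?_⟩⟩, ?_⟩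
      · have h1 := hc ⟨_, x, hx⟩
        simp only at h1
        rw [MulAction.mem_stabilizer_iff, mul_smul]
        conv_lhs => rw [show (c ⟨m • y₀ x, x, hx⟩)⁻¹ • m • y₀ x = y₀ x from inv_smul_eq_iff.2 h1.symm]
      · simp [F]
  refine Nat.eq_of_mul_eq_mul_right (Nat.card_pos (α := N)) ?_
  rw [← key r₁ i₁ e₁ t₁, ← key r₂ i₂ e₂ t₂]
  refine Nat.card_congr ((Equiv.sigmaCongrRight fun y => ?_).trans (Equiv.sigmaCongrLeft f
    (β := fun y => {x // r₂ x y} × MulAction.stabilizer N y)))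
  refine (Finite.card_eq.1 (hfib y)).some.prodCongr (Equiv.subtypeEquivRight fun n => ?_)
  rw [MulAction.mem_stabilizer_iff, MulAction.mem_stabilizer_iff, ← hf, f.injective.eq_iff]

/-- The conjugation action of a normalizing subgroup on a stable set of characters. -/
@[reducible] def cjAction (N : Subgroup G) {K : Subgroup G} (A : IrrCharacter K → Prop)
    (hn : ∀ u ∈ N, Nrm K u) (hA : ∀ (u : G) (hu : u ∈ N) θ, A θ → A (cj (hn u hu) θ)) :
    MulAction N {θ : IrrCharacter K // A θ} where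
  smul u θ := ⟨cj (hn _ (N.inv_mem u.2)) θ.1, hA _ (N.inv_mem u.2) _ θ.2⟩
  one_smul θ := Subtype.ext (Subtype.ext (funext fun k => by
    show (θ.1 : K → ℂ) (conjEquiv _ k) = (θ.1 : K → ℂ) k
    exact congrArg _ (Subtype.ext (by simp [coe_conjEquiv]))))
  mul_smul u v θ := Subtype.ext (Subtype.ext (funext fun k => by
    show (θ.1 : K → ℂ) (conjEquiv _ k) = (θ.1 : K → ℂ) (conjEquiv _ (conjEquiv _ k))
    exact congrArg _ (Subtype.ext (by simp [coe_conjEquiv, mul_assoc]))))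

theorem ip_natCast {H K : Subgroup G} (hle : K ≤ H) (χ : IrrCharacter H) (θ : IrrCharacter K) :
    ∃ m : ℕ, ip (χ : H → ℂ) (θ : K → ℂ) = m := by
  have := Fintype.ofFinite K
  rw [ip_eq_classInner hle]
  exact classInner_natCast (isCharacter_comp (isCharacter_of_isIrr χ.2) (Subgroup.inclusion hle))
    (isCharacter_of_isIrr θ.2)

theorem ip_cj_left {H K : Subgroup G} (hle : K ≤ H) (χ : IrrCharacter H) (θ : IrrCharacter K) {u : G}
    (hu : u ∈ H) (hK : Nrm K u) :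
    ip (χ : H → ℂ) (cj hK θ : K → ℂ) = ip (χ : H → ℂ) (θ : K → ℂ) := by
  have := Fintype.ofFinite K
  rw [ip_eq_classInner hle, ip_eq_classInner hle, classInner, classInner]
  congr 1
  refine Fintype.sum_equiv (conjEquiv hK).toEquiv _ _ fun c => ?_
  rw [cj_apply]
  refine congrArg (· * _) ?_
  show (χ : H → ℂ) (Subgroup.inclusion hle c) = (χ : H → ℂ) (Subgroup.inclusion hle (conjEquiv hK c))
  rw [show Subgroup.inclusion hle (conjEquiv hK c) =
    (⟨u, hu⟩ : H) * Subgroup.inclusion hle c * (⟨u, hu⟩ : H)⁻¹ from Subtype.ext rfl,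
    isClassFunction_of_isIrr χ.2]

/-- Multiplicities through an intermediate subgroup. -/
theorem ip_trans {H K L : Subgroup G} (hLK : L ≤ K) (hKH : K ≤ H) (χ : IrrCharacter H)
    (ν : IrrCharacter L) :
    ip (χ : H → ℂ) (ν : L → ℂ) =
      ∑ᶠ β : IrrCharacter K, ip (χ : H → ℂ) (β : K → ℂ) * ip (β : K → ℂ) (ν : L → ℂ) := by
  have := Fintype.ofFinite L
  have := Fintype.ofFinite K
  rw [finsum_eq_sum_of_fintype, ip_eq_classInner (hLK.trans hKH)]
  have hres : (fun c : L => (χ : H → ℂ) (Subgroup.inclusion (hLK.trans hKH) c)) =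
      ∑ β : IrrCharacter K, ip (χ : H → ℂ) (β : K → ℂ) •
        fun c : L => (β : K → ℂ) (Subgroup.inclusion hLK c) := by
    funext c
    have h1 := congrFun (eq_sum_classInner_smul (isClassFunction_of_isCharacter
      (isCharacter_comp (isCharacter_of_isIrr χ.2) (Subgroup.inclusion hKH)))) (Subgroup.inclusion hLK c)
    simp only [Finset.sum_apply, Pi.smul_apply, Function.comp_apply] at h1 ⊢
    rw [show (χ : H → ℂ) (Subgroup.inclusion (hLK.trans hKH) c) =
      (χ : H → ℂ) (Subgroup.inclusion hKH (Subgroup.inclusion hLK c)) from rfl, h1]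
    exact Finset.sum_congr rfl fun β _ => by rw [ip_eq_classInner hKH]; rfl
  rw [hres, classInner_sum_left]
  exact Finset.sum_congr rfl fun β _ => by rw [classInner_smul_left, ip_eq_classInner hLK]

theorem ip_ne_zero_of_trans {H K L : Subgroup G} (hLK : L ≤ K) (hKH : K ≤ H) (χ : IrrCharacter H)
    (θ : IrrCharacter K) (ν : IrrCharacter L) (h1 : ip (χ : H → ℂ) (θ : K → ℂ) ≠ 0)
    (h2 : ip (θ : K → ℂ) (ν : L → ℂ) ≠ 0) : ip (χ : H → ℂ) (ν : L → ℂ) ≠ 0 := by
  rw [ip_trans hLK hKH χ ν, finsum_eq_sum_of_fintype]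
  choose u hu using fun β : IrrCharacter K => ip_natCast hKH χ β
  choose w hw using fun β : IrrCharacter K => ip_natCast hLK β ν
  simp only [hu, hw, ← Nat.cast_mul, ← Nat.cast_sum, Nat.cast_ne_zero] at h1 h2 ⊢
  exact Nat.pos_iff_ne_zero.1 (lt_of_lt_of_le (Nat.pos_of_ne_zero (Nat.mul_ne_zero h1 h2))
    (Finset.single_le_sum (f := fun β => u β * w β) (fun _ _ => Nat.zero_le _) (Finset.mem_univ θ)))

theorem exists_ip_ne_zero {H K : Subgroup G} (hKH : K ≤ H) (χ : IrrCharacter H) :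
    ∃ θ : IrrCharacter K, ip (χ : H → ℂ) (θ : K → ℂ) ≠ 0 := by
  have := Fintype.ofFinite K
  have := Fintype.ofFinite H
  obtain ⟨θ, hθ⟩ := exists_constituent
    (isCharacter_comp (isCharacter_of_isIrr χ.2) (Subgroup.inclusion hKH))
    fun h => irr_degree_ne_zero χ.2 (by
      have := congrFun h 1
      simp only [Function.comp_apply, map_one] at this
      exact this)
  exact ⟨θ, by rw [ip_eq_classInner hKH]; exact hθ⟩

section Sub

variable {H K : Subgroup G} (hle : K ≤ H)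

include hle

theorem classInner_sub [Fintype (K.subgroupOf H)] (χ : IrrCharacter H) (θ : K → ℂ) :
    classInner (fun n : K.subgroupOf H => (χ : H → ℂ) n) (θ ∘ Subgroup.subgroupOfEquivOfLe hle) =
      ip (χ : H → ℂ) θ := by
  have := Fintype.ofFinite K
  rw [ip_eq_classInner hle, ← classInner_comp_equiv (Subgroup.subgroupOfEquivOfLe hle)
    (fun c : K => (χ : H → ℂ) (Subgroup.inclusion hle c)) θ]
  rfl

/-- Constituents in a normalized subgroup are conjugate. -/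
theorem conj_of_constituents (hn : ∀ h ∈ H, Nrm K h) (χ : IrrCharacter H) {θ θ' : IrrCharacter K}
    (h : ip (χ : H → ℂ) (θ : K → ℂ) ≠ 0) (h' : ip (χ : H → ℂ) (θ' : K → ℂ) ≠ 0) :
    ∃ (u : G) (hu : u ∈ H), cj (hn u hu) θ = θ' := by
  have := Fintype.ofFinite H
  have := Fintype.ofFinite (K.subgroupOf H)
  haveI : (K.subgroupOf H).Normal := ⟨fun n hm h => ((hn (h : G) h.2) _).1 hm⟩
  let e := Subgroup.subgroupOfEquivOfLe hle
  have h1 := conjugate_of_constituents (K.subgroupOf H) χ.2 (isIrrCharacter_comp_equiv e θ.2)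
    (isIrrCharacter_comp_equiv e θ'.2) (by rw [classInner_sub hle]; exact h)
    (by rw [classInner_sub hle]; exact h')
  obtain ⟨u, hu⟩ := h1
  refine ⟨u, u.2, Subtype.ext (funext fun k => ?_)⟩
  have h2 := congrFun hu (e.symm k)
  simp only [Function.comp_apply, MulEquiv.apply_symm_apply, conjChar_apply] at h2
  rw [← h2, cj_apply]
  exact congrArg _ (Subtype.ext rfl)

/-- The degree in terms of a constituent. -/
theorem degree_eq_mul (hn : ∀ h ∈ H, Nrm K h) (χ : IrrCharacter H) (θ : IrrCharacter K) {e : ℕ}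
    (he : ip (χ : H → ℂ) (θ : K → ℂ) = e) (he0 : e ≠ 0) :
    charDegree (χ : H → ℂ) =
      e * (H ⊓ fixer (θ : K → ℂ)).relIndex H * charDegree (θ : K → ℂ) := by
  have := Fintype.ofFinite H
  have := Fintype.ofFinite (K.subgroupOf H)
  haveI : (K.subgroupOf H).Normal := ⟨fun n hm h => ((hn (h : G) h.2) _).1 hm⟩
  let ee := Subgroup.subgroupOfEquivOfLe hle
  have h1 := clifford_degree (K.subgroupOf H) χ.2 (isIrrCharacter_comp_equiv ee θ.2)
    (by rw [classInner_sub hle, he]; exact Nat.cast_ne_zero.2 he0)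
  rw [classInner_sub hle, he] at h1
  have hI : inertia (K.subgroupOf H) ((θ : K → ℂ) ∘ ee) = (H ⊓ fixer (θ : K → ℂ)).subgroupOf H := by
    ext u
    rw [mem_inertia, Subgroup.mem_subgroupOf, Subgroup.mem_inf, mem_fixer, fixes_iff_cj (hn _ u.2),
      and_iff_right u.2]
    constructor
    · intro h
      refine Subtype.ext (funext fun k => ?_)
      have h2 := congrFun h (ee.symm k)
      simp only [Function.comp_apply, MulEquiv.apply_symm_apply, conjChar_apply] at h2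
      rw [cj_apply]
      exact Eq.trans (congrArg _ (Subtype.ext rfl)) h2
    · intro h
      funext k
      rw [conjChar_apply]
      have h2 := congrArg (fun z : IrrCharacter K => (z : K → ℂ) (ee k)) h
      simp only [cj_apply] at h2
      simp only [Function.comp_apply]
      exact Eq.trans (congrArg _ (Subtype.ext rfl)) h2
  rw [hI] at h1
  apply Nat.cast_injective (R := ℂ)
  rw [← CharAux.charDegree_eq (isCharacter_of_isIrr χ.2), h1, Function.comp_apply, map_one,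
    CharAux.charDegree_eq (isCharacter_of_isIrr θ.2)]
  push_cast
  rfl

/-- A character of degree prime to `p` has a constituent fixed by a Sylow subgroup. -/
theorem exists_fixed_constituent {p : ℕ} [Fact p.Prime] (hn : ∀ h ∈ H, Nrm K h) {S : Subgroup G}
    (hS : IsPGroup p S) (hSH : S ≤ H) (χ : IrrCharacter H) (hχ : ¬ p ∣ charDegree (χ : H → ℂ)) :
    ∃ θ : IrrCharacter K, (∀ s ∈ S, Fixes (θ : K → ℂ) s) ∧ ¬ p ∣ charDegree (θ : K → ℂ) ∧
      ip (χ : H → ℂ) (θ : K → ℂ) ≠ 0 := by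
  obtain ⟨θ₀, h0⟩ := exists_ip_ne_zero hle χ
  have hstab : ∀ (u : G) (hu : u ∈ H) (θ : IrrCharacter K), ip (χ : H → ℂ) (θ : K → ℂ) ≠ 0 →
      ip (χ : H → ℂ) (cj (hn u hu) θ : K → ℂ) ≠ 0 := fun u hu θ h => by
    rw [ip_cj_left hle χ θ hu]; exact h
  letI : MulAction H {θ : IrrCharacter K // ip (χ : H → ℂ) (θ : K → ℂ) ≠ 0} := cjAction H _ hn hstab
  haveI : MulAction.IsPretransitive H {θ : IrrCharacter K // ip (χ : H → ℂ) (θ : K → ℂ) ≠ 0} := ⟨fun a b => by
    obtain ⟨u, hu, e⟩ := conj_of_constituents hle hn χ a.2 b.2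
    refine ⟨⟨u, hu⟩⁻¹, Subtype.ext ?_⟩
    rw [← e]
    show cj _ a.1 = cj _ a.1
    congr 1
    simp⟩
  have hdeg : ∀ θ : IrrCharacter K, ip (χ : H → ℂ) (θ : K → ℂ) ≠ 0 →
      ¬ p ∣ charDegree (θ : K → ℂ) ∧ ¬ p ∣ (H ⊓ fixer (θ : K → ℂ)).relIndex H := by
    intro θ h
    obtain ⟨e, he⟩ := ip_natCast hle χ θ
    have he0 : e ≠ 0 := fun e0 => h (by rw [he, e0, Nat.cast_zero])
    rw [degree_eq_mul hle hn χ θ he he0] at hχ
    exact ⟨fun hd => hχ (hd.mul_left _), fun hd => hχ ((hd.mul_left _).mul_right _)⟩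
  have hidx : (MulAction.stabilizer H (⟨θ₀, h0⟩ : {θ : IrrCharacter K // ip (χ : H → ℂ) (θ : K → ℂ) ≠ 0})).index =
      (H ⊓ fixer (θ₀ : K → ℂ)).relIndex H := by
    refine congrArg Subgroup.index (Subgroup.ext fun u => ?_)
    rw [MulAction.mem_stabilizer_iff, Subgroup.mem_subgroupOf, Subgroup.mem_inf, and_iff_right u.2,
      ← inv_mem_iff (H := fixer (θ₀ : K → ℂ)), mem_fixer, fixes_iff_cj (hn _ (H.inv_mem u.2))]
    exact ⟨fun h => congrArg Subtype.val h, fun h => Subtype.ext h⟩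
  have hcard : ¬ p ∣ Nat.card {θ : IrrCharacter K // ip (χ : H → ℂ) (θ : K → ℂ) ≠ 0} := by
    rw [← MulAction.index_stabilizer_of_transitive H
      (⟨θ₀, h0⟩ : {θ : IrrCharacter K // ip (χ : H → ℂ) (θ : K → ℂ) ≠ 0}), hidx]
    exact (hdeg θ₀ h0).2
  letI : MulAction S {θ : IrrCharacter K // ip (χ : H → ℂ) (θ : K → ℂ) ≠ 0} :=
    cjAction S _ (fun u hu => hn u (hSH hu)) (fun u hu θ h => hstab u (hSH hu) θ h)
  obtain ⟨θ, hθ⟩ := hS.nonempty_fixed_point_of_prime_not_dvd_card _ hcard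
  refine ⟨θ.1, fun s hs => ?_, (hdeg θ.1 θ.2).1, θ.2⟩
  rw [← inv_inv s]
  refine (fixer (θ.1 : K → ℂ)).inv_mem ((fixes_iff_cj (hn _ (H.inv_mem (hSH hs)))).2 ?_)
  exact congrArg Subtype.val (hθ ⟨s, hs⟩)

/-- Two constituents fixed by a Sylow subgroup are conjugate in its normalizer. -/
theorem fixed_transitive {p : ℕ} [Fact p.Prime] (hn : ∀ h ∈ H, Nrm K h) {S : Subgroup G}
    (hS : IsPGroup p S) (hSH : S ≤ H) (hidx : ¬ p ∣ S.relIndex H) (χ : IrrCharacter H)
    {θ θ' : IrrCharacter K} (hθ : ∀ s ∈ S, Fixes (θ : K → ℂ) s) (hθ' : ∀ s ∈ S, Fixes (θ' : K → ℂ) s)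
    (h : ip (χ : H → ℂ) (θ : K → ℂ) ≠ 0) (h' : ip (χ : H → ℂ) (θ' : K → ℂ) ≠ 0) :
    ∃ (u : G) (hu : u ∈ H), Nrm S u ∧ cj (hn u hu) θ = θ' := by
  obtain ⟨h₀, hh₀, e⟩ := conj_of_constituents hle hn χ h h'
  let I : Subgroup G := H ⊓ fixer (θ : K → ℂ)
  have hSI : S ≤ I := le_inf hSH hθ
  have hidxI : ¬ p ∣ (S.subgroupOf I).index := fun hd =>
    hidx (hd.trans (Dvd.intro _ (Subgroup.relIndex_mul_relIndex S I H hSI inf_le_left)))
  let T : Subgroup G := S.map (MulAut.conj h₀).toMonoidHom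
  have hT : ∀ s ∈ S, h₀ * s * h₀⁻¹ ∈ I := by
    intro s hs
    refine ⟨H.mul_mem (H.mul_mem hh₀ (hSH hs)) (H.inv_mem hh₀), (fixes_iff_cj (hn _ ?_)).2 ?_⟩
    · exact H.mul_mem (H.mul_mem hh₀ (hSH hs)) (H.inv_mem hh₀)
    · have h1 := (fixes_iff_cj (hn _ (hSH hs))).1 (hθ' s hs)
      refine cj_inj (hn _ hh₀) ?_
      rw [e]
      conv_rhs => rw [← h1, ← e]
      refine Subtype.ext (funext fun k => congrArg (θ : K → ℂ) (Subtype.ext ?_))
      show h₀ * s * h₀⁻¹ * (h₀ * (k : G) * h₀⁻¹) * (h₀ * s * h₀⁻¹)⁻¹ = h₀ * (s * (k : G) * s⁻¹) * h₀⁻¹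
      group
  have hTI : T ≤ I := by
    rintro _ ⟨s, hs, rfl⟩
    exact hT s hs
  have hTp : IsPGroup p (T.subgroupOf I) :=
    (hS.map (MulAut.conj h₀).toMonoidHom).of_equiv (Subgroup.subgroupOfEquivOfLe hTI).symm
  let P₁ : Sylow p I := IsPGroup.toSylow (P := S.subgroupOf I)
    (hS.of_equiv (Subgroup.subgroupOfEquivOfLe hSI).symm) hidxI
  have hTidx : ¬ p ∣ (T.subgroupOf I).index := by
    intro hd
    have h2 : (T.subgroupOf I).index * Nat.card (T.subgroupOf I) =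
        (S.subgroupOf I).index * Nat.card (S.subgroupOf I) := by
      rw [Subgroup.index_mul_card, Subgroup.index_mul_card]
    have h3 : Nat.card (T.subgroupOf I) = Nat.card (S.subgroupOf I) := by
      rw [Nat.card_congr (Subgroup.subgroupOfEquivOfLe hTI).toEquiv,
        Nat.card_congr (Subgroup.subgroupOfEquivOfLe hSI).toEquiv]
      exact (Subgroup.card_map_of_injective (MulAut.conj h₀).injective)
    rw [h3] at h2
    exact hidxI (Nat.eq_of_mul_eq_mul_right Nat.card_pos h2 ▸ hd)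
  let P₂ : Sylow p I := IsPGroup.toSylow hTp hTidx
  obtain ⟨i, hi⟩ := MulAction.exists_smul_eq I P₁ P₂
  have hiS : ∀ s ∈ S, (i : G) * s * (i : G)⁻¹ ∈ T := fun s hs => by
    have h4 : MulAut.conj i • (⟨s, hSI hs⟩ : I) ∈ (P₂ : Subgroup I) := by
      rw [← hi]
      exact ⟨⟨s, hSI hs⟩, (Subgroup.mem_subgroupOf.2 hs : (⟨s, hSI hs⟩ : I) ∈ S.subgroupOf I), rfl⟩
    exact h4
  refine ⟨(i : G)⁻¹ * h₀, H.mul_mem (H.inv_mem i.2.1) hh₀, ?_, ?_⟩
  · have hmaps : ∀ s ∈ S, h₀⁻¹ * ((i : G) * s * (i : G)⁻¹) * h₀ ∈ S := fun s hs => by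
      obtain ⟨s', hs', e'⟩ := hiS s hs
      rw [← e']
      simpa [mul_assoc] using hs'
    have h5 : Nrm S (h₀⁻¹ * (i : G)) := by
      have hf : ∀ s, s ∈ S → h₀⁻¹ * (i : G) * s * (h₀⁻¹ * (i : G))⁻¹ ∈ S := fun s hs => by
        simpa [mul_assoc] using hmaps s hs
      intro k
      refine ⟨hf k, fun hk => ?_⟩
      let f : S → S := fun z => ⟨_, hf z z.2⟩
      obtain ⟨z, hz⟩ := (Finite.surjective_of_injective (f := f) fun a b e =>
        Subtype.ext (by simpa [f, mul_assoc] using congrArg Subtype.val e)) ⟨_, hk⟩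
      have : (z : G) = k := by simpa [f, mul_assoc] using congrArg Subtype.val hz
      exact this ▸ z.2
    simpa using h5.inv
  · rw [← e]
    have hfix := (fixer (θ : K → ℂ)).inv_mem i.2.2
    refine Subtype.ext (funext fun k => ?_)
    rw [cj_apply, cj_apply]
    exact hfix.2 _ _ (by simp [coe_conjEquiv, mul_assoc])

/-- The reduction to the inertia group. -/
theorem cnt_inertia {p : ℕ} [hp : Fact p.Prime] (hn : ∀ h ∈ H, Nrm K h) (θ : IrrCharacter K)
    (hidx : ¬ p ∣ (H ⊓ fixer (θ : K → ℂ)).relIndex H) :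
    cnt p H (θ : K → ℂ) = cnt p (H ⊓ fixer (θ : K → ℂ)) (θ : K → ℂ) := by
  have := Fintype.ofFinite H
  have := Fintype.ofFinite (K.subgroupOf H)
  haveI : (K.subgroupOf H).Normal := ⟨fun n hm h => ((hn (h : G) h.2) _).1 hm⟩
  let ee := Subgroup.subgroupOfEquivOfLe hle
  set I : Subgroup G := H ⊓ fixer (θ : K → ℂ) with hIdef
  let T : Subgroup H := I.subgroupOf H
  have := Fintype.ofFinite T
  have hθ' : IsIrrCharacter (K.subgroupOf H) ((θ : K → ℂ) ∘ ee) := isIrrCharacter_comp_equiv ee θ.2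
  have hKI : K ≤ I := le_inf hle fun k hk => ⟨nrm_iff.2 (Subgroup.le_normalizer hk), fun m m' e' => by
    rw [show m' = (⟨k, hk⟩ : K) * m * (⟨k, hk⟩ : K)⁻¹ from Subtype.ext e', isClassFunction_of_isIrr θ.2]⟩
  have hNT : K.subgroupOf H ≤ T := fun z hz => hKI hz
  have hT : inertia (K.subgroupOf H) ((θ : K → ℂ) ∘ ee) = T := by
    ext u
    rw [mem_inertia, Subgroup.mem_subgroupOf, Subgroup.mem_inf, mem_fixer, fixes_iff_cj (hn _ u.2),
      and_iff_right u.2]
    constructor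
    · intro h
      refine Subtype.ext (funext fun k => ?_)
      have h2 := congrFun h (ee.symm k)
      simp only [Function.comp_apply, MulEquiv.apply_symm_apply, conjChar_apply] at h2
      rw [cj_apply]
      exact Eq.trans (congrArg _ (Subtype.ext rfl)) h2
    · intro h
      funext k
      rw [conjChar_apply]
      have h2 := congrArg (fun z : IrrCharacter K => (z : K → ℂ) (ee k)) h
      simp only [cj_apply] at h2
      simp only [Function.comp_apply]
      exact Eq.trans (congrArg _ (Subtype.ext rfl)) h2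
  let eT : T ≃* I := Subgroup.subgroupOfEquivOfLe inf_le_left
  have hres : ∀ ψ : IrrCharacter I, classInner (resLe hNT ((ψ : I → ℂ) ∘ eT)) ((θ : K → ℂ) ∘ ee) =
      ip (ψ : I → ℂ) (θ : K → ℂ) := by
    intro ψ
    have := Fintype.ofFinite K
    rw [ip_eq_classInner hKI, ← classInner_comp_equiv ee
      (fun c : K => (ψ : I → ℂ) (Subgroup.inclusion hKI c)) (θ : K → ℂ)]
    rfl
  have hidx' : T.index = I.relIndex H := rfl
  have hdeg : ∀ (ψ : IrrCharacter I) (X : IrrCharacter H), (X : H → ℂ) = indFun T ((ψ : I → ℂ) ∘ eT) →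
      charDegree (X : H → ℂ) = I.relIndex H * charDegree (ψ : I → ℂ) := by
    intro ψ X hX
    apply Nat.cast_injective (R := ℂ)
    rw [← CharAux.charDegree_eq (isCharacter_of_isIrr X.2), hX, indFun_one, Nat.cast_mul,
      ← CharAux.charDegree_eq (isCharacter_of_isIrr ψ.2), Function.comp_apply, map_one, hidx']
  have hnd : ∀ d : ℕ, (¬ p ∣ I.relIndex H * d ↔ ¬ p ∣ d) := fun d => by
    rw [hp.out.dvd_mul]
    exact ⟨fun h hd => h (Or.inr hd), fun h hd => hd.elim hidx h⟩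
  have hov : ∀ (ψ : IrrCharacter I), ip (ψ : I → ℂ) (θ : K → ℂ) ≠ 0 →
      classInner (resLe hNT ((ψ : I → ℂ) ∘ eT)) ((θ : K → ℂ) ∘ ee) ≠ 0 := fun ψ h => by rw [hres]; exact h
  let F : {ψ : IrrCharacter I // ¬ p ∣ charDegree (ψ : I → ℂ) ∧ ip (ψ : I → ℂ) (θ : K → ℂ) ≠ 0} →
      {χ : IrrCharacter H // ¬ p ∣ charDegree (χ : H → ℂ) ∧ ip (χ : H → ℂ) (θ : K → ℂ) ≠ 0} := fun ψ =>
    ⟨⟨indFun T ((ψ.1 : I → ℂ) ∘ eT), (indFun_correspondent (K.subgroupOf H) hθ' T hT hNT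
      (isIrrCharacter_comp_equiv eT ψ.1.2) (hov ψ.1 ψ.2.2)).1⟩,
      by rw [hdeg ψ.1 _ rfl, hnd]; exact ψ.2.1, by
        obtain ⟨h1, h2⟩ := indFun_correspondent (K.subgroupOf H) hθ' T hT hNT
          (isIrrCharacter_comp_equiv eT ψ.1.2) (hov ψ.1 ψ.2.2)
        have hcon : classInner (fun t : T => indFun T ((ψ.1 : I → ℂ) ∘ eT) t) ((ψ.1 : I → ℂ) ∘ eT) ≠ 0 := by
          rw [classInner_conj_symm, ← classInner_indFun T _ (isClassFunction_of_isIrr h1),
            classInner_irr_self h1, map_one]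
          exact one_ne_zero
        obtain ⟨-, h4, -⟩ := correspondence (K.subgroupOf H) hθ' T hT hNT h1
          (isIrrCharacter_comp_equiv eT ψ.1.2) (hov ψ.1 ψ.2.2) hcon
        rw [← classInner_sub hle]
        show classInner (fun n : K.subgroupOf H => indFun T ((ψ.1 : I → ℂ) ∘ eT) n) ((θ : K → ℂ) ∘ ee) ≠ 0
        rw [← h4]
        exact hov ψ.1 ψ.2.2⟩
  symm
  refine Nat.card_congr (Equiv.ofBijective F ⟨fun ψ ψ' h => ?_, fun χ => ?_⟩)
  · have h' := congrArg (fun z : {χ : IrrCharacter H // _} => (z.1 : H → ℂ)) h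
    have := (indFun_correspondent (K.subgroupOf H) hθ' T hT hNT (isIrrCharacter_comp_equiv eT ψ.1.2)
      (hov ψ.1 ψ.2.2)).2 _ (isIrrCharacter_comp_equiv eT ψ'.1.2) (hov ψ'.1 ψ'.2.2) h'.symm
    refine Subtype.ext (Subtype.ext (funext fun y => ?_))
    have h2 := congrFun this (eT.symm y)
    simp only [Function.comp_apply, MulEquiv.apply_symm_apply] at h2
    exact h2.symm
  · obtain ⟨ψ, hψ, hind, hmul, -⟩ := exists_correspondent (K.subgroupOf H) hθ' T hT hNT χ.1.2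
      (by rw [classInner_sub hle]; exact χ.2.2)
    let Ψ : IrrCharacter I := ⟨ψ ∘ eT.symm, isIrrCharacter_comp_equiv eT.symm hψ⟩
    have hΨ : ((Ψ : I → ℂ) ∘ eT) = ψ := funext fun t => congrArg ψ (eT.symm_apply_apply t)
    have h1 : ip (Ψ : I → ℂ) (θ : K → ℂ) ≠ 0 := by
      rw [← hres, hΨ, hmul, classInner_sub hle]; exact χ.2.2
    refine ⟨⟨Ψ, ?_, h1⟩, Subtype.ext (Subtype.ext ?_)⟩
    · rw [← hnd, ← hdeg Ψ χ.1 (by rw [hΨ]; exact hind.symm)]
      exact χ.2.1
    · show indFun T ((Ψ : I → ℂ) ∘ eT) = _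
      rw [hΨ, hind]

end Sub

end Cfsg.Agent.Lib.RelMcKay
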