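import Cfsg.Agent.Lib.RelMcKay.Lam
import Cfsg.Agent.Lib.RelGlauberman.Correspondence
import Cfsg.Agent.Lib.Glauberman.Subgroup

/-!
# The relative correspondence for a `p`-subgroup acting on a `p'`-section, inside an ambient group
-/

set_option autoImplicit false
set_option linter.unusedSectionVars false

open scoped ComplexConjugate Classical commutatorElement

namespace Cfsg.Agent.Lib.RelMcKay

open Cfsg Cfsg.Agent.Lib.Char Cfsg.Agent.Lib.CharClifford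

universe u

variable {G : Type u} [Group G] [Finite G]

/-- The elements commuting with a subgroup modulo `L`. -/
def cm (L T : Subgroup G) [L.Normal] : Subgroup G :=
  (Subgroup.centralizer ((T.map (QuotientGroup.mk' L) : Subgroup (G ⧸ L)) : Set (G ⧸ L))).comap
    (QuotientGroup.mk' L)

theorem mem_cm {L T : Subgroup G} [L.Normal] {k : G} :
    k ∈ cm L T ↔ ∀ t ∈ T, t * k * t⁻¹ * k⁻¹ ∈ L := by
  rw [cm, Subgroup.mem_comap, Subgroup.mem_centralizer_iff]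
  constructor
  · intro h t ht
    rw [← QuotientGroup.eq_one_iff]
    have h1 := h _ ⟨t, ht, rfl⟩
    simp only [QuotientGroup.mk'_apply] at h1
    rw [QuotientGroup.mk_mul, QuotientGroup.mk_mul, QuotientGroup.mk_mul, h1, QuotientGroup.mk_inv,
      QuotientGroup.mk_inv]
    group
  · rintro h _ ⟨t, ht, rfl⟩
    have h1 := (QuotientGroup.eq_one_iff _).2 (h t ht)
    simp only [QuotientGroup.mk_mul, QuotientGroup.mk_inv, QuotientGroup.mk'_apply] at h1 ⊢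
    rw [mul_inv_eq_one, mul_inv_eq_iff_eq_mul] at h1
    exact h1

theorem le_cm (L T : Subgroup G) [hL : L.Normal] : L ≤ cm L T := fun l hl => mem_cm.2 fun t _ =>
  L.mul_mem (hL.conj_mem l hl t) (L.inv_mem hl)

theorem mem_cm_comm {L T : Subgroup G} [hL : L.Normal] {k : G} :
    k ∈ cm L T ↔ ∀ t ∈ T, ⁅k, t⁆ ∈ L := by
  rw [mem_cm]
  refine forall₂_congr fun t _ => ?_
  rw [← inv_mem_iff (x := t * k * t⁻¹ * k⁻¹), show (t * k * t⁻¹ * k⁻¹)⁻¹ = ⁅k, t⁆ by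
    rw [commutatorElement_def]; group]

/-- Inner product of a function on `K` with one on `C`, over `C`. -/
noncomputable def ip {K C : Subgroup G} (θ : K → ℂ) (φ : C → ℂ) : ℂ :=
  (Nat.card C : ℂ)⁻¹ * ∑ᶠ c : C, extendByZero K θ (c : G) * conj (φ c)

/-- A constituent with multiplicity prime to `p`. -/
def Occ (p : ℕ) {K C : Subgroup G} (θ : K → ℂ) (φ : C → ℂ) : Prop :=
  ∃ m : ℕ, ip θ φ = (m : ℂ) ∧ ¬ p ∣ m

theorem ip_eq_classInner {K C : Subgroup G} [Fintype C] (hCK : C ≤ K) (θ : K → ℂ) (φ : C → ℂ) :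
    ip θ φ = classInner (fun c : C => θ (Subgroup.inclusion hCK c)) φ := by
  simp only [ip, classInner, finsum_eq_sum_of_fintype]
  congr 1
  exact Finset.sum_congr rfl fun c _ => by rw [extendByZero_mem K θ (hCK c.2)]; rfl

theorem occ_self (p : ℕ) [hp : Fact p.Prime] {K : Subgroup G} (θ : IrrCharacter K) :
    Occ p (θ : K → ℂ) (θ : K → ℂ) := by
  have := Fintype.ofFinite K
  refine ⟨1, ?_, hp.out.not_dvd_one⟩
  rw [ip_eq_classInner le_rfl, Nat.cast_one, ← classInner_irr_self θ.2]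
  rfl

variable {p : ℕ} [hp : Fact p.Prime]

/-- The hypotheses of the correspondence. -/
structure Act (p : ℕ) (L J T : Subgroup G) [L.Normal] : Prop where
  le : L ≤ J
  norm : ∀ t ∈ T, ∀ k ∈ J, t * k * t⁻¹ ∈ J
  pgrp : IsPGroup p T
  idx : ¬ p ∣ L.relIndex J

namespace Act

variable {L J T : Subgroup G} [hL : L.Normal] (A : Act p L J T)

include A

theorem setup : RelGlauberman.Setup (Glauberman.conjHom A.norm) p (L.subgroupOf J)
    ((J ⊓ cm L T).subgroupOf J) where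
  pgroupP := A.pgrp
  normal := hL.subgroupOf J
  stable t k hk := by
    show (t : G) * ((k : J) : G) * (t : G)⁻¹ ∈ L
    exact hL.conj_mem _ hk _
  index := A.idx
  mem k := by
    rw [Subgroup.mem_subgroupOf, Subgroup.mem_inf, mem_cm]
    exact ⟨fun h t => h.2 t t.2, fun h => ⟨k.2, fun t ht => h ⟨t, ht⟩⟩⟩

theorem inv_iff (θ : J → ℂ) :
    RelGlauberman.Inv (Glauberman.conjHom A.norm) θ ↔ ∀ t ∈ T, Fixes θ t := by
  constructor
  · intro h t ht
    refine ⟨fun k => ⟨fun hk => A.norm t ht k hk, fun hk => ?_⟩, fun k k' e => ?_⟩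
    · simpa [mul_assoc] using A.norm t⁻¹ (T.inv_mem ht) _ hk
    · rw [show k' = Glauberman.conjHom A.norm ⟨t, ht⟩ k from Subtype.ext e]
      exact h _ _
  · intro h t k
    exact (h t t.2).2 k _ rfl

theorem mult_eq [Fintype (J ⊓ cm L T : Subgroup G)] (χ : IrrCharacter J)
    (ζ : IrrCharacter (J ⊓ cm L T : Subgroup G)) :
    ip (χ : J → ℂ) (ζ : (J ⊓ cm L T : Subgroup G) → ℂ) =
      (RelGlauberman.mult χ (Glauberman.irrSub inf_le_left ζ) : ℂ) := by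
  have hCJ : (J ⊓ cm L T : Subgroup G) ≤ J := inf_le_left
  have := Fintype.ofFinite ((J ⊓ cm L T).subgroupOf J)
  rw [ip_eq_classInner hCJ, ← RelGlauberman.mult_spec]
  simp only [classInner]
  rw [Nat.card_congr (Subgroup.subgroupOfEquivOfLe hCJ).toEquiv]
  congr 1
  exact Fintype.sum_equiv (Subgroup.subgroupOfEquivOfLe hCJ).symm.toEquiv _ _ fun c =>
    congrArg ((χ : J → ℂ) ⟨c, hCJ c.2⟩ * conj ·)
      (congrArg (ζ : (J ⊓ cm L T : Subgroup G) → ℂ)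
        ((Subgroup.subgroupOfEquivOfLe hCJ).apply_symm_apply c)).symm

theorem inv_sub_iff (ζ : IrrCharacter (J ⊓ cm L T : Subgroup G)) :
    RelGlauberman.Inv A.setup.autC
        ((Glauberman.irrSub inf_le_left ζ) : (J ⊓ cm L T).subgroupOf J → ℂ) ↔
      ∀ t ∈ T, Fixes (ζ : (J ⊓ cm L T : Subgroup G) → ℂ) t := by
  have hCJ : (J ⊓ cm L T : Subgroup G) ≤ J := inf_le_left
  constructor
  · intro h t ht
    refine ⟨fun k => ?_, fun c c' e => ?_⟩
    · have key : ∀ s ∈ T, ∀ k ∈ J ⊓ cm L T, s * k * s⁻¹ ∈ J ⊓ cm L T := fun s hs k hk => by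
        have := A.setup.map_mem ⟨s, hs⟩ ⟨k, hk.1⟩ (Subgroup.mem_subgroupOf.2 hk)
        exact this
      exact ⟨key t ht k, fun hk => by simpa [mul_assoc] using key t⁻¹ (T.inv_mem ht) _ hk⟩
    · have h1 := h ⟨t, ht⟩ ((Subgroup.subgroupOfEquivOfLe hCJ).symm c)
      simp only [Glauberman.irrSub, Equiv.coe_fn_mk, MulEquiv.apply_symm_apply] at h1
      rw [← h1]
      exact congrArg _ (Subtype.ext e)
  · intro h t c
    exact (h t t.2).2 _ _ rfl

theorem exists_corr (θ : IrrCharacter J) (hθ : ∀ t ∈ T, Fixes (θ : J → ℂ) t) :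
    ∃ ζ : IrrCharacter (J ⊓ cm L T : Subgroup G),
      (∀ t ∈ T, Fixes (ζ : (J ⊓ cm L T : Subgroup G) → ℂ) t) ∧
        Occ p (θ : J → ℂ) (ζ : (J ⊓ cm L T : Subgroup G) → ℂ) := by
  have := Fintype.ofFinite (J ⊓ cm L T : Subgroup G)
  obtain ⟨f, hf, hmul⟩ := A.setup.exists_bijective
  let ξ := f ⟨θ, (A.inv_iff _).2 hθ⟩
  obtain ⟨ζ, hζ⟩ := (Glauberman.irrSub (G := J) (C := J ⊓ cm L T) inf_le_left).surjective ξ.1
  refine ⟨ζ, (A.inv_sub_iff ζ).1 (hζ ▸ ξ.2), _, A.mult_eq θ ζ, fun hd => ?_⟩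
  have h0 : (RelGlauberman.mult θ ξ.1 : ZMod p) = 0 :=
    (ZMod.natCast_eq_zero_iff _ _).2 (hζ ▸ hd)
  rcases (hmul ⟨θ, (A.inv_iff _).2 hθ⟩).1 with e | e <;> rw [h0] at e
  · exact zero_ne_one e
  · exact one_ne_zero (neg_eq_zero.1 e.symm)

theorem exists_corr_symm (ζ : IrrCharacter (J ⊓ cm L T : Subgroup G))
    (hζ : ∀ t ∈ T, Fixes (ζ : (J ⊓ cm L T : Subgroup G) → ℂ) t) :
    ∃ θ : IrrCharacter J, (∀ t ∈ T, Fixes (θ : J → ℂ) t) ∧
      Occ p (θ : J → ℂ) (ζ : (J ⊓ cm L T : Subgroup G) → ℂ) := by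
  have := Fintype.ofFinite (J ⊓ cm L T : Subgroup G)
  obtain ⟨χ, hχ, hne⟩ := A.setup.exists_mult_ne_zero ((A.inv_sub_iff ζ).2 hζ)
  exact ⟨χ, (A.inv_iff _).1 hχ, _, A.mult_eq χ ζ, fun hd => hne ((ZMod.natCast_eq_zero_iff _ _).2 hd)⟩

theorem corr_unique {θ : IrrCharacter J} (hθ : ∀ t ∈ T, Fixes (θ : J → ℂ) t)
    {ζ ζ' : IrrCharacter (J ⊓ cm L T : Subgroup G)}
    (hζ : ∀ t ∈ T, Fixes (ζ : (J ⊓ cm L T : Subgroup G) → ℂ) t)
    (hζ' : ∀ t ∈ T, Fixes (ζ' : (J ⊓ cm L T : Subgroup G) → ℂ) t)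
    (h : Occ p (θ : J → ℂ) (ζ : (J ⊓ cm L T : Subgroup G) → ℂ))
    (h' : Occ p (θ : J → ℂ) (ζ' : (J ⊓ cm L T : Subgroup G) → ℂ)) : ζ = ζ' := by
  have := Fintype.ofFinite (J ⊓ cm L T : Subgroup G)
  have key : ∀ z : IrrCharacter (J ⊓ cm L T : Subgroup G), Occ p (θ : J → ℂ) (z : (J ⊓ cm L T : Subgroup G) → ℂ) →
      (RelGlauberman.mult θ (Glauberman.irrSub inf_le_left z) : ZMod p) ≠ 0 := fun z ⟨m, hm, hd⟩ h0 => by
    rw [A.mult_eq θ z, Nat.cast_inj] at hm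
    rw [ZMod.natCast_eq_zero_iff, hm] at h0
    exact hd h0
  exact (Glauberman.irrSub _).injective (A.setup.unique ((A.inv_iff _).2 hθ)
    ((A.inv_sub_iff ζ).2 hζ) ((A.inv_sub_iff ζ').2 hζ') (key ζ h) (key ζ' h'))

theorem corr_injective {θ θ' : IrrCharacter J} (hθ : ∀ t ∈ T, Fixes (θ : J → ℂ) t)
    (hθ' : ∀ t ∈ T, Fixes (θ' : J → ℂ) t) {ζ : IrrCharacter (J ⊓ cm L T : Subgroup G)}
    (hζ : ∀ t ∈ T, Fixes (ζ : (J ⊓ cm L T : Subgroup G) → ℂ) t)
    (h : Occ p (θ : J → ℂ) (ζ : (J ⊓ cm L T : Subgroup G) → ℂ))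
    (h' : Occ p (θ' : J → ℂ) (ζ : (J ⊓ cm L T : Subgroup G) → ℂ)) : θ = θ' := by
  have := Fintype.ofFinite (J ⊓ cm L T : Subgroup G)
  obtain ⟨f, hf, hmul⟩ := A.setup.exists_bijective
  have key : ∀ (χ : IrrCharacter J) (hχ : ∀ t ∈ T, Fixes (χ : J → ℂ) t),
      Occ p (χ : J → ℂ) (ζ : (J ⊓ cm L T : Subgroup G) → ℂ) →
      f ⟨χ, (A.inv_iff _).2 hχ⟩ = ⟨Glauberman.irrSub inf_le_left ζ, (A.inv_sub_iff ζ).2 hζ⟩ :=
    fun χ hχ ⟨m, hm, hd⟩ => by
      by_contra hne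
      have h0 := (hmul ⟨χ, (A.inv_iff _).2 hχ⟩).2.1 ⟨Glauberman.irrSub inf_le_left ζ, (A.inv_sub_iff ζ).2 hζ⟩
        (Ne.symm hne)
      rw [A.mult_eq χ ζ, Nat.cast_inj] at hm
      rw [ZMod.natCast_eq_zero_iff, hm] at h0
      exact hd h0
  exact congrArg Subtype.val (hf.1 ((key θ hθ h).trans (key θ' hθ' h').symm))

end Act

/-- A constituent prime to `p` passes through an intermediate subgroup, invariantly. -/
theorem descend {K C₁ C : Subgroup G} (hC : C ≤ C₁) (hC₁ : C₁ ≤ K) (θ : IrrCharacter K)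
    (φ : IrrCharacter C) {A : Subgroup G} (hA : IsPGroup p A)
    (hθA : ∀ a ∈ A, Fixes (θ : K → ℂ) a) (hφA : ∀ a ∈ A, Fixes (φ : C → ℂ) a)
    (hA₁ : ∀ a ∈ A, ∀ c ∈ C₁, a * c * a⁻¹ ∈ C₁) (h : Occ p (θ : K → ℂ) (φ : C → ℂ)) :
    ∃ β : IrrCharacter C₁, (∀ a ∈ A, Fixes (β : C₁ → ℂ) a) ∧
      Occ p (θ : K → ℂ) (β : C₁ → ℂ) ∧ Occ p (β : C₁ → ℂ) (φ : C → ℂ) := by
  have := Fintype.ofFinite C
  have := Fintype.ofFinite C₁
  obtain ⟨m, hm, hpm⟩ := h
  choose u hu using fun β : IrrCharacter C₁ =>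
    classInner_natCast (isCharacter_comp (isCharacter_of_isIrr θ.2) (Subgroup.inclusion hC₁))
      (isCharacter_of_isIrr β.2)
  choose w hw using fun β : IrrCharacter C₁ =>
    classInner_natCast (isCharacter_comp (isCharacter_of_isIrr β.2) (Subgroup.inclusion hC))
      (isCharacter_of_isIrr φ.2)
  have hsum : m = ∑ β : IrrCharacter C₁, u β * w β := by
    apply Nat.cast_injective (R := ℂ)
    rw [← hm, ip_eq_classInner (hC.trans hC₁)]
    push_cast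
    have hres : (fun c : C => (θ : K → ℂ) (Subgroup.inclusion (hC.trans hC₁) c)) =
        ∑ β : IrrCharacter C₁, (u β : ℂ) • fun c : C => (β : C₁ → ℂ) (Subgroup.inclusion hC c) := by
      funext c
      have h1 := congrFun (eq_sum_classInner_smul (isClassFunction_of_isCharacter
        (isCharacter_comp (isCharacter_of_isIrr θ.2) (Subgroup.inclusion hC₁)))) (Subgroup.inclusion hC c)
      simp only [hu, Finset.sum_apply, Pi.smul_apply, Function.comp_apply] at h1 ⊢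
      exact h1
    rw [hres, classInner_sum_left]
    exact Finset.sum_congr rfl fun β _ => by rw [classInner_smul_left]; exact congrArg _ (hw β)
  have hn : ∀ a ∈ A, ∀ c ∈ C₁, a * c * a⁻¹ ∈ C₁ := hA₁
  let act := Glauberman.conjHom hn
  have hmem : ∀ a ∈ A, ∀ k, k ∈ C₁ ↔ a * k * a⁻¹ ∈ C₁ := fun a ha k =>
    ⟨hn a ha k, fun hk => by simpa [mul_assoc] using hn a⁻¹ (A.inv_mem ha) _ hk⟩
  have huinv : ∀ (x : A) β, u (RelGlauberman.irrMap act x β) = u β := fun x β => by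
    apply Nat.cast_injective (R := ℂ)
    rw [← hu, ← hu]
    simp only [classInner]
    congr 1
    refine Fintype.sum_equiv (act x⁻¹).toEquiv _ _ fun c => ?_
    show (θ : K → ℂ) (Subgroup.inclusion hC₁ c) * conj ((β : C₁ → ℂ) (act x⁻¹ c)) =
      (θ : K → ℂ) (Subgroup.inclusion hC₁ (act x⁻¹ c)) * conj ((β : C₁ → ℂ) (act x⁻¹ c))
    rw [(hθA _ (x⁻¹).2).2 (Subgroup.inclusion hC₁ c) (Subgroup.inclusion hC₁ (act x⁻¹ c)) rfl]
  have hnC : ∀ a ∈ A, ∀ c ∈ C, a * c * a⁻¹ ∈ C := fun a ha c hc => ((hφA a ha).1 c).1 hc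
  let actC := Glauberman.conjHom hnC
  have hwinv : ∀ (x : A) β, w (RelGlauberman.irrMap act x β) = w β := fun x β => by
    apply Nat.cast_injective (R := ℂ)
    rw [← hw, ← hw]
    simp only [classInner]
    congr 1
    refine Fintype.sum_equiv (actC x⁻¹).toEquiv _ _ fun c => ?_
    show (β : C₁ → ℂ) (act x⁻¹ (Subgroup.inclusion hC c)) * conj ((φ : C → ℂ) c) =
      (β : C₁ → ℂ) (Subgroup.inclusion hC (actC x⁻¹ c)) * conj ((φ : C → ℂ) (actC x⁻¹ c))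
    rw [(hφA _ (x⁻¹).2).2 c (actC x⁻¹ c) rfl]
    exact congrArg (· * _) (congrArg _ (Subtype.ext rfl))
  have hz := RelGlauberman.sum_irr_eq_sum_inv act hA (R := ZMod p)
    (fun β => (u β : ZMod p) * (w β : ZMod p)) fun x β => by rw [huinv, hwinv]
  by_contra hno
  push Not at hno
  refine hpm ((ZMod.natCast_eq_zero_iff _ _).1 ?_)
  rw [hsum, Nat.cast_sum]
  simp only [Nat.cast_mul]
  rw [hz]
  refine Finset.sum_eq_zero fun β hβ => ?_
  by_contra hne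
  have hfix : ∀ a ∈ A, Fixes (β : C₁ → ℂ) a := fun a ha => ⟨hmem a ha, fun k k' e => by
    rw [show k' = act ⟨a, ha⟩ k from Subtype.ext e]
    exact (Finset.mem_filter.1 hβ).2 _ _⟩
  refine hno β hfix ⟨u β, (ip_eq_classInner hC₁ _ _).trans (hu β), fun hd => hne ?_⟩
    ⟨w β, (ip_eq_classInner hC _ _).trans (hw β), fun hd => hne ?_⟩
  · rw [(ZMod.natCast_eq_zero_iff _ _).2 hd, zero_mul]
  · rw [(ZMod.natCast_eq_zero_iff _ _).2 hd, mul_zero]

end Cfsg.Agent.Lib.RelMcKay
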