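import Cfsg.Agent.Lib.RelMcKay.Corr
import Cfsg.Agent.Lib.CharCommutator
import Cfsg.Agent.Lib.OddCorr.Inertial

/-!
# Counting the characters over an invariant character by commutation scalars
-/

set_option autoImplicit false
set_option linter.unusedSectionVars false

open scoped ComplexConjugate Classical commutatorElement

namespace Cfsg.Agent.Lib.RelMcKay

open Cfsg Cfsg.Agent.Lib.Char Cfsg.Agent.Lib.CharClifford

universe u

variable {G : Type u} [Group G] [Finite G]

/-- The number of irreducible characters of `H` over a function on a subgroup. -/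
noncomputable def overCard (H : Subgroup G) {R : Subgroup G} (η : R → ℂ) : ℕ :=
  Nat.card {χ : IrrCharacter H // ip (χ : H → ℂ) η ≠ 0}

theorem normal_of_fixes {H R : Subgroup G} {η : R → ℂ} (hinv : ∀ h ∈ H, Fixes η h) :
    (R.subgroupOf H).Normal :=
  ⟨fun n hn h => ((hinv (h : G) h.2).1 _).1 hn⟩

theorem conjChar_of_fixes {H R : Subgroup G} [(R.subgroupOf H).Normal] (hle : R ≤ H) {η : R → ℂ}
    (hinv : ∀ h ∈ H, Fixes η h) (h : H) :
    conjChar (R.subgroupOf H) h (η ∘ Subgroup.subgroupOfEquivOfLe hle) =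
      η ∘ Subgroup.subgroupOfEquivOfLe hle :=
  funext fun n => (hinv (h : G) h.2).2 (Subgroup.subgroupOfEquivOfLe hle n) _ rfl

/-- A character over an invariant one restricts to a multiple of it. -/
theorem restrict_eq_of_fixes {H R : Subgroup G} (hle : R ≤ H) (η : IrrCharacter R)
    (hinv : ∀ h ∈ H, Fixes (η : R → ℂ) h) (χ : IrrCharacter H)
    (hne : ip (χ : H → ℂ) (η : R → ℂ) ≠ 0) (r : R) :
    (χ : H → ℂ) (Subgroup.inclusion hle r) = ip (χ : H → ℂ) (η : R → ℂ) * (η : R → ℂ) r := by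
  haveI := normal_of_fixes hinv
  haveI := Fintype.ofFinite H
  haveI := Fintype.ofFinite R
  haveI := Fintype.ofFinite (R.subgroupOf H)
  let e := Subgroup.subgroupOfEquivOfLe hle
  have heq : classInner (fun n : R.subgroupOf H => (χ : H → ℂ) n) ((η : R → ℂ) ∘ e) =
      ip (χ : H → ℂ) (η : R → ℂ) := by
    rw [ip_eq_classInner hle, ← classInner_comp_equiv e (fun c : R => (χ : H → ℂ) (Subgroup.inclusion hle c))
      (η : R → ℂ)]
    rfl
  have h1 := OddCorr.restrict_invariant (R.subgroupOf H) (isIrrCharacter_comp_equiv e η.2)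
    (fun h => conjChar_of_fixes hle hinv h) χ.2 (by rw [heq]; exact hne)
  have h2 := congrFun h1 (e.symm r)
  rw [heq, Pi.smul_apply, smul_eq_mul, Function.comp_apply, MulEquiv.apply_symm_apply] at h2
  exact h2

/-- The number of characters over an invariant character, as a sum over commutators. -/
theorem overCard_eq {H R : Subgroup G} [Fintype H] (hle : R ≤ H) (η : IrrCharacter R)
    (hinv : ∀ h ∈ H, Fixes (η : R → ℂ) h) :
    (η : R → ℂ) 1 * ∑ x : H, ∑ g : H, conj (extendByZero R (η : R → ℂ) ⁅(x : G), (g : G)⁆) =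
      (Nat.card H : ℂ) * (Nat.card R : ℂ) * (overCard H (η : R → ℂ) : ℂ) := by
  haveI := Fintype.ofFinite R
  let f : H → ℂ := fun z => conj (extendByZero R (η : R → ℂ) (z : G))
  have h1 : ∑ x : H, ∑ g : H, conj (extendByZero R (η : R → ℂ) ⁅(x : G), (g : G)⁆) =
      ∑ z : H, (CharCommutator.commCount z : ℂ) * f z := by
    rw [← Fintype.sum_prod_type', ← Finset.sum_fiberwise Finset.univ
      (fun q : H × H => q.1 * q.2 * q.1⁻¹ * q.2⁻¹)]
    refine Finset.sum_congr rfl fun z _ => ?_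
    rw [Finset.sum_congr rfl (g := fun _ => f z) fun q hq => by
      show _ = conj (extendByZero R (η : R → ℂ) ((z : H) : G))
      rw [← (Finset.mem_filter.1 hq).2]
      simp [commutatorElement_def], Finset.sum_const, nsmul_eq_mul]
    congr 2
    rw [CharCommutator.commCount, Nat.card_eq_fintype_card, Fintype.card_subtype]
  have hR : ∀ r : R, f (Subgroup.inclusion hle r) = conj ((η : R → ℂ) r) := fun r => by
    simp only [f]
    rw [show ((Subgroup.inclusion hle r : H) : G) = (r : G) from rfl, extendByZero_coe]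
  have h2 : ∀ χ : IrrCharacter H, ∑ z : H, (χ : H → ℂ) z / (χ : H → ℂ) 1 * f z =
      (Nat.card R : ℂ) * (ip (χ : H → ℂ) (η : R → ℂ) / (χ : H → ℂ) 1) := by
    intro χ
    rw [ip_eq_classInner hle, classInner, ← mul_div_assoc, ← mul_assoc,
      mul_inv_cancel₀ (card_ne_zero_complex R), one_mul, Finset.sum_div]
    symm
    refine Finset.sum_bij_ne_zero (fun r _ _ => Subgroup.inclusion hle r) (fun r _ _ => Finset.mem_univ _)
      (fun r _ _ r' _ _ h => Subgroup.inclusion_injective hle h) (fun z _ hz => ?_) fun r _ _ => ?_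
    · have hzR : (z : G) ∈ R := by
        by_contra hn
        refine hz ?_
        simp only [f]
        rw [extendByZero_not_mem R _ hn, map_zero, mul_zero]
      refine ⟨⟨z, hzR⟩, Finset.mem_univ _, ?_, Subtype.ext rfl⟩
      intro h0
      refine hz ?_
      rw [show z = Subgroup.inclusion hle ⟨z, hzR⟩ from Subtype.ext rfl, hR, div_mul_eq_mul_div]
      exact h0
    · rw [hR]; ring
  have h0 : overCard H (η : R → ℂ) =
      (Finset.univ.filter fun χ : IrrCharacter H => ip (χ : H → ℂ) (η : R → ℂ) ≠ 0).card := by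
    rw [overCard, Nat.card_eq_fintype_card, Fintype.card_subtype]
  rw [h1, h0,
    Finset.sum_congr rfl fun z _ => by rw [CharCommutator.commCount_eq, mul_assoc, Finset.sum_mul],
    ← Finset.mul_sum, Finset.sum_comm, Finset.sum_congr rfl fun χ _ => h2 χ, ← Finset.mul_sum]
  have h3 : (η : R → ℂ) 1 * ∑ χ : IrrCharacter H, ip (χ : H → ℂ) (η : R → ℂ) / (χ : H → ℂ) 1 =
      ((Finset.univ.filter fun χ : IrrCharacter H => ip (χ : H → ℂ) (η : R → ℂ) ≠ 0).card : ℂ) := by
    rw [Finset.mul_sum, Finset.card_filter, Nat.cast_sum]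
    refine Finset.sum_congr rfl fun χ _ => ?_
    split_ifs with h
    · have h4 := restrict_eq_of_fixes hle η hinv χ h 1
      rw [map_one] at h4
      rw [h4, Nat.cast_one]
      have := irr_degree_ne_zero η.2
      field_simp
    · rw [not_not.1 h, zero_div, mul_zero, Nat.cast_zero]
  rw [← h3]
  ring

/-- The sum over a product of subgroups. -/
theorem sum_sup (H A B D : Subgroup G) [Fintype H] [Fintype A] [Fintype B] (hA : A ≤ H) (hB : B ≤ H)
    (hD : D = A ⊓ B) (hprod : ∀ g ∈ H, ∃ x ∈ A, ∃ y ∈ B, g = x * y) (f : G → ℂ) :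
    ∑ x : A, ∑ y : B, f ((x : G) * y) = (Nat.card D : ℂ) * ∑ g : H, f g := by
  have := Fintype.ofFinite D
  rw [← Fintype.sum_prod_type', ← Finset.sum_fiberwise Finset.univ
    (fun q : A × B => (⟨(q.1 : G) * q.2, H.mul_mem (hA q.1.2) (hB q.2.2)⟩ : H)), Finset.mul_sum]
  refine Finset.sum_congr rfl fun g _ => ?_
  rw [Finset.sum_congr rfl (g := fun _ => f g) fun q hq => by
      rw [← (Finset.mem_filter.mp hq).2], Finset.sum_const, nsmul_eq_mul]
  congr 2
  obtain ⟨x₀, hx₀, y₀, hy₀, hg⟩ := hprod g g.2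
  subst hD
  rw [Nat.card_eq_fintype_card, ← Finset.card_univ (α := (A ⊓ B : Subgroup G))]
  symm
  refine Finset.card_bij (fun d _ => (⟨x₀ * (d : G), A.mul_mem hx₀ d.2.1⟩,
    ⟨(d : G)⁻¹ * y₀, B.mul_mem (B.inv_mem d.2.2) hy₀⟩)) (fun d _ => ?_) (fun d _ d' _ h => ?_)
    fun q hq => ?_
  · simp only [Finset.mem_filter, Finset.mem_univ, true_and]
    exact Subtype.ext (by simp [hg, mul_assoc])
  · exact Subtype.ext (mul_left_cancel (congrArg (fun z : A × B => (z.1 : G)) h))
  · have hq' : (q.1 : G) * q.2 = x₀ * y₀ := (congrArg Subtype.val (Finset.mem_filter.mp hq).2).trans hg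
    have h1 : x₀⁻¹ * (q.1 : G) = y₀ * (q.2 : G)⁻¹ := by
      rw [eq_mul_inv_iff_mul_eq, mul_assoc, hq', inv_mul_cancel_left]
    refine ⟨⟨x₀⁻¹ * (q.1 : G), A.mul_mem (A.inv_mem hx₀) q.1.2,
      h1 ▸ B.mul_mem hy₀ (B.inv_mem q.2.2)⟩, Finset.mem_univ _, Prod.ext (Subtype.ext ?_) (Subtype.ext ?_)⟩
    · simp
    · show (x₀⁻¹ * (q.1 : G))⁻¹ * y₀ = q.2
      rw [h1]; group

/-- The number of characters over an invariant character, over a supplement. -/
theorem overCard_eq_lam {H R U : Subgroup G} [Fintype U] (hR : R ≤ H) (hU : U ≤ H)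
    (hprod : ∀ g ∈ H, ∃ x ∈ U, ∃ y ∈ R, g = x * y) (η : IrrCharacter R)
    (hinv : ∀ h ∈ H, Fixes (η : R → ℂ) h) :
    (Nat.card U : ℂ) * (Nat.card (U ⊓ R : Subgroup G) : ℂ) * (overCard H (η : R → ℂ) : ℂ) =
      ∑ x : U, ∑ g : U, if ⁅(x : G), (g : G)⁆ ∈ R then lam R (η : R → ℂ) x g else 0 := by
  have := Fintype.ofFinite H
  have := Fintype.ofFinite R
  have hd := irr_degree_ne_zero η.2
  have hRc : (Nat.card R : ℂ) ≠ 0 := card_ne_zero_complex R
  let F : G → G → ℂ := fun x g => conj (extendByZero R (η : R → ℂ) ⁅x, g⁆)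
  have h1 : ∀ x g : U, (η : R → ℂ) 1 * ∑ a : R, ∑ b : R, F ((x : G) * a) ((g : G) * b) =
      (Nat.card R : ℂ) ^ 2 * if ⁅(x : G), (g : G)⁆ ∈ R then lam R (η : R → ℂ) x g else 0 := by
    intro x g
    split_ifs with h
    · rw [lam_def, ← mul_assoc, mul_div_cancel₀ _ (pow_ne_zero 2 hRc)]
    · rw [mul_zero, Finset.mul_sum]
      refine Finset.sum_eq_zero fun a _ => ?_
      rw [Finset.mul_sum]
      refine Finset.sum_eq_zero fun b _ => ?_
      simp only [F]
      rw [extendByZero_not_mem R _ fun hm => h ?_, map_zero, mul_zero]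
      have hx := (hinv _ (hU x.2)).1
      have hg := (hinv _ (hU g.2)).1
      -- pull the factors from `R` out of the commutator
      have hxc : ∀ r ∈ R, (x : G) * r * (x : G)⁻¹ ∈ R := fun r hr => (hx r).1 hr
      have hgc : ∀ r ∈ R, (g : G) * r * (g : G)⁻¹ ∈ R := fun r hr => (hg r).1 hr
      have q1 : ((x : G) * (a : G) * (g : G) * (b : G) * (a : G)⁻¹ * (x : G)⁻¹ * (b : G)⁻¹ * (g : G)⁻¹) ∈ R := by
        simpa [commutatorElement_def, mul_assoc] using hm
      have e2 : ⁅(x : G), (g : G)⁆ = ((x : G) * (a : G)⁻¹ * (x : G)⁻¹) *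
          ((x : G) * (a : G) * (g : G) * (b : G) * (a : G)⁻¹ * (x : G)⁻¹ * (b : G)⁻¹ * (g : G)⁻¹) *
          ((g : G) * ((b : G) * ((x : G) * ((a : G) * (b : G)⁻¹) * (x : G)⁻¹)) * (g : G)⁻¹) := by
        simp only [commutatorElement_def]; group
      rw [e2]
      exact R.mul_mem (R.mul_mem (hxc _ (R.inv_mem a.2)) q1)
        (hgc _ (R.mul_mem b.2 (hxc _ (R.mul_mem a.2 (R.inv_mem b.2)))))
  have h2 := overCard_eq hR η hinv
  have h3 : ∀ f : G → G → ℂ, ∑ x : U, ∑ a : R, ∑ g : U, ∑ b : R, f ((x : G) * a) ((g : G) * b) =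
      (Nat.card (U ⊓ R : Subgroup G) : ℂ) ^ 2 * ∑ x : H, ∑ g : H, f x g := by
    intro f
    rw [sum_sup H U R _ hU hR rfl hprod (fun y => ∑ g : U, ∑ b : R, f y ((g : G) * b)), pow_two, mul_assoc]
    congr 1
    rw [Finset.mul_sum]
    exact Finset.sum_congr rfl fun y _ => sum_sup H U R _ hU hR rfl hprod (fun z => f y z)
  have h4 : (Nat.card U : ℂ) * (Nat.card R : ℂ) = (Nat.card (U ⊓ R : Subgroup G) : ℂ) * Nat.card H := by
    have := sum_sup H U R _ hU hR rfl hprod (fun _ => (1 : ℂ))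
    simp only [Finset.sum_const, Finset.card_univ, nsmul_eq_mul, mul_one, ← Nat.card_eq_fintype_card] at this
    exact this
  refine mul_left_cancel₀ (pow_ne_zero 2 hRc) ?_
  conv_rhs => rw [Finset.mul_sum]
  rw [Finset.sum_congr rfl fun x _ => by
    rw [Finset.mul_sum, Finset.sum_congr rfl fun g _ => (h1 x g).symm, ← Finset.mul_sum], ← Finset.mul_sum]
  rw [Finset.sum_congr rfl fun x _ => Finset.sum_comm, h3 F]
  calc (Nat.card R : ℂ) ^ 2 * ((Nat.card U : ℂ) * (Nat.card (U ⊓ R : Subgroup G) : ℂ) * (overCard H (η : R → ℂ) : ℂ))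
      = ((Nat.card U : ℂ) * Nat.card R) * (Nat.card (U ⊓ R : Subgroup G) : ℂ) *
          ((Nat.card R : ℂ) * (overCard H (η : R → ℂ) : ℂ)) := by ring
    _ = (Nat.card (U ⊓ R : Subgroup G) : ℂ) ^ 2 *
          ((Nat.card H : ℂ) * (Nat.card R : ℂ) * (overCard H (η : R → ℂ) : ℂ)) := by rw [h4]; ring
    _ = (η : R → ℂ) 1 * ((Nat.card (U ⊓ R : Subgroup G) : ℂ) ^ 2 * ∑ x : H, ∑ g : H, F x g) := by
        rw [← h2]; ring

end Cfsg.Agent.Lib.RelMcKay
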