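import Cfsg.Agent.Lib.RelMcKay.Central
import Mathlib.RingTheory.IntegralDomain
import Mathlib.Algebra.Ring.Subring.Basic

/-!
# The commutation scalar is preserved by the correspondence
-/

set_option autoImplicit false
set_option linter.unusedSectionVars false

open scoped ComplexConjugate Classical commutatorElement

namespace Cfsg.Agent.Lib.RelMcKay

open Cfsg Cfsg.Agent.Lib.Char Cfsg.Agent.Lib.CharClifford

universe u

variable {G : Type u} [Group G] [Finite G] {p : ℕ} [hp : Fact p.Prime]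

/-- Powers with trivial endomorphism on a minimal section: reduction of a commuting pair. -/
theorem pair_reduce {M : Type u} [AddCommGroup M] [Finite M] [Nontrivial M]
    (W : Subgroup G) (ev : W →* AddMonoid.End M) (x g : W)
    (hcomm : ev x * ev g = ev g * ev x)
    (hirr : ∀ U : AddSubgroup M, (∀ m ∈ U, ev x m ∈ U) → (∀ m ∈ U, ev g m ∈ U) → U = ⊥ ∨ U = ⊤)
    (Q : W → W → Prop) (hswap : ∀ a b, Q a b → Q b a)
    (hmul : ∀ a b : W, ∀ j : ℕ, Q (a * b ^ j) b ↔ Q a b)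
    (hbase : ∀ a b : W, ev b = 1 → Q a b) : Q x g := by
  let R : Subring (AddMonoid.End M) := Subring.closure {ev x, ev g}
  letI : CommRing R := Subring.closureCommRingOfComm (by
    intro a ha b hb
    simp only [Set.mem_insert_iff, Set.mem_singleton_iff] at ha hb
    rcases ha with rfl | rfl <;> rcases hb with rfl | rfl <;> simp [hcomm])
  haveI : Finite R := Finite.of_injective (fun r : R => (r.1 : M → M)) fun a b h =>
    Subtype.ext (DFunLike.coe_injective h)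
  have hxR : ev x ∈ R := Subring.subset_closure (Set.mem_insert _ _)
  have hgR : ev g ∈ R := Subring.subset_closure (Set.mem_insert_of_mem _ rfl)
  haveI : Nontrivial R := by
    obtain ⟨m, hm⟩ := exists_ne (0 : M)
    exact ⟨⟨1, 0, fun h => hm (DFunLike.congr_fun (congrArg Subtype.val h) m)⟩⟩
  haveI : NoZeroDivisors R := ⟨fun {a b} hab => by
    by_contra hne
    push Not at hne
    have hker : ∀ r : R, r ≠ 0 → ∀ m, (r : AddMonoid.End M) m = 0 → m = 0 := by
      intro r hr m hm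
      have hinv : ∀ y : R, ∀ v ∈ AddMonoidHom.ker (r : M →+ M), (y : AddMonoid.End M) v ∈ AddMonoidHom.ker (r : M →+ M) := by
        intro y v hv
        show (r : AddMonoid.End M) ((y : AddMonoid.End M) v) = 0
        have : ((r * y : R) : AddMonoid.End M) v = ((y * r : R) : AddMonoid.End M) v := by rw [mul_comm]
        show ((r * y : R) : AddMonoid.End M) v = 0
        rw [this]
        show (y : AddMonoid.End M) ((r : AddMonoid.End M) v) = 0
        rw [show (r : AddMonoid.End M) v = 0 from hv, map_zero]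
      rcases hirr (AddMonoidHom.ker (r : M →+ M)) (hinv ⟨_, hxR⟩) (hinv ⟨_, hgR⟩) with h | h
      · have : m ∈ AddMonoidHom.ker (r : M →+ M) := hm
        rwa [h, AddSubgroup.mem_bot] at this
      · refine absurd ?_ hr
        refine Subtype.ext (AddMonoidHom.ext fun v => ?_)
        have : v ∈ AddMonoidHom.ker (r : M →+ M) := by rw [h]; trivial
        exact this
    refine hne.2 (Subtype.ext (AddMonoidHom.ext fun v => hker a hne.1 _ ?_))
    exact DFunLike.congr_fun (congrArg Subtype.val hab) v⟩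
  haveI : IsDomain R := NoZeroDivisors.to_isDomain _
  have hu : ∀ w : W, ∀ h : ev w ∈ R, IsUnit (⟨ev w, h⟩ : R) := fun w h => by
    have hne : (⟨ev w, h⟩ : R) ≠ 0 := fun h0 => by
      obtain ⟨m, hm⟩ := exists_ne (0 : M)
      have h1 : ev w⁻¹ * ev w = 1 := by rw [← map_mul, inv_mul_cancel, map_one]
      rw [show ev w = 0 from congrArg Subtype.val h0, mul_zero] at h1
      exact hm (DFunLike.congr_fun h1.symm m)
    obtain ⟨b, hb⟩ := (Finite.isField_of_domain R).mul_inv_cancel hne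
    exact IsUnit.of_mul_eq_one b hb
  obtain ⟨z, hz⟩ := IsCyclic.exists_monoid_generator (α := Rˣ)
  obtain ⟨a, ha⟩ := hz (hu x hxR).unit
  obtain ⟨b, hb⟩ := hz (hu g hgR).unit
  let Z : AddMonoid.End M := ((z : R) : AddMonoid.End M)
  have hZ : ∀ c : ℕ, ∀ w : W, ∀ h : ev w ∈ R, z ^ c = (hu w h).unit → ev w = Z ^ c := fun c w h e => by
    have h1 : ((z : R)) ^ c = (⟨ev w, h⟩ : R) := by rw [← Units.val_pow_eq_pow_val, e]; rfl
    exact (congrArg Subtype.val h1).symm.trans (by simp [Z])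
  have hZu : IsUnit Z := z.isUnit.map R.subtype
  suffices key : ∀ N a b : ℕ, a + b = N → ∀ x g : W, ev x = Z ^ a → ev g = Z ^ b → Q x g from
    key _ a b rfl x g (hZ a x hxR ha) (hZ b g hgR hb)
  intro N
  induction N using Nat.strong_induction_on with
  | _ N ih =>
  intro a b hN x g hx hg
  rcases Nat.eq_zero_or_pos b with rfl | hb
  · exact hbase x g (by rw [hg, pow_zero])
  rcases Nat.eq_zero_or_pos a with rfl | ha
  · exact hswap _ _ (hbase g x (by rw [hx, pow_zero]))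
  have step : ∀ (x g : W) (a b : ℕ), ev x = Z ^ a → ev g = Z ^ b → b ≤ a →
      ∃ x' : W, ev x' = Z ^ (a - b) ∧ (Q x' g ↔ Q x g) := by
    intro x g a b hx hg hba
    refine ⟨x * g ^ (orderOf g - 1), ?_, hmul x g _⟩
    refine hZu.pow b |>.mul_left_inj.1 ?_
    rw [← pow_add, Nat.sub_add_cancel hba]
    rw [← hg, ← map_mul, mul_assoc, ← pow_succ, Nat.sub_add_cancel (orderOf_pos g), pow_orderOf_eq_one,
      mul_one, hx]
  rcases le_total b a with hba | hab
  · obtain ⟨x', hx', hQ⟩ := step x g a b hx hg hba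
    exact hQ.1 (ih (a - b + b) (by omega) _ _ rfl x' g hx' hg)
  · obtain ⟨g', hg', hQ⟩ := step g x b a hg hx hab
    exact hswap _ _ (hQ.1 (hswap _ _ (ih (a + (b - a)) (by omega) _ _ rfl x g' hx hg')))

/-- A nontrivial normal section of a `p`-group has a central element. -/
theorem exists_central_mod {S A T : Subgroup G} (hS : IsPGroup p S) (hAT : A < T) (hTS : T ≤ S)
    (hA : ∀ s ∈ S, Nrm A s) (hT : ∀ s ∈ S, Nrm T s) :
    ∃ t ∈ T, t ∉ A ∧ ∀ s ∈ S, ⁅t, s⁆ ∈ A := by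
  haveI hAn : (A.subgroupOf T).Normal := ⟨fun n hn g => (hA _ (hTS g.2) _).1 hn⟩
  let φ : S → T → T := fun s t => ⟨(s : G) * t * (s : G)⁻¹, (hT s s.2 _).1 t.2⟩
  letI : MulAction S (T ⧸ A.subgroupOf T) :=
    { smul := fun s c => Quotient.map' (φ s) (fun t t' h => by
        rw [QuotientGroup.leftRel_apply] at h ⊢
        show ((φ s t)⁻¹ * φ s t' : T).1 ∈ A
        have h1 := (hA s s.2 _).1 (show ((t⁻¹ * t' : T) : G) ∈ A from h)
        simpa [φ, mul_assoc] using h1) c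
      one_smul := fun c => by
        obtain ⟨t, rfl⟩ := QuotientGroup.mk_surjective c
        exact congrArg Quotient.mk'' (Subtype.ext (by simp [φ]))
      mul_smul := fun s s' c => by
        obtain ⟨t, rfl⟩ := QuotientGroup.mk_surjective c
        exact congrArg Quotient.mk'' (Subtype.ext (by simp [φ, mul_assoc])) }
  have hdiv : p ∣ Nat.card (T ⧸ A.subgroupOf T) := by
    obtain ⟨k, hk⟩ := IsPGroup.iff_card.1 ((hS.to_le hTS).to_quotient (A.subgroupOf T))
    rcases k with _ | k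
    · exfalso
      rw [pow_zero, ← Subgroup.index_eq_card, Subgroup.index_eq_one, Subgroup.subgroupOf_eq_top] at hk
      exact not_le_of_gt hAT hk
    · rw [hk, pow_succ]; exact dvd_mul_left _ _
  obtain ⟨c, hc, hne⟩ := hS.exists_fixed_point_of_prime_dvd_card_of_fixed_point (T ⧸ A.subgroupOf T)
    hdiv (a := ((1 : T) : T ⧸ A.subgroupOf T)) (fun s => congrArg Quotient.mk'' (Subtype.ext (by simp [φ])))
  obtain ⟨t, rfl⟩ := QuotientGroup.mk_surjective c
  refine ⟨t, t.2, fun h => hne (QuotientGroup.eq.2 (Subgroup.mem_subgroupOf.2 (by simpa using h))), fun s hs => ?_⟩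
  have h1 : ((φ ⟨s, hs⟩ t : T) : T ⧸ A.subgroupOf T) = (t : T ⧸ A.subgroupOf T) := hc ⟨s, hs⟩
  have h3 : s * (t : G)⁻¹ * s⁻¹ * t ∈ A := by
    have h2 := Subgroup.mem_subgroupOf.1 (QuotientGroup.eq.1 h1)
    simpa [φ, mul_assoc] using h2
  have h4 := (hA _ (hTS t.2) _).1 h3
  rw [commutatorElement_def]
  convert h4 using 1
  group

/-- The index of a subgroup in the group generated with one normalizing element. -/
theorem relIndex_adjoin_dvd {K : Subgroup G} {θ : K → ℂ} {b : G} (hb : Fixes θ b) {m : ℕ}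
    (hm : b ^ m ∈ K) : K.relIndex (K ⊔ Subgroup.zpowers b) ∣ m := by
  let J : Subgroup G := K ⊔ Subgroup.zpowers b
  haveI := normal_subgroupOf_adjoin hb
  let β : J := ⟨b, Subgroup.mem_sup_right (Subgroup.mem_zpowers b)⟩
  have htop : Subgroup.zpowers ((β : J) : J ⧸ K.subgroupOf J) = ⊤ := by
    rw [Subgroup.eq_top_iff']
    intro z
    obtain ⟨y, rfl⟩ := QuotientGroup.mk_surjective z
    let W : Subgroup J :=
      (Subgroup.zpowers ((β : J) : J ⧸ K.subgroupOf J)).comap (QuotientGroup.mk' _)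
    have hW : J ≤ W.map J.subtype := sup_le (fun k hk => ⟨⟨k, Subgroup.mem_sup_left hk⟩, by
        show ((⟨k, Subgroup.mem_sup_left hk⟩ : J) : J ⧸ K.subgroupOf J) ∈ Subgroup.zpowers _
        rw [(QuotientGroup.eq_one_iff (N := K.subgroupOf J) (⟨k, Subgroup.mem_sup_left hk⟩ : J)).2 hk]
        exact Subgroup.one_mem _, rfl⟩) (by
      rw [Subgroup.zpowers_le]
      exact ⟨β, Subgroup.mem_zpowers _, rfl⟩)
    obtain ⟨w, hw, hwy⟩ := hW y.2
    rw [← show w = y from Subtype.ext hwy]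
    exact hw
  show (K.subgroupOf J).index ∣ m
  rw [Subgroup.index_eq_card, ← Subgroup.card_top (G := J ⧸ K.subgroupOf J), ← htop, Nat.card_zpowers]
  refine orderOf_dvd_of_pow_eq_one ?_
  rw [← QuotientGroup.mk_pow, QuotientGroup.eq_one_iff]
  exact hm

variable {L : Subgroup G} [hL : L.Normal]

/-- The scalar is preserved by the correspondence. -/
theorem lam_transfer {S : Subgroup G} {U : Subgroup G} (hUS : ∀ u ∈ U, Nrm S u)
    (hU : ¬ p ∣ L.relIndex U) :
    ∀ (n : ℕ) (K : Subgroup G), Nat.card K = n → Act p L K S → ∀ (θ : IrrCharacter K),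
      (∀ s ∈ S, Fixes (θ : K → ℂ) s) → ∀ (φ : IrrCharacter (K ⊓ cm L S : Subgroup G)),
      (∀ s ∈ S, Fixes (φ : (K ⊓ cm L S : Subgroup G) → ℂ) s) →
      Occ p (θ : K → ℂ) (φ : (K ⊓ cm L S : Subgroup G) → ℂ) →
      ∀ x g : G, x ∈ U → g ∈ U → ⁅x, g⁆ ∈ K ⊓ cm L S → Fixes (θ : K → ℂ) x → Fixes (θ : K → ℂ) g →
      lam (K ⊓ cm L S) (φ : (K ⊓ cm L S : Subgroup G) → ℂ) x g = lam K (θ : K → ℂ) x g := by
  intro n
  induction n using Nat.strong_induction_on with
  | _ n ih =>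
  intro K hn A θ hθS φ hφS hocc x₀ g₀ hx₀U hg₀U hc₀ hθx₀ hθg₀
  by_cases hC : K ⊓ cm L S = K
  · have gen : ∀ (C : Subgroup G) (φ : IrrCharacter C), C = K → Occ p (θ : K → ℂ) (φ : C → ℂ) →
        lam C (φ : C → ℂ) x₀ g₀ = lam K (θ : K → ℂ) x₀ g₀ := by
      clear * - hp
      intro C φ hCK hocc
      subst hCK
      haveI := Fintype.ofFinite C
      obtain ⟨m, hm, hd⟩ := hocc
      rw [ip_eq_classInner le_rfl] at hm
      by_cases he : φ = θ
      · rw [he]
      · refine absurd ?_ hd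
        have h0 : classInner (θ : C → ℂ) (φ : C → ℂ) = 0 :=
          classInner_irr_ne θ.2 φ.2 fun e => he (Subtype.ext e.symm)
        have hm0 : (m : ℂ) = 0 := hm.symm.trans h0
        rw [Nat.cast_eq_zero.1 hm0]
        exact dvd_zero p
    exact gen _ φ hC hocc
  -- the kernel of the action
  set A₀ : Subgroup G := S ⊓ cm L K with hA₀
  have hnK : ∀ s ∈ S, Nrm K s := fun s hs => (hθS s hs).1
  have hnS : ∀ s ∈ S, Nrm S s := fun s hs => nrm_iff.2 (Subgroup.le_normalizer hs)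
  have hA₀S : A₀ < S := lt_of_le_of_ne inf_le_left fun he => hC (inf_eq_left.2 fun k hk =>
    mem_cm.2 fun s hs => by
      have h1 := mem_cm.1 ((he.symm.le hs).2 : s ∈ cm L K) k hk
      rw [← inv_mem_iff (x := s * k * s⁻¹ * k⁻¹)]
      convert h1 using 1
      group)
  let Fam : Set (Subgroup G) := {T | A₀ < T ∧ T ≤ S ∧ (∀ s ∈ S, Nrm T s) ∧ Nrm T x₀ ∧ Nrm T g₀}
  obtain ⟨T, hTmem, hTmin⟩ := Set.Finite.exists_minimal (Set.toFinite Fam)
    ⟨S, hA₀S, le_rfl, hnS, hUS _ hx₀U, hUS _ hg₀U⟩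
  obtain ⟨hA₀T, hTS, hTn, hTx₀, hTg₀⟩ := hTmem
  have hA₀n : ∀ s ∈ S, Nrm A₀ s := fun s hs => (hnS s hs).inf (Nrm.cm (hnK s hs))
  have hA₀x : Nrm A₀ x₀ := (hUS _ hx₀U).inf (Nrm.cm hθx₀.1)
  have hA₀g : Nrm A₀ g₀ := (hUS _ hg₀U).inf (Nrm.cm hθg₀.1)
  have hmin : ∀ T' : Subgroup G, A₀ ≤ T' → T' ≤ T → (∀ s ∈ S, Nrm T' s) → Nrm T' x₀ → Nrm T' g₀ →
      T' = A₀ ∨ T' = T := by
    intro T' h1 h2 h3 h4 h5
    rcases h1.eq_or_lt with h | h
    · exact Or.inl h.symm
    · exact Or.inr (le_antisymm h2 (hTmin ⟨h, h2.trans hTS, h3, h4, h5⟩ h2))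
  -- the section is central in `S`
  have hcen : ∀ t ∈ T, ∀ s ∈ S, ⁅t, s⁆ ∈ A₀ := by
    let T' : Subgroup G :=
      { carrier := {t | t ∈ T ∧ ∀ s ∈ S, ⁅t, s⁆ ∈ A₀}
        one_mem' := ⟨T.one_mem, fun s _ => by simp⟩
        mul_mem' := fun {a b} ha hb => ⟨T.mul_mem ha.1 hb.1, fun s hs => by
          rw [show ⁅a * b, s⁆ = a * ⁅b, s⁆ * a⁻¹ * ⁅a, s⁆ by simp only [commutatorElement_def]; group]
          exact A₀.mul_mem ((hA₀n a (hTS ha.1) _).1 (hb.2 s hs)) (ha.2 s hs)⟩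
        inv_mem' := fun {a} ha => ⟨T.inv_mem ha.1, fun s hs => by
          rw [show ⁅a⁻¹, s⁆ = a⁻¹ * ⁅a, s⁆⁻¹ * a by simp only [commutatorElement_def]; group]
          exact (hA₀n a (hTS ha.1)).mem_conj_inv (A₀.inv_mem (ha.2 s hs))⟩ }
    have hT'n : ∀ u : G, Nrm T u → Nrm A₀ u → Nrm S u → Nrm T' u := by
      intro u h1 h2 h3 k
      constructor
      · rintro ⟨hk, hk'⟩
        refine ⟨(h1 k).1 hk, fun s hs => ?_⟩
        have h4 := (h2 _).1 (hk' _ (h3.mem_conj_inv hs))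
        convert h4 using 1
        simp only [commutatorElement_def]; group
      · rintro ⟨hk, hk'⟩
        refine ⟨(h1 k).2 hk, fun s hs => (h2 _).2 ?_⟩
        have h4 := hk' _ ((h3 s).1 hs)
        convert h4 using 1
        simp only [commutatorElement_def]; group
    have hAT' : A₀ ≤ T' := fun a ha => ⟨hA₀T.le ha, fun s hs => by
      rw [commutatorElement_def, mul_assoc, mul_assoc]
      refine A₀.mul_mem ha ?_
      have := (hA₀n s hs _).1 (A₀.inv_mem ha)
      simpa [mul_assoc] using this⟩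
    rcases hmin T' hAT' (fun t ht => ht.1) (fun s hs => hT'n s (hTn s hs) (hA₀n s hs) (hnS s hs))
      (hT'n _ hTx₀ hA₀x (hUS _ hx₀U)) (hT'n _ hTg₀ hA₀g (hUS _ hg₀U)) with h | h
    · obtain ⟨t, ht, htA, htc⟩ := exists_central_mod (p := p) A.pgrp hA₀T hTS hA₀n hTn
      exact absurd (h.le ⟨ht, htc⟩) htA
    · exact fun t ht s hs => (h.symm.le ht).2 s hs
  haveI hA₀N : (A₀.subgroupOf T).Normal := ⟨fun m hm t => (hA₀n _ (hTS t.2) _).1 hm⟩
  letI : CommGroup (T ⧸ A₀.subgroupOf T) :=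
    { (inferInstance : Group (T ⧸ A₀.subgroupOf T)) with
      mul_comm := fun a b => by
        obtain ⟨s, rfl⟩ := QuotientGroup.mk_surjective a
        obtain ⟨t, rfl⟩ := QuotientGroup.mk_surjective b
        rw [← QuotientGroup.mk_mul, ← QuotientGroup.mk_mul, QuotientGroup.eq, Subgroup.mem_subgroupOf]
        have h1 := hcen _ (T.inv_mem t.2) _ (S.inv_mem (hTS s.2))
        simpa [commutatorElement_def, mul_assoc] using h1 }
  haveI : Nontrivial (T ⧸ A₀.subgroupOf T) := by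
    rw [QuotientGroup.nontrivial_iff]
    exact fun h => not_le_of_gt hA₀T (Subgroup.subgroupOf_eq_top.1 h)
  -- the acting elements
  let W : Subgroup G := U ⊓ fixer (θ : K → ℂ) ⊓ Subgroup.normalizer (T : Set G)
  have hWA : ∀ w : W, Nrm A₀ w := fun w => (hUS _ w.2.1.1).inf (Nrm.cm w.2.1.2.1)
  have hWT : ∀ w : W, Nrm T w := fun w => nrm_iff.2 w.2.2
  let cT : W → (T ⧸ A₀.subgroupOf T) →* (T ⧸ A₀.subgroupOf T) := fun w =>
    QuotientGroup.map _ _ (conjEquiv (hWT w)).toMonoidHom fun t ht => (hWA w _).1 ht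
  let ev : W →* AddMonoid.End (Additive (T ⧸ A₀.subgroupOf T)) :=
    { toFun := fun w => MonoidHom.toAdditive (cT w)
      map_one' := AddMonoidHom.ext fun m => by
        obtain ⟨t, ht⟩ := QuotientGroup.mk_surjective (Additive.toMul m)
        show Additive.ofMul (cT 1 (Additive.toMul m)) = m
        rw [← ht]
        refine Eq.trans (congrArg Additive.ofMul ?_) (congrArg Additive.ofMul ht)
        show ((conjEquiv (hWT 1) t : T) : T ⧸ A₀.subgroupOf T) = (t : T ⧸ A₀.subgroupOf T)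
        exact congrArg _ (Subtype.ext (by simp [coe_conjEquiv]))
      map_mul' := fun v w => AddMonoidHom.ext fun m => by
        obtain ⟨t, ht⟩ := QuotientGroup.mk_surjective (Additive.toMul m)
        show Additive.ofMul (cT (v * w) (Additive.toMul m)) = Additive.ofMul (cT v (cT w (Additive.toMul m)))
        rw [← ht]
        refine congrArg Additive.ofMul ?_
        show ((conjEquiv (hWT (v * w)) t : T) : T ⧸ A₀.subgroupOf T) =
          (conjEquiv (hWT v) (conjEquiv (hWT w) t) : T)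
        exact congrArg _ (Subtype.ext (by simp [coe_conjEquiv, mul_assoc])) }
  have hev : ∀ (w : W) (t : T), ev w (Additive.ofMul (t : T ⧸ A₀.subgroupOf T)) =
      Additive.ofMul ((conjEquiv (hWT w) t : T) : T ⧸ A₀.subgroupOf T) := fun w t => rfl
  let x : W := ⟨x₀, ⟨hx₀U, hθx₀⟩, nrm_iff.1 hTx₀⟩
  let g : W := ⟨g₀, ⟨hg₀U, hθg₀⟩, nrm_iff.1 hTg₀⟩
  have hcomm : ev x * ev g = ev g * ev x := by
    refine AddMonoidHom.ext fun m => ?_
    obtain ⟨t, ht⟩ := QuotientGroup.mk_surjective (Additive.toMul m)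
    have hm : m = Additive.ofMul (t : T ⧸ A₀.subgroupOf T) := by rw [ht]; rfl
    show ev x (ev g m) = ev g (ev x m)
    rw [hm, hev, hev, hev, hev]
    refine congrArg Additive.ofMul (QuotientGroup.eq.2 ?_)
    rw [Subgroup.mem_subgroupOf]
    simp only [Subgroup.coe_mul, Subgroup.coe_inv, coe_conjEquiv]
    -- `c = [x₀, g₀]` centralises `S` modulo `L`
    have hyS : g₀ * (x₀ * (t : G) * x₀⁻¹) * g₀⁻¹ ∈ S :=
      ((hUS _ hg₀U) _).1 (((hUS _ hx₀U) _).1 (hTS t.2))
    have hcU : ⁅x₀, g₀⁆ ∈ U := by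
      rw [commutatorElement_def]
      exact U.mul_mem (U.mul_mem (U.mul_mem hx₀U hg₀U) (U.inv_mem hx₀U)) (U.inv_mem hg₀U)
    have h1 : ⁅⁅x₀, g₀⁆, g₀ * (x₀ * (t : G) * x₀⁻¹) * g₀⁻¹⁆ ∈ A₀ := by
      have hl := (mem_cm_comm.1 hc₀.2) _ hyS
      refine ⟨?_, mem_cm.2 fun k hk => ?_⟩
      · rw [commutatorElement_def]
        exact S.mul_mem (((hUS _ hcU) _).1 hyS) (S.inv_mem hyS)
      · exact L.mul_mem (hL.conj_mem _ hl k) (L.inv_mem hl)
    have h2 := A₀.inv_mem h1
    have h3 : (g₀ * (x₀ * (t : G) * x₀⁻¹) * g₀⁻¹)⁻¹ * ⁅⁅x₀, g₀⁆, g₀ * (x₀ * (t : G) * x₀⁻¹) * g₀⁻¹⁆⁻¹ *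
        (g₀ * (x₀ * (t : G) * x₀⁻¹) * g₀⁻¹) ∈ A₀ := (hA₀n _ hyS).mem_conj_inv h2
    convert h3 using 1
    simp only [commutatorElement_def, x, g]
    group
  have hirr : ∀ U' : AddSubgroup (Additive (T ⧸ A₀.subgroupOf T)), (∀ m ∈ U', ev x m ∈ U') →
      (∀ m ∈ U', ev g m ∈ U') → U' = ⊥ ∨ U' = ⊤ := by
    intro U' hx hg
    let T' : Subgroup G :=
      ((U'.toSubgroup'.comap (QuotientGroup.mk' (A₀.subgroupOf T))) : Subgroup T).map T.subtype
    have hmem : ∀ t : T, (t : G) ∈ T' ↔ Additive.ofMul (t : T ⧸ A₀.subgroupOf T) ∈ U' := fun t =>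
      ⟨fun ⟨s, hs, e⟩ => by rw [← show s = t from Subtype.ext e]; exact hs, fun h => ⟨t, h, rfl⟩⟩
    have hAT' : A₀ ≤ T' := fun a ha => (hmem ⟨a, hA₀T.le ha⟩).2 (by
      rw [(QuotientGroup.eq_one_iff (N := A₀.subgroupOf T) (⟨a, hA₀T.le ha⟩ : T)).2 ha]
      exact U'.zero_mem)
    have hT'T : T' ≤ T := Subgroup.map_subtype_le _
    have hnrm : ∀ u : G, (∀ k ∈ T', u * k * u⁻¹ ∈ T') → Nrm T' u := fun u h k => by
      refine ⟨h k, fun hk => ?_⟩
      let f : T' → T' := fun z => ⟨u * z * u⁻¹, h z z.2⟩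
      have hf : Function.Surjective f := Finite.surjective_of_injective fun a b e =>
        Subtype.ext (by simpa [f] using congrArg Subtype.val e)
      obtain ⟨z, hz⟩ := hf ⟨_, hk⟩
      have : (z : G) = k := by simpa [f] using congrArg Subtype.val hz
      exact this ▸ z.2
    rcases hmin T' hAT' hT'T (fun s hs => hnrm s fun k hk => by
        rw [show s * k * s⁻¹ = k * ⁅k⁻¹, s⁆ by simp only [commutatorElement_def]; group]
        exact T'.mul_mem hk (hAT' (hcen _ (T.inv_mem (hT'T hk)) s hs)))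
      (hnrm _ fun k hk => by
        have h1 := hx _ ((hmem ⟨k, hT'T hk⟩).1 hk)
        rw [hev] at h1
        exact (hmem _).2 h1)
      (hnrm _ fun k hk => by
        have h1 := hg _ ((hmem ⟨k, hT'T hk⟩).1 hk)
        rw [hev] at h1
        exact (hmem _).2 h1) with h | h
    · left
      refine (AddSubgroup.eq_bot_iff_forall _).2 fun m hm => ?_
      obtain ⟨t, ht⟩ := QuotientGroup.mk_surjective (Additive.toMul m)
      have hm' : m = Additive.ofMul (t : T ⧸ A₀.subgroupOf T) := by rw [ht]; rfl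
      rw [hm'] at hm ⊢
      rw [(QuotientGroup.eq_one_iff (N := A₀.subgroupOf T) t).2 (h.le ((hmem t).2 hm))]
      rfl
    · right
      refine (AddSubgroup.eq_top_iff' _).2 fun m => ?_
      obtain ⟨t, ht⟩ := QuotientGroup.mk_surjective (Additive.toMul m)
      have hm' : m = Additive.ofMul (t : T ⧸ A₀.subgroupOf T) := by rw [ht]; rfl
      rw [hm']
      exact (hmem t).1 (h.symm.le t.2)
  have hfix : ∀ w : W, Fixes (φ : (K ⊓ cm L S : Subgroup G) → ℂ) (w : G) := fun w =>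
    A.fixes_corr (hUS _ w.2.1.1) w.2.1.2 hθS hφS hocc
  let Q : W → W → Prop := fun a b => ⁅(a : G), (b : G)⁆ ∈ K ⊓ cm L S →
    lam (K ⊓ cm L S) (φ : (K ⊓ cm L S : Subgroup G) → ℂ) a b = lam K (θ : K → ℂ) a b
  have hswap : ∀ a b, Q a b → Q b a := fun a b h hc => by
    rw [lam_swap (isCharacter_of_isIrr φ.2) (a : G) b, lam_swap (isCharacter_of_isIrr θ.2) (a : G) b,
      h (by rw [← commutatorElement_inv]; exact Subgroup.inv_mem _ hc)]
  have hcj : ∀ a b : W, ∀ j : ℕ, ⁅((a * b ^ j : W) : G), (b : G)⁆ = ⁅(a : G), (b : G)⁆ := fun a b j => by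
    simp only [Subgroup.coe_mul, Subgroup.coe_pow, commutatorElement_def, mul_inv_rev]
    rw [← mul_assoc, mul_assoc (a : G) ((b : G) ^ j) b, (Commute.pow_self (b : G) j).eq, ← mul_assoc,
      mul_assoc ((a : G) * b) ((b : G) ^ j) ((b : G) ^ j)⁻¹, mul_inv_cancel, mul_one]
  have hmul : ∀ a b : W, ∀ j : ℕ, Q (a * b ^ j) b ↔ Q a b := fun a b j => by
    refine ⟨fun h hc => ?_, fun h hc => ?_⟩
    · have h1 := h (by rw [hcj]; exact hc)
      simp only [Subgroup.coe_mul, Subgroup.coe_pow] at h1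
      rwa [lam_mul_pow φ.2 (hfix a) (hfix b) hc, lam_mul_pow θ.2 a.2.1.2 b.2.1.2 hc.1] at h1
    · rw [hcj] at hc
      simp only [Subgroup.coe_mul, Subgroup.coe_pow]
      rw [lam_mul_pow φ.2 (hfix a) (hfix b) hc, lam_mul_pow θ.2 a.2.1.2 b.2.1.2 hc.1]
      exact h hc
  refine pair_reduce (M := Additive (T ⧸ A₀.subgroupOf T)) W ev x g hcomm hirr Q hswap hmul ?_ hc₀
  intro a b hb hab
  -- `b` centralises the section
  let T₁ : Subgroup G := T ⊓ cm L (Subgroup.zpowers (b : G))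
  have hbT : ∀ t ∈ T, ∃ t' ∈ T₁, t⁻¹ * t' ∈ A₀ ⊔ L := by
    intro t ht
    let π := QuotientGroup.mk' L
    let bq : G ⧸ L := π (b : G)
    let Nb : Subgroup (G ⧸ L) := A₀.map π
    have hnb : Subgroup.zpowers bq ≤ Subgroup.normalizer (Nb : Set (G ⧸ L)) := by
      rw [Subgroup.zpowers_le]
      refine (Subgroup.le_normalizer_map π) ⟨(b : G), nrm_iff.1 (hWA b), rfl⟩
    have hordb : orderOf bq ∣ L.relIndex U := by
      let bU : U := ⟨(b : G), b.2.1.1⟩
      have h1 : bU ^ (L.subgroupOf U).index ∈ L.subgroupOf U := (L.subgroupOf U).pow_index_mem _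
      exact orderOf_dvd_of_pow_eq_one (by
        rw [← map_pow, QuotientGroup.mk'_apply, QuotientGroup.eq_one_iff]
        exact h1)
    have hcop : (Nat.card (Subgroup.zpowers bq)).Coprime (Nat.card Nb) := by
      obtain ⟨e, he⟩ := IsPGroup.iff_card.1 ((A.pgrp.to_le (inf_le_left : A₀ ≤ S)).map π)
      rw [Nat.card_zpowers, he]
      exact (Nat.Coprime.coprime_dvd_left hordb ((hp.out.coprime_iff_not_dvd.2 hU).symm.pow_right e))
    have hsol : Group.IsSolvable (Subgroup.zpowers bq) ∨ Group.IsSolvable Nb :=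
      Or.inl (by letI := IsCyclic.commGroup (α := Subgroup.zpowers bq); infer_instance)
    have hfixed : ∀ z ∈ Subgroup.zpowers bq, (π t)⁻¹ * (z * π t * z⁻¹) ∈ Nb := by
      have key : ∀ i : ℕ, (π t)⁻¹ * (bq ^ i * π t * (bq ^ i)⁻¹) ∈ Nb := by
        intro i
        have h1 : ev (b ^ i) = 1 := by rw [map_pow, hb, one_pow]
        have h2 := DFunLike.congr_fun h1 (Additive.ofMul (((⟨t, ht⟩ : T)) : T ⧸ A₀.subgroupOf T))
        rw [hev] at h2
        have h3 : ((conjEquiv (hWT (b ^ i)) ⟨t, ht⟩ : T) : T ⧸ A₀.subgroupOf T) = ((⟨t, ht⟩ : T) : _) := h2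
        have h4 := QuotientGroup.eq.1 h3.symm
        rw [Subgroup.mem_subgroupOf] at h4
        simp only [Subgroup.coe_mul, Subgroup.coe_inv, coe_conjEquiv, Subgroup.coe_pow] at h4
        refine ⟨_, h4, ?_⟩
        simp [bq]
      intro z hz
      obtain ⟨i, -, rfl⟩ : ∃ i : ℕ, True ∧ bq ^ i = z := by
        obtain ⟨i, hi⟩ := (isOfFinOrder_of_finite bq).mem_powers_iff_mem_zpowers.2 hz
        exact ⟨i, trivial, hi⟩
      exact key i
    obtain ⟨c, hc, a₀, ha₀, hae⟩ := Coprime.exists_centralizer_mem_coset hnb hcop hsol hfixed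
    refine ⟨t * a₀, ⟨T.mul_mem ht (hA₀T.le ha₀), mem_cm_comm.2 fun z hz => ?_⟩,
      Subgroup.mem_sup_left (by simpa using ha₀)⟩
    have hce : π (t * a₀) = c := by rw [map_mul, hae, mul_inv_cancel_left]
    rw [← QuotientGroup.eq_one_iff]
    have hzq : π z ∈ Subgroup.zpowers bq := by
      obtain ⟨i, rfl⟩ := hz
      exact ⟨i, by simp [bq]⟩
    have h5 := (Subgroup.mem_centralizer_iff.1 hc) _ hzq
    show π ⁅t * a₀, z⁆ = 1
    rw [map_commutatorElement, hce, commutatorElement_eq_one_iff_mul_comm]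
    exact h5.symm
  -- the intermediate subgroup
  have hTK : Nrm T (b : G) := hWT b
  set C₁ : Subgroup G := K ⊓ cm L T with hC₁
  have AT : Act p L K T := ⟨A.le, fun t ht => A.norm t (hTS ht), A.pgrp.to_le hTS, A.idx⟩
  have hC₁T₁ : K ⊓ cm L T₁ = C₁ := by
    refine le_antisymm (fun k hk => ⟨hk.1, mem_cm.2 fun t ht => ?_⟩)
      (fun k hk => ⟨hk.1, mem_cm.2 fun t ht => (mem_cm.1 hk.2) t ht.1⟩)
    obtain ⟨t', ht', htt⟩ := hbT t ht
    let E : Subgroup G := cm L (Subgroup.zpowers k)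
    have e1 : t' ∈ E := mem_cm_comm.2 fun z hz => by
      obtain ⟨i, rfl⟩ := hz
      have hki : k ^ i ∈ cm L T₁ := (cm L T₁).zpow_mem hk.2 i
      have h6 := mem_cm_comm.1 hki t' ht'
      rw [← commutatorElement_inv]
      exact L.inv_mem h6
    have e2 : A₀ ⊔ L ≤ E := sup_le (fun s hs => mem_cm.2 fun z hz => by
        obtain ⟨i, rfl⟩ := hz
        exact mem_cm.1 hs.2 _ (K.zpow_mem hk.1 i)) (le_cm _ _)
    have e3 : t ∈ E := by
      have := E.mul_mem e1 (E.inv_mem (e2 htt))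
      simpa using this
    have h7 := mem_cm.1 e3 k (Subgroup.mem_zpowers k)
    rw [← inv_mem_iff (x := t * k * t⁻¹ * k⁻¹)]
    convert h7 using 1
    group
  have hlt : Nat.card C₁ < n := by
    rw [← hn]
    refine lt_of_le_of_ne (Subgroup.card_le_of_le inf_le_left) fun he => ?_
    have heK : C₁ = K := Subgroup.eq_of_le_of_card_ge inf_le_left he.ge
    refine not_le_of_gt hA₀T fun t ht => ⟨hTS ht, mem_cm.2 fun k hk => ?_⟩
    have h1 := mem_cm.1 (heK.symm.le hk).2 t ht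
    rw [← inv_mem_iff (x := k * t * k⁻¹ * t⁻¹)]
    convert h1 using 1
    group
  have hCC₁ : K ⊓ cm L S ≤ C₁ := fun k hk => ⟨hk.1, mem_cm.2 fun t ht => mem_cm.1 hk.2 t (hTS ht)⟩
  have hnC₁ : ∀ s ∈ S, Nrm C₁ s := fun s hs => (hnK s hs).inf (Nrm.cm (hTn s hs))
  obtain ⟨φ₁, hφ₁S, hocc1, hocc2⟩ := descend hCC₁ inf_le_left θ φ A.pgrp hθS hφS
    (fun s hs c hc => (hnC₁ s hs c).1 hc) hocc
  have hθT : ∀ t ∈ T, Fixes (θ : K → ℂ) t := fun t ht => hθS t (hTS ht)
  have hφ₁T : ∀ t ∈ T, Fixes (φ₁ : C₁ → ℂ) t := fun t ht => hφ₁S t (hTS ht)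
  have hφ₁a : Fixes (φ₁ : C₁ → ℂ) (a : G) := AT.fixes_corr (hWT a) a.2.1.2 hθT hφ₁T hocc1
  have hφ₁b : Fixes (φ₁ : C₁ → ℂ) (b : G) := AT.fixes_corr (hWT b) b.2.1.2 hθT hφ₁T hocc1
  have hab1 : ⁅(a : G), (b : G)⁆ ∈ C₁ := hCC₁ hab
  -- first step
  have step1 : lam C₁ (φ₁ : C₁ → ℂ) a b = lam K (θ : K → ℂ) a b := by
    have A1 : Act p L K T₁ := ⟨A.le, fun t ht => A.norm t (hTS ht.1), A.pgrp.to_le (inf_le_left.trans hTS), A.idx⟩
    have hidx : ¬ p ∣ L.relIndex (K ⊔ Subgroup.zpowers (b : G)) := by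
      rw [← Subgroup.relIndex_mul_relIndex L K _ A.le le_sup_left, hp.out.dvd_mul]
      rintro (h | h)
      · exact A.idx h
      · exact hU (h.trans (relIndex_adjoin_dvd b.2.1.2 (show (b : G) ^ L.relIndex U ∈ K from A.le
          ((L.subgroupOf U).pow_index_mem (⟨(b : G), b.2.1.1⟩ : U)))))
    have hb1 : (b : G) ∈ cm L T₁ := mem_cm_comm.2 fun t ht => by
      have h8 := mem_cm_comm.1 ht.2 _ (Subgroup.mem_zpowers (b : G))
      rw [← commutatorElement_inv]
      exact L.inv_mem h8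
    have haT₁ : Nrm T₁ (a : G) := fun t => by
      have hc' : ∀ t ∈ T, (t ∈ cm L (Subgroup.zpowers (b : G)) ↔ ⁅t, (b : G)⁆ ∈ L) := fun t _ =>
        ⟨fun h => mem_cm_comm.1 h _ (Subgroup.mem_zpowers _), fun h => mem_cm_comm.2 fun z hz => by
          have hbt : Subgroup.zpowers (b : G) ≤ cm L (Subgroup.zpowers t) := by
            rw [Subgroup.zpowers_le]
            refine mem_cm.2 fun z' hz' => ?_
            obtain ⟨i, rfl⟩ := hz'
            have : ((t : G) : G ⧸ L) * (b : G) = (b : G) * t := by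
              rw [← commutatorElement_eq_one_iff_mul_comm]
              exact (map_commutatorElement (QuotientGroup.mk' L) t (b : G)).symm.trans
                ((QuotientGroup.eq_one_iff _).2 h)
            have hcm : Commute ((t : G ⧸ L) ^ i) ((b : G) : G ⧸ L) := Commute.zpow_left this i
            rw [← QuotientGroup.eq_one_iff]
            show QuotientGroup.mk' L (t ^ i * (b : G) * (t ^ i)⁻¹ * (b : G)⁻¹) = 1
            simp only [map_mul, map_inv, map_zpow, QuotientGroup.mk'_apply]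
            rw [hcm.eq]
            simp
          rw [← commutatorElement_inv]
          exact L.inv_mem (mem_cm_comm.1 (hbt hz) _ (Subgroup.mem_zpowers t))⟩
      have hconj : ∀ t ∈ T, (⁅t, (b : G)⁆ ∈ L ↔ ⁅(a : G) * t * (a : G)⁻¹, (b : G)⁆ ∈ L) := by
        intro t ht
        have hyc : ((a : G) : G ⧸ L) * (b : G) = (⁅(a : G), (b : G)⁆ : G) * ((b : G) * (a : G)) := by
          rw [← QuotientGroup.mk_mul, ← QuotientGroup.mk_mul, ← QuotientGroup.mk_mul]
          exact congrArg _ (by rw [commutatorElement_def]; group)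
        rw [← QuotientGroup.eq_one_iff, ← QuotientGroup.eq_one_iff]
        have hcS := mem_cm_comm.1 hab.2
        constructor <;> intro h
        all_goals
          rw [← QuotientGroup.mk'_apply, map_commutatorElement, commutatorElement_eq_one_iff_mul_comm] at h ⊢
          simp only [map_mul, map_inv, QuotientGroup.mk'_apply] at h ⊢
        · have hs : ((⁅(a : G), (b : G)⁆ : G) : G ⧸ L) * ((b : G) * ((a : G) * t * (a : G)⁻¹) * (b : G)⁻¹ : G) =
              ((b : G) * ((a : G) * t * (a : G)⁻¹) * (b : G)⁻¹ : G) * (⁅(a : G), (b : G)⁆ : G) := by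
            rw [← commutatorElement_eq_one_iff_mul_comm]
            exact (map_commutatorElement (QuotientGroup.mk' L) _ _).symm.trans
              ((QuotientGroup.eq_one_iff _).2 (hcS _ (((hUS _ b.2.1.1) _).1 (((hUS _ a.2.1.1) _).1 (hTS ht)))))
          simp only [QuotientGroup.mk_mul, QuotientGroup.mk_inv] at hs
          generalize ((t : G) : G ⧸ L) = τ at h hs ⊢
          generalize ((a : G) : G ⧸ L) = α at h hs hyc ⊢
          generalize ((b : G) : G ⧸ L) = β at h hs hyc ⊢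
          generalize ((⁅(a : G), (b : G)⁆ : G) : G ⧸ L) = γ at h hs hyc ⊢
          have hα : α * β = γ * β * α := by rw [hyc, mul_assoc]
          have e1 : α * β * τ * (α * β)⁻¹ = α * τ * α⁻¹ := by
            rw [show α * β * τ * (α * β)⁻¹ = α * (β * τ) * β⁻¹ * α⁻¹ by group, ← h]; group
          have e2 : α * β * τ * (α * β)⁻¹ = β * (α * τ * α⁻¹) * β⁻¹ := by
            calc α * β * τ * (α * β)⁻¹ = γ * (β * (α * τ * α⁻¹) * β⁻¹) * γ⁻¹ := by rw [hα]; group
              _ = β * (α * τ * α⁻¹) * β⁻¹ := by rw [hs]; group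
          calc α * τ * α⁻¹ * β = β * (α * τ * α⁻¹) * β⁻¹ * β := by rw [← e2, e1]
            _ = β * (α * τ * α⁻¹) := by group
        · have hs : ((⁅(a : G), (b : G)⁆ : G) : G ⧸ L) * ((b : G) * ((a : G) * t * (a : G)⁻¹) * (b : G)⁻¹ : G) =
              ((b : G) * ((a : G) * t * (a : G)⁻¹) * (b : G)⁻¹ : G) * (⁅(a : G), (b : G)⁆ : G) := by
            rw [← commutatorElement_eq_one_iff_mul_comm]
            exact (map_commutatorElement (QuotientGroup.mk' L) _ _).symm.trans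
              ((QuotientGroup.eq_one_iff _).2 (hcS _ (((hUS _ b.2.1.1) _).1 (((hUS _ a.2.1.1) _).1 (hTS ht)))))
          simp only [QuotientGroup.mk_mul, QuotientGroup.mk_inv] at hs
          generalize ((t : G) : G ⧸ L) = τ at h hs ⊢
          generalize ((a : G) : G ⧸ L) = α at h hs hyc ⊢
          generalize ((b : G) : G ⧸ L) = β at h hs hyc ⊢
          generalize ((⁅(a : G), (b : G)⁆ : G) : G ⧸ L) = γ at h hs hyc ⊢
          have hα : α * β = γ * β * α := by rw [hyc, mul_assoc]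
          have key : α * β * τ * (α * β)⁻¹ = α * τ * α⁻¹ := by
            calc α * β * τ * (α * β)⁻¹ = γ * (β * (α * τ * α⁻¹) * β⁻¹) * γ⁻¹ := by rw [hα]; group
              _ = β * (α * τ * α⁻¹) * β⁻¹ := by rw [hs]; group
              _ = α * τ * α⁻¹ * β * β⁻¹ := by rw [h]
              _ = α * τ * α⁻¹ := by group
          calc τ * β = α⁻¹ * (α * τ * α⁻¹) * α * β := by group
            _ = α⁻¹ * (α * β * τ * (α * β)⁻¹) * α * β := by rw [key]
            _ = β * τ := by group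
      show t ∈ T ⊓ cm L _ ↔ (a : G) * t * (a : G)⁻¹ ∈ T ⊓ cm L _
      constructor
      · rintro ⟨h1, h2⟩
        exact ⟨(hWT a t).1 h1, (hc' _ ((hWT a t).1 h1)).2 ((hconj t h1).1 ((hc' t h1).1 h2))⟩
      · rintro ⟨h1, h2⟩
        exact ⟨(hWT a t).2 h1, (hc' t ((hWT a t).2 h1)).2 ((hconj t ((hWT a t).2 h1)).2 ((hc' _ h1).1 h2))⟩
    have gen : ∀ (C : Subgroup G) (ψ : IrrCharacter C), C = K ⊓ cm L T₁ → (∀ t ∈ T₁, Fixes (ψ : C → ℂ) t) →
        Fixes (ψ : C → ℂ) (a : G) → Fixes (ψ : C → ℂ) (b : G) → ⁅(a : G), (b : G)⁆ ∈ C →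
        Occ p (θ : K → ℂ) (ψ : C → ℂ) → lam C (ψ : C → ℂ) a b = lam K (θ : K → ℂ) a b := by
      intro C ψ hCeq h1 h2 h3 h4 h5
      subst hCeq
      exact lam_eq_centralised A1 hidx hb1 haT₁ h4 (fun t ht => hθT t ht.1) a.2.1.2 b.2.1.2 h1 h2 h3 h5
    exact gen C₁ φ₁ hC₁T₁.symm (fun t ht => hφ₁T t ht.1) hφ₁a hφ₁b hab1 hocc1
  -- recursion
  have A₁ : Act p L C₁ S := ⟨le_inf A.le (le_cm L T), fun s hs k hk => (hnC₁ s hs k).1 hk, A.pgrp,
    fun h => A.idx (h.trans (Dvd.intro _ (Subgroup.relIndex_mul_relIndex L C₁ K (le_inf A.le (le_cm L T)) inf_le_left)))⟩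
  have hCeq : C₁ ⊓ cm L S = K ⊓ cm L S :=
    le_antisymm (inf_le_inf_right _ inf_le_left) (le_inf hCC₁ inf_le_right)
  have gen2 : ∀ (C : Subgroup G) (ψ : IrrCharacter C), C = C₁ ⊓ cm L S →
      (∀ s ∈ S, Fixes (ψ : C → ℂ) s) → Occ p (φ₁ : C₁ → ℂ) (ψ : C → ℂ) → ⁅(a : G), (b : G)⁆ ∈ C →
      lam C (ψ : C → ℂ) a b = lam C₁ (φ₁ : C₁ → ℂ) a b := by
    intro C ψ hCeq h1 h2 h3
    subst hCeq
    exact ih _ hlt C₁ rfl A₁ φ₁ hφ₁S ψ h1 h2 a b a.2.1.1 b.2.1.1 h3 hφ₁a hφ₁b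
  rw [gen2 _ φ hCeq.symm hφS hocc2 hab, step1]

end Cfsg.Agent.Lib.RelMcKay
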