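import Cfsg.Agent.Lib.RelMcKay.Ext
import Cfsg.Agent.Lib.RelMcKay.Transfer

/-!
# Degrees, extensions and Sylow normalisers for the counting
-/

set_option autoImplicit false
set_option linter.unusedSectionVars false

open scoped ComplexConjugate Classical commutatorElement

namespace Cfsg.Agent.Lib.RelMcKay

open Cfsg Cfsg.Agent.Lib.Char Cfsg.Agent.Lib.CharClifford

universe u

variable {G : Type u} [Group G] [Finite G] {p : ℕ} [hp : Fact p.Prime]

/-- The correspondence preserves divisibility of the degree by `p`. -/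
theorem Act.degree_dvd_iff {L J T : Subgroup G} [hL : L.Normal] (A : Act p L J T) {θ : IrrCharacter J}
    (hθ : ∀ t ∈ T, Fixes (θ : J → ℂ) t) {ζ : IrrCharacter (J ⊓ cm L T : Subgroup G)}
    (hζ : ∀ t ∈ T, Fixes (ζ : (J ⊓ cm L T : Subgroup G) → ℂ) t)
    (h : Occ p (θ : J → ℂ) (ζ : (J ⊓ cm L T : Subgroup G) → ℂ)) :
    p ∣ charDegree (ζ : (J ⊓ cm L T : Subgroup G) → ℂ) ↔ p ∣ charDegree (θ : J → ℂ) := by
  have := Fintype.ofFinite (J ⊓ cm L T : Subgroup G)
  obtain ⟨f, -, hmul⟩ := A.setup.exists_bijective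
  have hfe : f ⟨θ, (A.inv_iff _).2 hθ⟩ = ⟨Glauberman.irrSub inf_le_left ζ, (A.inv_sub_iff ζ).2 hζ⟩ := by
    by_contra hne
    obtain ⟨m, hm, hd⟩ := h
    have h0 := (hmul ⟨θ, (A.inv_iff _).2 hθ⟩).2.1 ⟨Glauberman.irrSub inf_le_left ζ, (A.inv_sub_iff ζ).2 hζ⟩
      (Ne.symm hne)
    rw [A.mult_eq θ ζ, Nat.cast_inj] at hm
    rw [ZMod.natCast_eq_zero_iff, hm] at h0
    exact hd h0
  have h2 := (hmul ⟨θ, (A.inv_iff _).2 hθ⟩).2.2
  rw [hfe] at h2
  have hdeg : charDegree (Glauberman.irrSub inf_le_left ζ : (J ⊓ cm L T).subgroupOf J → ℂ) =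
      charDegree (ζ : (J ⊓ cm L T : Subgroup G) → ℂ) := by
    apply Nat.cast_injective (R := ℂ)
    rw [← CharAux.charDegree_eq (isCharacter_of_isIrr (Glauberman.irrSub inf_le_left ζ).2),
      ← CharAux.charDegree_eq (isCharacter_of_isIrr ζ.2)]
    simp [Glauberman.irrSub]
  rw [← ZMod.natCast_eq_zero_iff, ← ZMod.natCast_eq_zero_iff]
  simp only [hdeg] at h2
  rcases h2 with e | e <;> rw [e]
  exact neg_eq_zero

/-- An element fixing a correspondent fixes the character. -/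
theorem Act.fixes_of_corr {L J T : Subgroup G} [hL : L.Normal] (A : Act p L J T) {u : G} (hT : Nrm T u)
    (hJ : Nrm J u) {θ : IrrCharacter J} (hθ : ∀ t ∈ T, Fixes (θ : J → ℂ) t)
    {φ : IrrCharacter (J ⊓ cm L T : Subgroup G)}
    (hφ : ∀ t ∈ T, Fixes (φ : (J ⊓ cm L T : Subgroup G) → ℂ) t)
    (h : Occ p (θ : J → ℂ) (φ : (J ⊓ cm L T : Subgroup G) → ℂ))
    (hφu : Fixes (φ : (J ⊓ cm L T : Subgroup G) → ℂ) u) : Fixes (θ : J → ℂ) u := by
  have hC : Nrm (J ⊓ RelMcKay.cm L T) u := Nrm.inf hJ (Nrm.cm hT)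
  have h1 := A.corr_cj hT hJ hθ hφ h
  rw [(fixes_iff_cj hC).1 hφu] at h1
  exact (fixes_iff_cj hJ).2 (A.corr_injective (fixes_cj hJ hT hθ) hθ hφ h1 h)

theorem cm_sup (L T : Subgroup G) [L.Normal] : cm L (L ⊔ T) = cm L T := by
  simp only [cm, Subgroup.map_sup, QuotientGroup.map_mk'_self, bot_sup_eq]

theorem Nrm.sup {K K' : Subgroup G} {u : G} (h : Nrm K u) (h' : Nrm K' u) : Nrm (K ⊔ K') u := by
  rw [nrm_iff] at h h' ⊢
  exact Subgroup.normalizer_inf_normalizer_le_normalizer_sup _ _ ⟨h, h'⟩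

/-- The Frattini argument. -/
theorem frattini {M : Subgroup G} [hM : M.Normal] (S : Sylow p G) {g : G}
    (hg : g ∈ Subgroup.normalizer ((M ⊔ (S : Subgroup G) : Subgroup G) : Set G)) :
    ∃ m ∈ M, ∃ u, Nrm (S : Subgroup G) u ∧ g = m * u := by
  have hgS : ((g • S : Sylow p G) : Subgroup G) ≤ M ⊔ (S : Subgroup G) := by
    intro x hx
    obtain ⟨s, hs, rfl⟩ : x ∈ (MulAut.conj g) '' ((S : Subgroup G) : Set G) := hx
    exact (Subgroup.mem_normalizer_iff.1 hg s).1 (Subgroup.mem_sup_right hs)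
  obtain ⟨i, hi⟩ := MulAction.exists_smul_eq (M ⊔ (S : Subgroup G) : Subgroup G)
    (S.subtype le_sup_right) ((g • S).subtype hgS)
  rw [Sylow.smul_subtype] at hi
  have h2 : (i : G) • S = g • S := Sylow.subtype_injective hi
  have h3 : ((i : G)⁻¹ * g) • S = S := by rw [mul_smul, ← h2, inv_smul_smul]
  have h4 : Nrm (S : Subgroup G) ((i : G)⁻¹ * g) := nrm_iff.2 (Sylow.smul_eq_iff_mem_normalizer.1 h3)
  obtain ⟨m, hm, s, hs, e⟩ := (Subgroup.mem_sup_of_normal_left).1 i.2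
  refine ⟨m, hm, s * ((i : G)⁻¹ * g), ?_, by rw [← mul_assoc, e, mul_inv_cancel_left]⟩
  rw [nrm_iff] at h4 ⊢
  exact Subgroup.mul_mem _ (Subgroup.le_normalizer hs) h4

/-- A subgroup containing a Sylow subgroup has index prime to `p` in any overgroup. -/
theorem not_dvd_relIndex_of_sylow_le (S : Sylow p G) {R H : Subgroup G} (hS : (S : Subgroup G) ≤ R)
    (hRH : R ≤ H) : ¬ p ∣ R.relIndex H := fun hd =>
  S.not_dvd_index ((hd.trans (Dvd.intro _ (Subgroup.relIndex_mul_index hRH))).trans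
    (Subgroup.index_dvd_of_le hS))

theorem charDegree_ext {K R : Subgroup G} {hKR : K ≤ R} {θ : IrrCharacter K} {η : IrrCharacter R}
    (hext : IsExt hKR (θ : K → ℂ) (η : R → ℂ)) :
    charDegree (η : R → ℂ) = charDegree (θ : K → ℂ) := by
  apply Nat.cast_injective (R := ℂ)
  rw [← CharAux.charDegree_eq (isCharacter_of_isIrr η.2), ← CharAux.charDegree_eq (isCharacter_of_isIrr θ.2),
    ← hext 1, map_one]

theorem ip_isExt {K R : Subgroup G} {hKR : K ≤ R} {θ : IrrCharacter K} {η : IrrCharacter R}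
    (hext : IsExt hKR (θ : K → ℂ) (η : R → ℂ)) : ip (η : R → ℂ) (θ : K → ℂ) = 1 := by
  have := Fintype.ofFinite K
  rw [ip_eq_classInner hKR, ← classInner_irr_self θ.2]
  exact congrArg (classInner · (θ : K → ℂ)) (funext hext)

/-- An invariant character occurring with multiplicity prime to `p` across a `p`-section is extended. -/
theorem isExt_of_not_dvd {K R : Subgroup G} (hKR : K ≤ R) {θ : IrrCharacter K}
    (hR : R ≤ fixer (θ : K → ℂ)) {e : ℕ} (he : K.relIndex R = p ^ e) (β : IrrCharacter R) {m : ℕ}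
    (hm : ip (β : R → ℂ) (θ : K → ℂ) = m) (hpm : ¬ p ∣ m) :
    IsExt hKR (θ : K → ℂ) (β : R → ℂ) := by
  haveI : (K.subgroupOf R).Normal := normal_of_fixes fun h hh => hR hh
  have hne : ip (β : R → ℂ) (θ : K → ℂ) ≠ 0 := by
    rw [hm, Nat.cast_ne_zero]
    exact fun h0 => hpm (h0 ▸ dvd_zero p)
  have h1 := restrict_eq_of_fixes hKR θ (fun h hh => hR hh) β hne
  have h2 : m ∣ K.relIndex R := ramification_dvd_index (K.subgroupOf R) β.2
    (isIrrCharacter_comp_equiv (Subgroup.subgroupOfEquivOfLe hKR) θ.2) m fun n => by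
      rw [← hm, Function.comp_apply, ← h1]
      exact congrArg _ (Subtype.ext rfl)
  rw [he] at h2
  obtain ⟨j, -, hj⟩ := (Nat.dvd_prime_pow hp.out).1 h2
  have hj0 : j = 0 := by
    by_contra hne0
    exact hpm (hj ▸ dvd_pow_self p hne0)
  subst hj0
  intro k
  rw [h1, hm, hj, pow_zero, Nat.cast_one, one_mul]

/-- The characters of degree prime to `p` lie over extensions. -/
theorem exists_ext_constituent {H K R : Subgroup G} (hKR : K ≤ R) (hRH : R ≤ H) (hn : ∀ h ∈ H, Nrm R h)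
    {θ : IrrCharacter K} (hH : H ≤ fixer (θ : K → ℂ)) {e : ℕ} (he : K.relIndex R = p ^ e)
    (χ : IrrCharacter H) (hχ : ¬ p ∣ charDegree (χ : H → ℂ)) (hover : ip (χ : H → ℂ) (θ : K → ℂ) ≠ 0) :
    ∃ η : IrrCharacter R, IsExt hKR (θ : K → ℂ) (η : R → ℂ) ∧ ip (χ : H → ℂ) (η : R → ℂ) ≠ 0 := by
  obtain ⟨β, hβ⟩ := exists_ip_ne_zero hRH χ
  obtain ⟨a, ha⟩ := ip_natCast hRH χ β
  have ha0 : a ≠ 0 := fun h0 => hβ (by rw [ha, h0, Nat.cast_zero])
  rw [degree_eq_mul hRH hn χ β ha ha0] at hχ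
  have hβp : ¬ p ∣ charDegree (β : R → ℂ) := fun hd => hχ (hd.mul_left _)
  obtain ⟨θ', hθ'⟩ := exists_ip_ne_zero hKR β
  obtain ⟨u, hu, hue⟩ := conj_of_constituents (hKR.trans hRH) (fun h hh => (hH hh).1) χ hover
    (ip_ne_zero_of_trans hKR hRH χ β θ' hβ hθ')
  rw [(fixes_iff_cj (hH hu).1).1 (hH hu)] at hue
  subst hue
  obtain ⟨m, hm⟩ := ip_natCast hKR β θ
  refine ⟨β, isExt_of_not_dvd hKR (hRH.trans hH) he β hm fun hd => hβp ?_, hβ⟩
  have h1 := restrict_eq_of_fixes hKR θ (fun h hh => hH (hRH hh)) β hθ' 1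
  rw [map_one, hm, CharAux.charDegree_eq (isCharacter_of_isIrr β.2),
    CharAux.charDegree_eq (isCharacter_of_isIrr θ.2), ← Nat.cast_mul, Nat.cast_inj] at h1
  rw [h1]
  exact hd.mul_right _

/-- Extensions descend along the correspondence. -/
theorem exists_ext_down {K R C R₀ : Subgroup G} (hKR : K ≤ R) (hCK : C ≤ K) (hCR₀ : C ≤ R₀)
    (hR₀R : R₀ ≤ R) {θ : IrrCharacter K} {φ : IrrCharacter C} (hR₀ : R₀ ≤ fixer (φ : C → ℂ))
    {e : ℕ} (he : C.relIndex R₀ = p ^ e) (hocc : Occ p (θ : K → ℂ) (φ : C → ℂ)) (η : IrrCharacter R)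
    (hext : IsExt hKR (θ : K → ℂ) (η : R → ℂ)) :
    ∃ η' : IrrCharacter R₀, IsExt hCR₀ (φ : C → ℂ) (η' : R₀ → ℂ) := by
  obtain ⟨m, hm, hpm⟩ := hocc
  have := Fintype.ofFinite C
  have hsum : ip (η : R → ℂ) (φ : C → ℂ) = ip (θ : K → ℂ) (φ : C → ℂ) := by
    rw [ip_eq_classInner (hCK.trans hKR), ip_eq_classInner hCK]
    exact congrArg (classInner · (φ : C → ℂ)) (funext fun c => hext (Subgroup.inclusion hCK c))
  rw [hm, ip_trans hCR₀ hR₀R η φ, finsum_eq_sum_of_fintype] at hsum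
  choose u hu using fun β : IrrCharacter R₀ => ip_natCast hR₀R η β
  choose w hw using fun β : IrrCharacter R₀ => ip_natCast hCR₀ β φ
  simp only [hu, hw, ← Nat.cast_mul, ← Nat.cast_sum, Nat.cast_inj] at hsum
  by_contra hno
  push Not at hno
  refine hpm (hsum ▸ Finset.dvd_sum fun β _ => ?_)
  by_contra hd
  exact hno β (isExt_of_not_dvd hCR₀ hR₀ he β (hw β) fun h => hd (h.mul_left _))

/-- Extensions lift along the correspondence. -/
theorem exists_ext_up {K R C R₀ : Subgroup G} (hKR : K ≤ R) (hCK : C ≤ K) (hCR₀ : C ≤ R₀)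
    (hR₀R : R₀ ≤ R) (hinter : R₀ ⊓ K ≤ C) {θ : IrrCharacter K} {φ : IrrCharacter C}
    (hR : R ≤ fixer (θ : K → ℂ)) {e : ℕ} (he : K.relIndex R = p ^ e) (he₀ : C.relIndex R₀ = p ^ e)
    (hocc : Occ p (θ : K → ℂ) (φ : C → ℂ)) (η' : IrrCharacter R₀)
    (hext : IsExt hCR₀ (φ : C → ℂ) (η' : R₀ → ℂ)) :
    ∃ η : IrrCharacter R, IsExt hKR (θ : K → ℂ) (η : R → ℂ) := by
  obtain ⟨m, hm, hpm⟩ := hocc
  have := Fintype.ofFinite R
  have := Fintype.ofFinite R₀
  have := Fintype.ofFinite K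
  have := Fintype.ofFinite C
  let F : R → ℂ := fun r => extendByZero K (θ : K → ℂ) (r : G)
  have hFK : ∀ k : K, F (Subgroup.inclusion hKR k) = (θ : K → ℂ) k := fun k => extendByZero_coe K _ k
  have hF : IsClassFunction R F := by
    intro r h
    have hh := hR h.2
    by_cases hr : (r : G) ∈ K
    · have hr' : ((h * r * h⁻¹ : R) : G) ∈ K := (hh.1 (r : G)).1 hr
      simp only [F, extendByZero_mem K _ hr, extendByZero_mem K _ hr']
      exact hh.2 ⟨_, hr⟩ ⟨_, hr'⟩ rfl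
    · have hr' : ¬ ((h * r * h⁻¹ : R) : G) ∈ K := fun h' => hr ((hh.1 (r : G)).2 h')
      simp only [F, extendByZero_not_mem K _ hr, extendByZero_not_mem K _ hr']
  have hcardR : (Nat.card R : ℂ) = (p : ℂ) ^ e * Nat.card K := by
    rw [← Nat.cast_pow, ← Nat.cast_mul, ← he, ← Nat.card_congr (Subgroup.subgroupOfEquivOfLe hKR).toEquiv]
    exact congrArg Nat.cast (Subgroup.index_mul_card _).symm
  have hcardR₀ : (Nat.card R₀ : ℂ) = (p : ℂ) ^ e * Nat.card C := by
    rw [← Nat.cast_pow, ← Nat.cast_mul, ← he₀, ← Nat.card_congr (Subgroup.subgroupOfEquivOfLe hCR₀).toEquiv]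
    exact congrArg Nat.cast (Subgroup.index_mul_card _).symm
  have hpe : (p : ℂ) ^ e ≠ 0 := pow_ne_zero _ (Nat.cast_ne_zero.2 hp.out.ne_zero)
  -- a sum over a subgroup containing the support
  have hsupp : ∀ {A B : Subgroup G} [Fintype A] [Fintype B] (hBA : B ≤ A) (f : A → ℂ),
      (∀ a : A, (a : G) ∉ B → f a = 0) → ∑ a : A, f a = ∑ b : B, f (Subgroup.inclusion hBA b) := by
    intro A B _ _ hBA f hf
    symm
    refine Finset.sum_bij_ne_zero (fun b _ _ => Subgroup.inclusion hBA b) (fun _ _ _ => Finset.mem_univ _)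
      (fun a _ _ b _ _ h => Subgroup.inclusion_injective hBA h) (fun a _ ha => ?_) fun _ _ _ => rfl
    have haB : (a : G) ∈ B := by_contra fun h => ha (hf a h)
    exact ⟨⟨a, haB⟩, Finset.mem_univ _, ha, Subtype.ext rfl⟩
  choose u hu using fun β : IrrCharacter R => ip_natCast hKR β θ
  choose w hw using fun β : IrrCharacter R => ip_natCast hR₀R β η'
  have hcoef : ∀ β : IrrCharacter R, classInner F (β : R → ℂ) = (u β : ℂ) / (p : ℂ) ^ e := by
    intro β
    have h1 : conj (ip (β : R → ℂ) (θ : K → ℂ)) = (u β : ℂ) := by rw [hu, Complex.conj_natCast]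
    rw [ip_eq_classInner hKR, ← classInner_conj_symm] at h1
    rw [← h1, classInner, classInner, hsupp hKR _ (fun a ha => by
      simp only [F, extendByZero_not_mem K _ ha, zero_mul]), hcardR, mul_inv]
    simp only [hFK]
    field_simp
  have hFexp := eq_sum_classInner_smul hF
  have key : classInner (fun r : R₀ => F (Subgroup.inclusion hR₀R r)) (η' : R₀ → ℂ) =
      ((∑ β, u β * w β : ℕ) : ℂ) / (p : ℂ) ^ e := by
    have h2 : (fun r : R₀ => F (Subgroup.inclusion hR₀R r)) = ∑ β : IrrCharacter R, ((u β : ℂ) / (p : ℂ) ^ e) •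
        fun r : R₀ => (β : R → ℂ) (Subgroup.inclusion hR₀R r) := by
      funext r
      have h3 := congrFun hFexp (Subgroup.inclusion hR₀R r)
      simp only [hcoef, Finset.sum_apply, Pi.smul_apply] at h3 ⊢
      exact h3
    rw [h2, classInner_sum_left, Nat.cast_sum, Finset.sum_div]
    refine Finset.sum_congr rfl fun β _ => ?_
    rw [classInner_smul_left, ← ip_eq_classInner hR₀R, hw, Nat.cast_mul]
    ring
  have key2 : classInner (fun r : R₀ => F (Subgroup.inclusion hR₀R r)) (η' : R₀ → ℂ) =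
      (m : ℂ) / (p : ℂ) ^ e := by
    rw [← hm, ip_eq_classInner hCK, classInner, classInner, hsupp hCR₀ _ (fun a ha => by
      have : (a : G) ∉ K := fun h => ha (hinter ⟨a.2, h⟩)
      simp only [F, Subgroup.coe_inclusion, extendByZero_not_mem K _ this, zero_mul]), hcardR₀, mul_inv,
      Finset.sum_congr rfl fun c _ => by
        rw [hext c, show Subgroup.inclusion hR₀R (Subgroup.inclusion hCR₀ c) =
          Subgroup.inclusion hKR (Subgroup.inclusion hCK c) from Subtype.ext rfl, hFK]]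
    field_simp
  rw [key, div_left_inj' hpe, Nat.cast_inj] at key2
  by_contra hno
  push Not at hno
  refine hpm (key2 ▸ Finset.dvd_sum fun β _ => ?_)
  by_contra hd
  exact hno β (isExt_of_not_dvd hKR hR he β (hu β) fun h => hd (h.mul_right _))

/-- Over an extension whose inertia section is prime to `p`, the count is the number of characters. -/
theorem cnt_fibre {H R : Subgroup G} (hRH : R ≤ H) (hn : ∀ h ∈ H, Nrm R h) (hidx : ¬ p ∣ R.relIndex H)
    (η : IrrCharacter R) (hη : ¬ p ∣ charDegree (η : R → ℂ)) :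
    cnt p H (η : R → ℂ) = overCard (H ⊓ fixer (η : R → ℂ)) (η : R → ℂ) := by
  have hRI : R ≤ H ⊓ fixer (η : R → ℂ) := le_inf hRH (le_fixer_self (isClassFunction_of_isIrr η.2))
  rw [cnt_inertia hRH hn η fun hd => hidx (hd.trans
    (Dvd.intro_left _ (Subgroup.relIndex_mul_relIndex R _ H hRI inf_le_left)))]
  refine Nat.card_congr (Equiv.subtypeEquivRight fun χ => ⟨fun h => h.2, fun h => ⟨?_, h⟩⟩)
  haveI : (R.subgroupOf (H ⊓ fixer (η : R → ℂ))).Normal := normal_of_fixes fun x hx => hx.2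
  obtain ⟨m, hm⟩ := ip_natCast hRI χ η
  have h1 := restrict_eq_of_fixes hRI η (fun x hx => hx.2) χ h
  have h2 : m ∣ R.relIndex (H ⊓ fixer (η : R → ℂ)) :=
    ramification_dvd_index (R.subgroupOf (H ⊓ fixer (η : R → ℂ))) χ.2
    (isIrrCharacter_comp_equiv (Subgroup.subgroupOfEquivOfLe hRI) η.2) m fun n => by
      rw [← hm, Function.comp_apply, ← h1]
      exact congrArg _ (Subtype.ext rfl)
  have h3 := h1 1
  rw [map_one, hm, CharAux.charDegree_eq (isCharacter_of_isIrr χ.2),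
    CharAux.charDegree_eq (isCharacter_of_isIrr η.2), ← Nat.cast_mul, Nat.cast_inj] at h3
  rw [h3, hp.out.dvd_mul]
  rintro (h4 | h4)
  · exact hidx ((h4.trans h2).trans
      (Dvd.intro _ (Subgroup.relIndex_mul_relIndex R _ H hRI inf_le_left)))
  · exact hη h4

theorem cj_mul_right {R : Subgroup G} {x r : G} (hx : Nrm R x) (hr : r ∈ R) (h : Nrm R (x * r))
    (η : IrrCharacter R) : cj h η = cj hx η := by
  refine Subtype.ext (funext fun k => ?_)
  rw [cj_apply, cj_apply]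
  rw [show conjEquiv h k = conjEquiv hx ((⟨r, hr⟩ : R) * k * (⟨r, hr⟩ : R)⁻¹) from
    Subtype.ext (by simp [coe_conjEquiv, mul_assoc]), map_mul, map_mul, map_inv,
    isClassFunction_of_isIrr η.2]

end Cfsg.Agent.Lib.RelMcKay
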