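import Cfsg.Agent.Lib.RelMcKay.Clifford
import Cfsg.Agent.Lib.Glauberman.Lemma
import Cfsg.Agent.Lib.Glauberman.Coset

/-!
# Extensions across a `p`-section
-/

set_option autoImplicit false
set_option linter.unusedSectionVars false

open scoped ComplexConjugate Classical commutatorElement

namespace Cfsg.Agent.Lib.RelMcKay

open Cfsg Cfsg.Agent.Lib.Char Cfsg.Agent.Lib.CharClifford

universe u

variable {G : Type u} [Group G] [Finite G]

/-- `η` restricts to `θ`. -/
def IsExt {K R : Subgroup G} (hKR : K ≤ R) (θ : K → ℂ) (η : R → ℂ) : Prop :=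
  ∀ k : K, η (Subgroup.inclusion hKR k) = θ k

theorem le_fixer_self {K : Subgroup G} {θ : K → ℂ} (hθ : IsClassFunction K θ) : K ≤ fixer θ :=
  fun k hk => ⟨fun m => ⟨fun hm => K.mul_mem (K.mul_mem hk hm) (K.inv_mem hk),
    fun hm => by simpa [mul_assoc] using K.mul_mem (K.mul_mem (K.inv_mem hk) hm) hk⟩, fun m m' e => by
      rw [show m' = (⟨k, hk⟩ : K) * m * (⟨k, hk⟩ : K)⁻¹ from Subtype.ext e, hθ]⟩

/-- An extension does not vanish identically on a coset. -/
theorem exists_ne_zero_coset {K R : Subgroup G} (hKR : K ≤ R) {θ : K → ℂ} (hθ : IsIrrCharacter K θ)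
    {η : R → ℂ} (hη : IsCharacter R η) (hext : IsExt hKR θ η) (r : R) :
    ∃ b : K, η (r * Subgroup.inclusion hKR b) ≠ 0 := by
  have := Fintype.ofFinite K
  obtain ⟨d, ρ₀, hρ⟩ := hη
  let σ : R →* Matrix (Fin d) (Fin d) ℂ :=
    (LinearMap.toMatrixAlgEquiv (Pi.basisFun ℂ (Fin d))).toAlgHom.toMonoidHom.comp ρ₀
  have ht : ∀ y, (σ y).trace = η y := fun y => by
    rw [← hρ, Representation.character, LinearMap.trace_eq_matrix_trace ℂ (Pi.basisFun ℂ (Fin d))]
    rfl
  let τ : K →* Matrix (Fin d) (Fin d) ℂ := σ.comp (Subgroup.inclusion hKR)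
  have hτ : IsIrrCharacter K fun k => (τ k).trace := by
    rw [show (fun k => (τ k).trace) = θ from funext fun k => by rw [← hext, ← ht]; rfl]
    exact hθ
  have hne : Nonempty (Fin d) := by
    refine ⟨⟨0, Nat.pos_of_ne_zero fun h0 => irr_degree_ne_zero hθ ?_⟩⟩
    subst h0
    rw [← hext 1, ← ht]; simp
  let P : (Matrix (Fin d) (Fin d) ℂ)ˣ := (Units.map σ) (toUnits r)
  have h2 := OddCorr.schur_sum_units τ hτ P
  by_contra hall
  push Not at hall
  rw [Finset.sum_eq_zero fun b _ => ?_] at h2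
  · exact (Nat.cast_ne_zero.2 Fintype.card_ne_zero) h2.symm
  · refine mul_eq_zero_of_left ?_ _
    rw [← hall b, ← ht, map_mul]
    rfl

/-- The linear factor of an extension is unique. -/
theorem linear_unique {K R : Subgroup G} (hKR : K ≤ R) {θ : K → ℂ} (hθ : IsIrrCharacter K θ)
    {η : R → ℂ} (hη : IsCharacter R η) (hext : IsExt hKR θ η) {l l' : R →* ℂˣ}
    (hl : ∀ k : K, l (Subgroup.inclusion hKR k) = 1) (hl' : ∀ k : K, l' (Subgroup.inclusion hKR k) = 1)
    (h : ∀ r, (l r : ℂ) * η r = (l' r : ℂ) * η r) : l = l' := by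
  refine MonoidHom.ext fun r => ?_
  obtain ⟨b, hb⟩ := exists_ne_zero_coset hKR hθ hη hext r
  have h1 := mul_right_cancel₀ hb (h (r * Subgroup.inclusion hKR b))
  have h2 := Units.ext h1
  rwa [map_mul, map_mul, hl, hl', mul_one, mul_one] at h2

/-- Two extensions differ by a linear character trivial on `K`. -/
theorem exists_linear {K R : Subgroup G} (hKR : K ≤ R) {θ : K → ℂ} (hθ : IsIrrCharacter K θ)
    (hR : R ≤ fixer θ) {η η' : R → ℂ} (hη : IsIrrCharacter R η) (hext : IsExt hKR θ η)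
    (hη' : IsIrrCharacter R η') (hext' : IsExt hKR θ η') :
    ∃ l : R →* ℂˣ, (∀ k : K, l (Subgroup.inclusion hKR k) = 1) ∧ η' = fun r => (l r : ℂ) * η r := by
  have := Fintype.ofFinite R
  have := Fintype.ofFinite (K.subgroupOf R)
  haveI : (K.subgroupOf R).Normal := normal_of_fixes fun h hh => hR hh
  let e := Subgroup.subgroupOfEquivOfLe hKR
  obtain ⟨l, hl, he⟩ := extension_unique_mul_linear (K.subgroupOf R) (isIrrCharacter_comp_equiv e hθ)
    hη (fun n => hext (e n)) hη' (fun n => hext' (e n))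
  exact ⟨l, fun k => hl ⟨Subgroup.inclusion hKR k, k.2⟩, he⟩

theorem isExt_mul {K R : Subgroup G} {hKR : K ≤ R} {θ : K → ℂ} {η : R → ℂ} (hext : IsExt hKR θ η)
    {l : R →* ℂˣ} (hl : ∀ k : K, l (Subgroup.inclusion hKR k) = 1) :
    IsExt hKR θ fun r => (l r : ℂ) * η r := fun k => by
  show (l _ : ℂ) * η _ = θ k
  rw [hl, Units.val_one, one_mul, hext]

/-- The scalar of an extension equals the scalar of its restriction. -/
theorem lam_restrict {K R : Subgroup G} (hKR : K ≤ R) {θ : IrrCharacter K} {η : IrrCharacter R}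
    (hext : IsExt hKR (θ : K → ℂ) (η : R → ℂ)) {x g : G} (hxθ : Fixes (θ : K → ℂ) x)
    (hgθ : Fixes (θ : K → ℂ) g) (hxη : Fixes (η : R → ℂ) x) (hgη : Fixes (η : R → ℂ) g)
    (hc : ⁅x, g⁆ ∈ K) : lam R (η : R → ℂ) x g = lam K (θ : K → ℂ) x g := by
  obtain ⟨α, hα, hαext⟩ := exists_ext η.2 hgη
  obtain ⟨lv, hlv⟩ := exists_twist η.2 hxη hgη (hKR hc) hα hαext
  have hgJ : g ∈ R ⊔ Subgroup.zpowers g := Subgroup.mem_sup_right (Subgroup.mem_zpowers g)
  have hJ : K ⊔ Subgroup.zpowers g ≤ R ⊔ Subgroup.zpowers g := sup_le_sup_right hKR _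
  rw [lam_eq_of_ext η.2 hxη le_sup_left hgJ (hKR hc) hgη (isCharacter_of_isIrr hα) hαext lv hlv,
    lam_eq_of_ext θ.2 hxθ le_sup_left (Subgroup.mem_sup_right (Subgroup.mem_zpowers g)) hc hgθ
      (isCharacter_comp (isCharacter_of_isIrr hα) (Subgroup.inclusion hJ)) (fun k => ?_) lv
      fun h h' ⟨b, hb⟩ e' => hlv (Subgroup.inclusion hJ h) (Subgroup.inclusion hJ h')
        ⟨Subgroup.inclusion hKR b, hb⟩ e']
  show α (Subgroup.inclusion hJ (Subgroup.inclusion le_sup_left k)) = _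
  rw [← hext k, ← hαext]
  exact congrArg α (Subtype.ext rfl)

/-- A group of order prime to `p` fixes some extension across a `p`-section. -/
theorem exists_fixed_ext {p : ℕ} [hp : Fact p.Prime] {K R U : Subgroup G} (hKR : K ≤ R)
    (θ : IrrCharacter K) (hR : R ≤ fixer (θ : K → ℂ)) (hU : U ≤ fixer (θ : K → ℂ))
    (hUR : ∀ u ∈ U, Nrm R u) {e : ℕ} (hpe : K.relIndex R = p ^ e)
    (hidx : ¬ p ∣ (U ⊓ R).relIndex U) (η : IrrCharacter R)
    (hext : IsExt hKR (θ : K → ℂ) (η : R → ℂ)) :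
    ∃ η₀ : IrrCharacter R, IsExt hKR (θ : K → ℂ) (η₀ : R → ℂ) ∧ ∀ u ∈ U, Fixes (η₀ : R → ℂ) u := by
  let X := {η : IrrCharacter R // IsExt hKR (θ : K → ℂ) (η : R → ℂ)}
  let Λ : Subgroup (R →* ℂˣ) :=
    { carrier := {μ | ∀ k : K, μ (Subgroup.inclusion hKR k) = 1}
      one_mem' := fun k => rfl
      mul_mem' := fun {a b} ha hb k => by rw [MonoidHom.mul_apply, ha, hb, one_mul]
      inv_mem' := fun {a} ha k => by rw [MonoidHom.inv_apply, ha, inv_one] }
  haveI : Finite (R →* ℂˣ) := Glauberman.finite_linearHom R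
  haveI hKn : (K.subgroupOf R).Normal := normal_of_fixes fun h hh => hR hh
  have hΛp : IsPGroup p Λ := fun μ => ⟨e, Subtype.ext (MonoidHom.ext fun r => by
    show (μ.1 ^ p ^ e) r = 1
    rw [MonoidHom.pow_apply, ← map_pow]
    exact μ.2 ⟨((r ^ p ^ e : R) : G), by
      have h1 := (K.subgroupOf R).pow_index_mem r
      rw [show (K.subgroupOf R).index = p ^ e from hpe] at h1
      exact h1⟩)⟩
  have hstab : ∀ (u : G) (hu : u ∈ U) (η : IrrCharacter R), IsExt hKR (θ : K → ℂ) (η : R → ℂ) →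
      IsExt hKR (θ : K → ℂ) (cj (hUR u hu) η : R → ℂ) := fun u hu η hη k => by
    rw [cj_apply, show conjEquiv (hUR u hu) (Subgroup.inclusion hKR k) =
      Subgroup.inclusion hKR ⟨u * k * u⁻¹, ((hU hu).1 _).1 k.2⟩ from Subtype.ext rfl, hη]
    exact (hU hu).2 k _ rfl
  letI aU : MulAction U X := cjAction U _ hUR hstab
  let D : Subgroup U := (U ⊓ R).subgroupOf U
  haveI : D.Normal := ⟨fun n hn u => ⟨(u * n * u⁻¹ : U).2,
    ((hUR u u.2) _).1 hn.2⟩⟩
  have hDX : ∀ d : U, d ∈ D → ∀ z : X, d • z = z := fun d hd z => by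
    refine Subtype.ext (Subtype.ext (funext fun k => ?_))
    show (z.1 : R → ℂ) (conjEquiv _ k) = (z.1 : R → ℂ) k
    rw [← isClassFunction_of_isIrr z.1.2 k ⟨((d⁻¹ : U) : G), R.inv_mem hd.2⟩]
    exact congrArg _ (Subtype.ext rfl)
  letI : MulAction (U ⧸ D) X :=
    { smul := fun q z => Quotient.liftOn' q (fun u => u • z) (fun u v huv => by
        rw [QuotientGroup.leftRel_apply] at huv
        show u • z = v • z
        conv_rhs => rw [show v = u * (u⁻¹ * v) by group, mul_smul, hDX _ huv z])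
      one_smul := fun z => one_smul U z
      mul_smul := fun q q' z => by
        obtain ⟨u, rfl⟩ := QuotientGroup.mk_surjective q
        obtain ⟨v, rfl⟩ := QuotientGroup.mk_surjective q'
        exact mul_smul u v z }
  let tw : ∀ u : U, Λ →* Λ := fun u =>
    { toFun := fun μ => ⟨μ.1.comp (conjEquiv (hUR _ (U.inv_mem u.2))).toMonoidHom, fun k => by
        show μ.1 (conjEquiv _ (Subgroup.inclusion hKR k)) = 1
        rw [show conjEquiv (hUR _ (U.inv_mem u.2)) (Subgroup.inclusion hKR k) =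
          Subgroup.inclusion hKR ⟨_, ((hU (U.inv_mem u.2)).1 _).1 k.2⟩ from Subtype.ext rfl]
        exact μ.2 _⟩
      map_one' := Subtype.ext (MonoidHom.ext fun r => rfl)
      map_mul' := fun a b => Subtype.ext (MonoidHom.ext fun r => rfl) }
  have htw : ∀ (u v : U) (μ : Λ), tw (u * v) μ = tw u (tw v μ) := fun u v μ =>
    Subtype.ext (MonoidHom.ext fun r => congrArg μ.1 (Subtype.ext (by simp [coe_conjEquiv, mul_assoc])))
  have htw1 : ∀ d : U, d ∈ D → ∀ μ : Λ, tw d μ = μ := fun d hd μ => Subtype.ext (MonoidHom.ext fun r => by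
    show μ.1 (conjEquiv _ r) = μ.1 r
    rw [show conjEquiv (hUR _ (U.inv_mem d.2)) r =
      (⟨((d⁻¹ : U) : G), R.inv_mem hd.2⟩ : R) * r * (⟨((d⁻¹ : U) : G), R.inv_mem hd.2⟩ : R)⁻¹ from
        Subtype.ext rfl, map_mul, map_mul, map_inv, mul_right_comm, mul_inv_cancel, one_mul])
  let φ₀ : U →* MulAut Λ :=
    { toFun := fun u =>
        { toFun := tw u
          invFun := tw u⁻¹
          left_inv := fun μ => by rw [← htw, inv_mul_cancel, htw1 1 D.one_mem]
          right_inv := fun μ => by rw [← htw, mul_inv_cancel, htw1 1 D.one_mem]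
          map_mul' := map_mul (tw u) }
      map_one' := MulEquiv.ext fun μ => htw1 1 D.one_mem μ
      map_mul' := fun u v => MulEquiv.ext fun μ => htw u v μ }
  let φ : U ⧸ D →* MulAut Λ := QuotientGroup.lift D φ₀ fun d hd => MulEquiv.ext fun μ => htw1 d hd μ
  letI : MulAction Λ X :=
    { smul := fun μ z => ⟨⟨fun r => (μ.1 r : ℂ) * (z.1 : R → ℂ) r, isIrrCharacter_linear_mul z.1.2 μ.1⟩,
        isExt_mul z.2 μ.2⟩
      one_smul := fun z => Subtype.ext (Subtype.ext (funext fun r => one_mul _))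
      mul_smul := fun a b z => Subtype.ext (Subtype.ext (funext fun r => by
        show (((a.1 * b.1) r : ℂˣ) : ℂ) * _ = (a.1 r : ℂ) * ((b.1 r : ℂ) * _)
        rw [MonoidHom.mul_apply, Units.val_mul, mul_assoc])) }
  haveI : Nonempty X := ⟨⟨η, hext⟩⟩
  obtain ⟨x₀, hx₀⟩ := Glauberman.exists_fixed_point (K := Λ) (A := U ⧸ D) (X := X) φ
    (fun q μ z => by
      obtain ⟨u, rfl⟩ := QuotientGroup.mk_surjective q
      exact Subtype.ext (Subtype.ext (funext fun r => rfl)))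
    (fun z z' => by
      obtain ⟨l, hl, he⟩ := exists_linear hKR θ.2 hR z.1.2 z.2 z'.1.2 z'.2
      exact ⟨⟨l, hl⟩, Subtype.ext (Subtype.ext he.symm)⟩)
    (by
      obtain ⟨n, hn⟩ := IsPGroup.iff_card.1 hΛp
      rw [hn]
      exact Nat.Coprime.pow_left n (hp.out.coprime_iff_not_dvd.2 hidx))
    (Or.inl inferInstance)
  refine ⟨x₀.1, x₀.2, fun u hu => ?_⟩
  rw [← inv_inv u]
  refine (fixer (x₀.1 : R → ℂ)).inv_mem ((fixes_iff_cj (hUR _ (U.inv_mem hu))).2 ?_)
  exact congrArg Subtype.val (hx₀ (((⟨u, hu⟩ : U)) : U ⧸ D))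

end Cfsg.Agent.Lib.RelMcKay
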