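import Cfsg.Agent.Lib.RelMcKay.Degree
import Mathlib.GroupTheory.SchurZassenhaus

/-!
# The count over a character and over its correspondent, for a `p'`-section
-/

set_option autoImplicit false
set_option linter.unusedSectionVars false

open scoped ComplexConjugate Classical commutatorElement

namespace Cfsg.Agent.Lib.RelMcKay

open Cfsg Cfsg.Agent.Lib.Char Cfsg.Agent.Lib.CharClifford

universe u

variable {G : Type u} [Group G] [Finite G] {p : ℕ} [hp : Fact p.Prime]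

/-- A complement of order prime to `p` to a normal Sylow subgroup, inside a subgroup normalizing it. -/
theorem exists_complement (S : Sylow p G) {W : Subgroup G} (hSW : (S : Subgroup G) ≤ W)
    (hW : ∀ w ∈ W, Nrm (S : Subgroup G) w) :
    ∃ U : Subgroup G, U ≤ W ∧ ¬ p ∣ Nat.card U ∧
      ∀ w ∈ W, ∃ x ∈ U, ∃ s ∈ (S : Subgroup G), w = x * s := by
  haveI hn : ((S : Subgroup G).subgroupOf W).Normal :=
    ⟨fun n hn w => ((hW (w : G) w.2) _).1 hn⟩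
  have hidx : ¬ p ∣ ((S : Subgroup G).subgroupOf W).index := fun hd =>
    S.not_dvd_index (hd.trans (Dvd.intro _ (Subgroup.relIndex_mul_index hSW)))
  have hcard : Nat.card ((S : Subgroup G).subgroupOf W) = Nat.card (S : Subgroup G) :=
    Nat.card_congr (Subgroup.subgroupOfEquivOfLe hSW).toEquiv
  obtain ⟨k, hk⟩ := IsPGroup.iff_card.1 S.isPGroup'
  obtain ⟨V, hV⟩ := Subgroup.exists_left_complement'_of_coprime
    (N := (S : Subgroup G).subgroupOf W) (by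
      rw [hcard, hk]
      exact Nat.Coprime.pow_left k (hp.out.coprime_iff_not_dvd.2 hidx))
  refine ⟨V.map W.subtype, Subgroup.map_subtype_le _, ?_, fun w hw => ?_⟩
  · rw [Subgroup.card_map_of_injective W.subtype_injective, ← hV.index_eq_card]
    exact hidx
  · have h1 : (⟨w, hw⟩ : W) ∈ V ⊔ (S : Subgroup G).subgroupOf W := by rw [hV.sup_eq_top]; trivial
    obtain ⟨x, hx, s, hs, e⟩ := Subgroup.mem_sup_of_normal_right.1 h1
    exact ⟨x, ⟨x, hx, rfl⟩, s, hs, (congrArg Subtype.val e).symm⟩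

/-- An element of order prime to `p` in a `p`-section lies in the bottom. -/
theorem mem_of_mem_p_section {C R₀ U : Subgroup G} [(C.subgroupOf R₀).Normal] {e : ℕ}
    (he : C.relIndex R₀ = p ^ e) (hU : ¬ p ∣ Nat.card U) {x : G} (hxU : x ∈ U) (hxR : x ∈ R₀) : x ∈ C := by
  let q : R₀ ⧸ C.subgroupOf R₀ := ((⟨x, hxR⟩ : R₀) : R₀ ⧸ C.subgroupOf R₀)
  have h1 : q ^ p ^ e = 1 := by
    rw [← he]
    show q ^ (C.subgroupOf R₀).index = 1
    rw [Subgroup.index_eq_card]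
    exact pow_card_eq_one'
  have h2 : q ^ Nat.card U = 1 := by
    have h5 : x ^ Nat.card U = 1 := congrArg Subtype.val (pow_card_eq_one' (x := (⟨x, hxU⟩ : U)))
    have h4 : (⟨x, hxR⟩ : R₀) ^ Nat.card U = 1 := Subtype.ext h5
    show (((⟨x, hxR⟩ : R₀) ^ Nat.card U : R₀) : R₀ ⧸ C.subgroupOf R₀) = 1
    rw [h4]
    rfl
  have h3 : orderOf q ∣ Nat.gcd (p ^ e) (Nat.card U) :=
    Nat.dvd_gcd (orderOf_dvd_of_pow_eq_one h1) (orderOf_dvd_of_pow_eq_one h2)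
  rw [(Nat.Coprime.pow_left e (hp.out.coprime_iff_not_dvd.2 hU)).gcd_eq_one, Nat.dvd_one,
    orderOf_eq_one_iff, QuotientGroup.eq_one_iff] at h3
  exact h3

/-- The count over a character equals the count over its correspondent. -/
theorem key {L K : Subgroup G} [hL : L.Normal] [hK : K.Normal] (S : Sylow p G) (hLK : L ≤ K)
    (hidx : ¬ p ∣ L.relIndex K) (θ : IrrCharacter K)
    (hθS : ∀ s ∈ (S : Subgroup G), Fixes (θ : K → ℂ) s) (hθp : ¬ p ∣ charDegree (θ : K → ℂ))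
    (φ : IrrCharacter (K ⊓ cm L (S : Subgroup G) : Subgroup G))
    (hφS : ∀ s ∈ (S : Subgroup G), Fixes (φ : (K ⊓ cm L (S : Subgroup G) : Subgroup G) → ℂ) s)
    (hocc : Occ p (θ : K → ℂ) (φ : (K ⊓ cm L (S : Subgroup G) : Subgroup G) → ℂ)) :
    cnt p (Subgroup.normalizer ((K ⊔ (S : Subgroup G) : Subgroup G) : Set G)) (θ : K → ℂ) =
      cnt p (Subgroup.normalizer ((L ⊔ (S : Subgroup G) : Subgroup G) : Set G))
        (φ : (K ⊓ cm L (S : Subgroup G) : Subgroup G) → ℂ) := by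
  have A : Act p L K (S : Subgroup G) := ⟨hLK, fun t _ k hk => hK.conj_mem k hk t, S.isPGroup', hidx⟩
  have hφp : ¬ p ∣ charDegree (φ : (K ⊓ cm L (S : Subgroup G) : Subgroup G) → ℂ) := fun h =>
    hθp ((A.degree_dvd_iff hθS hφS hocc).1 h)
  generalize hH₀ : Subgroup.normalizer ((K ⊔ (S : Subgroup G) : Subgroup G) : Set G) = H₀
  generalize hN : Subgroup.normalizer ((L ⊔ (S : Subgroup G) : Subgroup G) : Set G) = N
  have hCK : K ⊓ cm L (S : Subgroup G) ≤ K := inf_le_left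
  have hSK : ∀ s ∈ (S : Subgroup G), s ∈ K → s ∈ L := by
    intro s hs hsK
    obtain ⟨j, hj⟩ := S.isPGroup' ⟨s, hs⟩
    have h1 : ((⟨s, hsK⟩ : K) : K ⧸ L.subgroupOf K) ^ p ^ j = 1 := by
      rw [← QuotientGroup.mk_pow, show (⟨s, hsK⟩ : K) ^ p ^ j = 1 from
        Subtype.ext (congrArg Subtype.val hj :)]
      rfl
    have h2 : ((⟨s, hsK⟩ : K) : K ⧸ L.subgroupOf K) ^ (L.subgroupOf K).index = 1 := by
      rw [Subgroup.index_eq_card]; exact pow_card_eq_one'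
    have h3 := Nat.dvd_gcd (orderOf_dvd_of_pow_eq_one h1) (orderOf_dvd_of_pow_eq_one h2)
    rw [(Nat.Coprime.pow_left j
      (hp.out.coprime_iff_not_dvd.2 (show ¬ p ∣ (L.subgroupOf K).index from hidx))).gcd_eq_one, Nat.dvd_one,
      orderOf_eq_one_iff, QuotientGroup.eq_one_iff] at h3
    exact h3
  -- the two normalisers
  have hSH₀ : (S : Subgroup G) ≤ H₀ := hH₀ ▸ le_sup_right.trans Subgroup.le_normalizer
  have hSN : (S : Subgroup G) ≤ N := hN ▸ le_sup_right.trans Subgroup.le_normalizer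
  have hNn : ∀ u ∈ N, Nrm (L ⊔ (S : Subgroup G)) u := fun u hu => nrm_iff.2 (hN ▸ hu)
  have hKn : ∀ u : G, Nrm K u := fun u => nrm_iff.2 (by rw [Subgroup.normalizer_eq_top K]; trivial)
  have hLn : ∀ u : G, Nrm L u := fun u => nrm_iff.2 (by rw [Subgroup.normalizer_eq_top L]; trivial)
  have hH₀n : ∀ u ∈ H₀, Nrm (K ⊔ (S : Subgroup G)) u := fun u hu => nrm_iff.2 (hH₀ ▸ hu)
  have hNC : ∀ u ∈ N, Nrm (K ⊓ cm L (S : Subgroup G)) u := fun u hu => by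
    have h1 := (hKn u).inf (Nrm.cm (L := L) (hNn u hu))
    rwa [cm_sup] at h1
  have hNH₀ : N ≤ H₀ := by
    intro u hu
    rw [← hH₀, ← nrm_iff]
    have h1 := (hKn u).sup (hNn u hu)
    rwa [← sup_assoc, sup_eq_left.2 hLK] at h1
  have hCN : K ⊓ cm L (S : Subgroup G) ≤ N := by
    intro c hc
    have hfw : ∀ c ∈ cm L (S : Subgroup G),
        L ⊔ (S : Subgroup G) ≤ (L ⊔ (S : Subgroup G)).comap (MulAut.conj c).toMonoidHom := by
      intro c hc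
      refine sup_le (fun l hl => Subgroup.mem_sup_left ((hLn c l).1 hl)) fun s hs => ?_
      show c * s * c⁻¹ ∈ L ⊔ (S : Subgroup G)
      rw [show c * s * c⁻¹ = ⁅c, s⁆ * s by rw [commutatorElement_def]; group]
      exact Subgroup.mul_mem _ (Subgroup.mem_sup_left (mem_cm_comm.1 hc s hs)) (Subgroup.mem_sup_right hs)
    rw [← hN, ← nrm_iff]
    exact fun k => ⟨fun hk => hfw c hc.2 hk, fun hk => by
      simpa [mul_assoc] using hfw c⁻¹ (Subgroup.inv_mem _ hc.2) hk⟩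
  have hKN : ∀ k ∈ K, k ∈ N → k ∈ K ⊓ cm L (S : Subgroup G) := by
    intro k hk hkN
    refine ⟨hk, mem_cm_comm.2 fun s hs => ?_⟩
    have h1 : k * s * k⁻¹ ∈ L ⊔ (S : Subgroup G) := ((hNn k hkN) s).1 (Subgroup.mem_sup_right hs)
    have h2 : ⁅k, s⁆ ∈ L ⊔ (S : Subgroup G) := by
      rw [commutatorElement_def]
      exact Subgroup.mul_mem _ h1 (Subgroup.inv_mem _ (Subgroup.mem_sup_right hs))
    have h3 : ⁅k, s⁆ ∈ K := by
      rw [commutatorElement_def, show k * s * k⁻¹ * s⁻¹ = k * (s * k⁻¹ * s⁻¹) by group]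
      exact K.mul_mem hk (hK.conj_mem _ (K.inv_mem hk) s)
    obtain ⟨l, hl, t, ht, e⟩ := Subgroup.mem_sup_of_normal_left.1 h2
    rw [← e] at h3 ⊢
    have htK : t ∈ K := by simpa using K.mul_mem (K.inv_mem (hLK hl)) h3
    exact L.mul_mem hl (hSK t ht htK)
  -- reduce to the inertia groups
  generalize hH₁ : H₀ ⊓ fixer (θ : K → ℂ) = H₁
  generalize hN₁ : N ⊓ fixer (φ : (K ⊓ cm L (S : Subgroup G) : Subgroup G) → ℂ) = N₁
  have hKH₀ : K ≤ H₀ := hH₀ ▸ le_sup_left.trans Subgroup.le_normalizer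
  have hSH₁ : (S : Subgroup G) ≤ H₁ := hH₁ ▸ le_inf hSH₀ hθS
  have hSN₁ : (S : Subgroup G) ≤ N₁ := hN₁ ▸ le_inf hSN hφS
  have hH₁le : H₁ ≤ H₀ := hH₁ ▸ inf_le_left
  have hN₁le : N₁ ≤ N := hN₁ ▸ inf_le_left
  have hH₁θ : H₁ ≤ fixer (θ : K → ℂ) := hH₁ ▸ inf_le_right
  have hN₁φ : N₁ ≤ fixer (φ : (K ⊓ cm L (S : Subgroup G) : Subgroup G) → ℂ) := hN₁ ▸ inf_le_right
  have hKH₁ : K ≤ H₁ := hH₁ ▸ le_inf hKH₀ (le_fixer_self (isClassFunction_of_isIrr θ.2))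
  have hCN₁ : K ⊓ cm L (S : Subgroup G) ≤ N₁ :=
    hN₁ ▸ le_inf hCN (le_fixer_self (isClassFunction_of_isIrr φ.2))
  rw [cnt_inertia hKH₀ (fun u _ => hKn u) θ (hH₁ ▸ not_dvd_relIndex_of_sylow_le S hSH₁ hH₁le), hH₁,
    cnt_inertia hCN hNC φ (hN₁ ▸ not_dvd_relIndex_of_sylow_le S hSN₁ hN₁le), hN₁]
  -- the `p`-sections
  generalize hR : K ⊔ (S : Subgroup G) = R
  generalize hR₀ : (K ⊓ cm L (S : Subgroup G)) ⊔ (S : Subgroup G) = R₀
  have hKR : K ≤ R := hR ▸ le_sup_left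
  have hCR₀ : K ⊓ cm L (S : Subgroup G) ≤ R₀ := hR₀ ▸ le_sup_left
  have hSR : (S : Subgroup G) ≤ R := hR ▸ le_sup_right
  have hSR₀ : (S : Subgroup G) ≤ R₀ := hR₀ ▸ le_sup_right
  have hRH₁ : R ≤ H₁ := hR ▸ sup_le hKH₁ hSH₁
  have hR₀N₁ : R₀ ≤ N₁ := hR₀ ▸ sup_le hCN₁ hSN₁
  have hR₀R : R₀ ≤ R := hR₀ ▸ sup_le (hCK.trans hKR) hSR
  have hRn : ∀ u ∈ H₁, Nrm R u := fun u hu => hR ▸ hH₀n u (hH₁le hu)
  have hR₀n : ∀ u ∈ N₁, Nrm R₀ u := fun u hu => by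
    have h1 := (hNC u (hN₁le hu)).sup (hNn u (hN₁le hu))
    rw [← sup_assoc, sup_eq_left.2 (le_inf hLK (le_cm L _)), hR₀] at h1
    exact h1
  have hRmem : ∀ r ∈ R, ∃ k ∈ K, ∃ s ∈ (S : Subgroup G), r = k * s := fun r hr => by
    obtain ⟨k, hk, s, hs, e⟩ := Subgroup.mem_sup_of_normal_left.1 (hR.symm ▸ hr)
    exact ⟨k, hk, s, hs, e.symm⟩
  have hRN : ∀ x ∈ R, x ∈ N → x ∈ R₀ := by
    intro x hx hxN
    obtain ⟨k, hk, s, hs, rfl⟩ := hRmem x hx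
    have hkN : k ∈ N := by simpa using N.mul_mem hxN (N.inv_mem (hSN hs))
    exact R₀.mul_mem (hCR₀ (hKN k hk hkN)) (hSR₀ hs)
  have hinter : R₀ ⊓ K ≤ K ⊓ cm L (S : Subgroup G) := fun x hx => hKN x hx.2 (hN₁le (hR₀N₁ hx.1))
  obtain ⟨e, he⟩ : ∃ e, K.relIndex R = p ^ e := by
    obtain ⟨j, hj⟩ := IsPGroup.iff_card.1 S.isPGroup'
    have h1 : K.relIndex R ∣ p ^ j := by
      rw [← hR, sup_comm, Subgroup.relIndex_sup_right, ← hj]
      exact Subgroup.relIndex_dvd_card _ _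
    obtain ⟨i, -, hi⟩ := (Nat.dvd_prime_pow hp.out).1 h1
    exact ⟨i, hi⟩
  have he₀ : (K ⊓ cm L (S : Subgroup G)).relIndex R₀ = p ^ e := by
    have h1 : (K ⊓ cm L (S : Subgroup G)).relIndex R₀ = K.relIndex R₀ := by
      rw [← Subgroup.inf_relIndex_right K R₀]
      exact congrArg (Subgroup.relIndex · R₀)
        (le_antisymm (le_inf hCK hCR₀) fun x hx => hinter ⟨hx.2, hx.1⟩)
    rw [h1, ← Subgroup.relIndex_sup_right (H := R₀) (K := K), show R₀ ⊔ K = R from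
      le_antisymm (sup_le hR₀R hKR) (hR ▸ sup_le le_sup_right (hSR₀.trans le_sup_left))]
    exact he
  have hRθ : R ≤ fixer (θ : K → ℂ) := hRH₁.trans hH₁θ
  have hR₀φ : R₀ ≤ fixer (φ : (K ⊓ cm L (S : Subgroup G) : Subgroup G) → ℂ) := hR₀N₁.trans hN₁φ
  haveI hCnormal : ((K ⊓ cm L (S : Subgroup G)).subgroupOf R₀).Normal :=
    normal_of_fixes fun x hx => hR₀φ hx
  -- the characters counted lie over extensions
  by_cases hex : ∃ η : IrrCharacter R, IsExt hKR (θ : K → ℂ) (η : R → ℂ)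
  swap
  · have h1 : cnt p H₁ (θ : K → ℂ) = 0 := by
      haveI : IsEmpty {χ : IrrCharacter H₁ // ¬ p ∣ charDegree (χ : H₁ → ℂ) ∧
          ip (χ : H₁ → ℂ) (θ : K → ℂ) ≠ 0} := ⟨fun χ => hex (by
        obtain ⟨η, hη, -⟩ := exists_ext_constituent hKR hRH₁ hRn hH₁θ he χ.1 χ.2.1 χ.2.2
        exact ⟨η, hη⟩)⟩
      exact Nat.card_of_isEmpty
    have h2 : cnt p N₁ (φ : (K ⊓ cm L (S : Subgroup G) : Subgroup G) → ℂ) = 0 := by
      haveI : IsEmpty {χ : IrrCharacter N₁ // ¬ p ∣ charDegree (χ : N₁ → ℂ) ∧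
          ip (χ : N₁ → ℂ) (φ : (K ⊓ cm L (S : Subgroup G) : Subgroup G) → ℂ) ≠ 0} := ⟨fun χ => hex (by
        obtain ⟨η', hη', -⟩ := exists_ext_constituent hCR₀ hR₀N₁ hR₀n hN₁φ he₀ χ.1 χ.2.1 χ.2.2
        exact exists_ext_up hKR hCK hCR₀ hR₀R hinter hRθ he he₀ hocc η' hη')⟩
      exact Nat.card_of_isEmpty
    rw [h1, h2]
  obtain ⟨η₁, hη₁⟩ := hex
  obtain ⟨η₁', hη₁'⟩ := exists_ext_down hKR hCK hCR₀ hR₀R hR₀φ he₀ hocc η₁ hη₁
  -- the supplement of order prime to `p`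
  obtain ⟨U, hUW, hUp, hUS⟩ := exists_complement S
    (W := N₁ ⊓ Subgroup.normalizer ((S : Subgroup G) : Set G)) (le_inf hSN₁ Subgroup.le_normalizer)
    fun w hw => nrm_iff.2 hw.2
  have hUN₁ : U ≤ N₁ := hUW.trans inf_le_left
  have hUnS : ∀ u ∈ U, Nrm (S : Subgroup G) u := fun u hu => nrm_iff.2 (hUW hu).2
  have hWθ : ∀ w ∈ N₁, Nrm (S : Subgroup G) w → Fixes (θ : K → ℂ) w := fun w hw hwS =>
    A.fixes_of_corr hwS (hKn w) hθS hφS hocc (hN₁φ hw)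
  have hUθ : U ≤ fixer (θ : K → ℂ) := fun u hu => hWθ u (hUN₁ hu) (hUnS u hu)
  have hUH₁ : U ≤ H₁ := hH₁ ▸ le_inf ((hUN₁.trans hN₁le).trans hNH₀) hUθ
  have hprodH : ∀ g ∈ H₁, ∃ x ∈ U, ∃ r ∈ R, g = x * r := by
    intro g hg
    have hg0 := hH₁le hg
    obtain ⟨k, hk, v, hv, rfl⟩ := frattini (M := K) S (hH₀.symm ▸ hg0)
    have hvθ : Fixes (θ : K → ℂ) v := by
      have h1 := (fixer (θ : K → ℂ)).mul_mem
        ((fixer (θ : K → ℂ)).inv_mem (le_fixer_self (isClassFunction_of_isIrr θ.2) hk)) (hH₁θ hg)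
      rwa [inv_mul_cancel_left] at h1
    have hvN : v ∈ N := hN ▸ nrm_iff.1 ((hLn v).sup hv)
    obtain ⟨x, hx, s, hs, rfl⟩ := hUS v ⟨hN₁ ▸ ⟨hvN, A.fixes_corr hv hvθ hθS hφS hocc⟩, nrm_iff.1 hv⟩
    exact ⟨x, hx, (x⁻¹ * k * x) * s, R.mul_mem (hKR ((hKn x).mem_conj_inv hk)) (hSR hs), by group⟩
  have hprodN : ∀ g ∈ N₁, ∃ x ∈ U, ∃ r ∈ R₀, g = x * r := by
    intro g hg
    obtain ⟨l, hl, v, hv, rfl⟩ := frattini (M := L) S (hN.symm ▸ hN₁le hg)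
    have hlC : l ∈ K ⊓ cm L (S : Subgroup G) := ⟨hLK hl, le_cm L _ hl⟩
    have hv1 : v ∈ N₁ := by simpa using N₁.mul_mem (N₁.inv_mem (hCN₁ hlC)) hg
    obtain ⟨x, hx, s, hs, rfl⟩ := hUS v ⟨hv1, nrm_iff.1 hv⟩
    exact ⟨x, hx, (x⁻¹ * l * x) * s,
      R₀.mul_mem (hCR₀ ((hNC x (hN₁le (hUN₁ hx))).mem_conj_inv hlC)) (hSR₀ hs), by group⟩
  have hUR : ∀ x ∈ U, x ∈ R → x ∈ K ⊓ cm L (S : Subgroup G) := fun x hx hxR =>
    mem_of_mem_p_section he₀ hUp hx (hRN x hxR (hN₁le (hUN₁ hx)))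
  -- extensions fixed by the supplement
  obtain ⟨η₀, hη₀, hη₀U⟩ := exists_fixed_ext hKR θ hRθ hUθ (fun u hu => hRn u (hUH₁ hu)) he
    (fun hd => hUp (hd.trans (Subgroup.relIndex_dvd_card _ _))) η₁ hη₁
  obtain ⟨η₀', hη₀', hη₀U'⟩ := exists_fixed_ext hCR₀ φ hR₀φ (hUN₁.trans hN₁φ)
    (fun u hu => hR₀n u (hUN₁ hu)) he₀
    (fun hd => hUp (hd.trans (Subgroup.relIndex_dvd_card _ _))) η₁' hη₁'
  let Y₁ := {η : IrrCharacter R // IsExt hKR (θ : K → ℂ) (η : R → ℂ)}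
  let Y₂ := {η : IrrCharacter R₀ //
    IsExt hCR₀ (φ : (K ⊓ cm L (S : Subgroup G) : Subgroup G) → ℂ) (η : R₀ → ℂ)}
  choose l hl hle using fun y : Y₁ => exists_linear hKR θ.2 hRθ η₀.2 hη₀ y.1.2 y.2
  let f : Y₁ → Y₂ := fun y => ⟨⟨fun r => ((l y).comp (Subgroup.inclusion hR₀R) r : ℂ) * (η₀' : R₀ → ℂ) r,
      isIrrCharacter_linear_mul η₀'.2 ((l y).comp (Subgroup.inclusion hR₀R))⟩,
    isExt_mul hη₀' fun c => hl y (Subgroup.inclusion hCK c)⟩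
  have hlin : ∀ (a b : R →* ℂˣ), (∀ k : K, a (Subgroup.inclusion hKR k) = 1) →
      (∀ k : K, b (Subgroup.inclusion hKR k) = 1) →
      a.comp (Subgroup.inclusion hR₀R) = b.comp (Subgroup.inclusion hR₀R) → a = b := by
    intro a b ha hb hab
    refine MonoidHom.ext fun r => ?_
    obtain ⟨k, hk, s, hs, hr⟩ := hRmem r r.2
    rw [show r = Subgroup.inclusion hKR ⟨k, hk⟩ * Subgroup.inclusion hR₀R ⟨s, hSR₀ hs⟩ from Subtype.ext hr,
      map_mul, map_mul, ha, hb]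
    exact congrArg (1 * ·) (DFunLike.congr_fun hab ⟨s, hSR₀ hs⟩)
  have hfinj : Function.Injective f := by
    intro y y' h
    have h1 : (l y).comp (Subgroup.inclusion hR₀R) = (l y').comp (Subgroup.inclusion hR₀R) :=
      linear_unique hCR₀ φ.2 (isCharacter_of_isIrr η₀'.2) hη₀' (fun c => hl y (Subgroup.inclusion hCK c))
        (fun c => hl y' (Subgroup.inclusion hCK c))
        fun r => congrArg (fun z : Y₂ => (z.1 : R₀ → ℂ) r) h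
    have h2 := hlin _ _ (hl y) (hl y') h1
    exact Subtype.ext (Subtype.ext (by rw [hle y, hle y', h2]))
  have hfsurj : Function.Surjective f := by
    intro z
    obtain ⟨μ', hμ', hz⟩ := exists_linear hCR₀ φ.2 hR₀φ η₀'.2 hη₀' z.1.2 z.2
    haveI : (K.subgroupOf R).Normal := hK.subgroupOf R
    let g : R₀ →* R ⧸ K.subgroupOf R := (QuotientGroup.mk' (K.subgroupOf R)).comp (Subgroup.inclusion hR₀R)
    have hg : Function.Surjective g := by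
      intro q
      obtain ⟨r, rfl⟩ := QuotientGroup.mk_surjective q
      obtain ⟨k, hk, s, hs, hr⟩ := hRmem r r.2
      refine ⟨⟨s, hSR₀ hs⟩, QuotientGroup.eq.2 ?_⟩
      rw [Subgroup.mem_subgroupOf]
      show s⁻¹ * (r : G) ∈ K
      rw [hr, ← mul_assoc]
      simpa using hK.conj_mem k hk s⁻¹
    have hker : g.ker ≤ μ'.ker := fun r hr => by
      have hrK : (r : G) ∈ K := (QuotientGroup.eq_one_iff (N := K.subgroupOf R) (Subgroup.inclusion hR₀R r)).1 (MonoidHom.mem_ker.1 hr)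
      exact hμ' ⟨r, hinter ⟨r.2, hrK⟩⟩
    let μ : R →* ℂˣ := (g.liftOfSurjective hg ⟨μ', hker⟩).comp (QuotientGroup.mk' (K.subgroupOf R))
    have hμ₀ : ∀ r : R₀, μ (Subgroup.inclusion hR₀R r) = μ' r := fun r =>
      g.liftOfRightInverse_comp_apply _ (Function.rightInverse_surjInv hg) ⟨μ', hker⟩ r
    have hμ : ∀ k : K, μ (Subgroup.inclusion hKR k) = 1 := fun k => by
      show g.liftOfSurjective hg ⟨μ', hker⟩ ((Subgroup.inclusion hKR k : R) : R ⧸ K.subgroupOf R) = 1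
      rw [(QuotientGroup.eq_one_iff (N := K.subgroupOf R) (Subgroup.inclusion hKR k)).2 k.2, map_one]
    let y : Y₁ := ⟨⟨fun r => (μ r : ℂ) * (η₀ : R → ℂ) r, isIrrCharacter_linear_mul η₀.2 μ⟩,
      isExt_mul hη₀ hμ⟩
    have hy : l y = μ := linear_unique hKR θ.2 (isCharacter_of_isIrr η₀.2) hη₀ (hl y) hμ
      fun r => (congrFun (hle y) r).symm
    refine ⟨y, Subtype.ext (Subtype.ext (funext fun r => ?_))⟩
    show ((l y) (Subgroup.inclusion hR₀R r) : ℂ) * (η₀' : R₀ → ℂ) r = (z.1 : R₀ → ℂ) r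
    rw [hy, hμ₀, hz]
  -- the actions
  have hstab₁ : ∀ (u : G) (hu : u ∈ U) (η : IrrCharacter R), IsExt hKR (θ : K → ℂ) (η : R → ℂ) →
      IsExt hKR (θ : K → ℂ) (cj (hRn u (hUH₁ hu)) η : R → ℂ) := fun u hu η hη k => by
    rw [cj_apply, show conjEquiv (hRn u (hUH₁ hu)) (Subgroup.inclusion hKR k) =
      Subgroup.inclusion hKR ⟨u * k * u⁻¹, ((hUθ hu).1 _).1 k.2⟩ from Subtype.ext rfl, hη]
    exact (hUθ hu).2 k _ rfl
  have hstab₂ : ∀ (u : G) (hu : u ∈ U) (η : IrrCharacter R₀),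
      IsExt hCR₀ (φ : (K ⊓ cm L (S : Subgroup G) : Subgroup G) → ℂ) (η : R₀ → ℂ) →
      IsExt hCR₀ (φ : (K ⊓ cm L (S : Subgroup G) : Subgroup G) → ℂ)
        (cj (hR₀n u (hUN₁ hu)) η : R₀ → ℂ) := fun u hu η hη k => by
    rw [cj_apply, show conjEquiv (hR₀n u (hUN₁ hu)) (Subgroup.inclusion hCR₀ k) =
      Subgroup.inclusion hCR₀ ⟨u * k * u⁻¹, ((hN₁φ (hUN₁ hu)).1 _).1 k.2⟩ from Subtype.ext rfl, hη]
    exact (hN₁φ (hUN₁ hu)).2 k _ rfl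
  have hequiv : ∀ (u : G) (hu : u ∈ U) (y : Y₁),
      f ⟨cj (hRn u (hUH₁ hu)) y.1, hstab₁ u hu _ y.2⟩ =
        ⟨cj (hR₀n u (hUN₁ hu)) (f y).1, hstab₂ u hu _ (f y).2⟩ := by
    intro u hu y
    have h1 : l ⟨cj (hRn u (hUH₁ hu)) y.1, hstab₁ u hu _ y.2⟩ =
        (l y).comp (conjEquiv (hRn u (hUH₁ hu))).toMonoidHom := by
      refine linear_unique hKR θ.2 (isCharacter_of_isIrr η₀.2) hη₀ (hl _) (fun k => ?_) fun r => ?_
      · show l y (conjEquiv (hRn u (hUH₁ hu)) (Subgroup.inclusion hKR k)) = 1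
        rw [show conjEquiv (hRn u (hUH₁ hu)) (Subgroup.inclusion hKR k) =
          Subgroup.inclusion hKR ⟨u * k * u⁻¹, ((hUθ hu).1 _).1 k.2⟩ from Subtype.ext rfl]
        exact hl y _
      · rw [← congrFun (hle ⟨cj (hRn u (hUH₁ hu)) y.1, hstab₁ u hu _ y.2⟩) r, cj_apply, hle y]
        exact congrArg _ ((hη₀U u hu).2 r (conjEquiv (hRn u (hUH₁ hu)) r) rfl)
    refine Subtype.ext (Subtype.ext (funext fun r => ?_))
    show ((l _) (Subgroup.inclusion hR₀R r) : ℂ) * (η₀' : R₀ → ℂ) r =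
      ((l y) (Subgroup.inclusion hR₀R (conjEquiv (hR₀n u (hUN₁ hu)) r)) : ℂ) *
        (η₀' : R₀ → ℂ) (conjEquiv (hR₀n u (hUN₁ hu)) r)
    rw [h1, (hη₀U' u hu).2 r (conjEquiv (hR₀n u (hUN₁ hu)) r) rfl]
    refine congrArg (fun z : ℂˣ => (z : ℂ) * _) ?_
    exact congrArg (l y) (Subtype.ext rfl)
  letI a₁ : MulAction U Y₁ := cjAction U _ (fun u hu => hRn u (hUH₁ hu)) hstab₁
  letI a₂ : MulAction U Y₂ := cjAction U _ (fun u hu => hR₀n u (hUN₁ hu)) hstab₂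
  refine card_eq_of_orbits (N := U)
    (fun (χ : {χ : IrrCharacter H₁ // ¬ p ∣ charDegree (χ : H₁ → ℂ) ∧
      ip (χ : H₁ → ℂ) (θ : K → ℂ) ≠ 0}) (y : Y₁) => ip (χ.1 : H₁ → ℂ) (y.1 : R → ℂ) ≠ 0)
    (fun (χ : {χ : IrrCharacter N₁ // ¬ p ∣ charDegree (χ : N₁ → ℂ) ∧
      ip (χ : N₁ → ℂ) (φ : (K ⊓ cm L (S : Subgroup G) : Subgroup G) → ℂ) ≠ 0}) (y : Y₂) =>
      ip (χ.1 : N₁ → ℂ) (y.1 : R₀ → ℂ) ≠ 0) ?_ ?_ ?_ ?_ ?_ ?_
    (Equiv.ofBijective f ⟨hfinj, hfsurj⟩) (fun n y => hequiv _ (U.inv_mem n.2) y) ?_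
  · intro χ n y h
    show ip _ (cj _ y.1 : R → ℂ) ≠ 0
    rw [ip_cj_left hRH₁ _ _ (hUH₁ (U.inv_mem n.2))]
    exact h
  · intro χ n y h
    show ip _ (cj _ y.1 : R₀ → ℂ) ≠ 0
    rw [ip_cj_left hR₀N₁ _ _ (hUN₁ (U.inv_mem n.2))]
    exact h
  · intro χ
    obtain ⟨η, hη, h⟩ := exists_ext_constituent hKR hRH₁ hRn hH₁θ he χ.1 χ.2.1 χ.2.2
    exact ⟨⟨η, hη⟩, h⟩
  · intro χ
    obtain ⟨η, hη, h⟩ := exists_ext_constituent hCR₀ hR₀N₁ hR₀n hN₁φ he₀ χ.1 χ.2.1 χ.2.2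
    exact ⟨⟨η, hη⟩, h⟩
  · intro χ y y' h h'
    obtain ⟨v, hv, he'⟩ := conj_of_constituents hRH₁ hRn χ.1 h h'
    obtain ⟨x, hx, r, hr, rfl⟩ := hprodH v hv
    rw [cj_mul_right (hRn x (hUH₁ hx)) hr] at he'
    refine ⟨⟨x, hx⟩⁻¹, Subtype.ext ?_⟩
    show cj _ y.1 = y'.1
    rw [← he']
    congr 1
    simp
  · intro χ y y' h h'
    obtain ⟨v, hv, he'⟩ := conj_of_constituents hR₀N₁ hR₀n χ.1 h h'
    obtain ⟨x, hx, r, hr, rfl⟩ := hprodN v hv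
    rw [cj_mul_right (hR₀n x (hUN₁ hx)) hr] at he'
    refine ⟨⟨x, hx⟩⁻¹, Subtype.ext ?_⟩
    show cj _ y.1 = y'.1
    rw [← he']
    congr 1
    simp
  intro y
  -- the fibres
  let z : Y₂ := f y
  have e1 : Nat.card {x : {χ : IrrCharacter H₁ // ¬ p ∣ charDegree (χ : H₁ → ℂ) ∧
      ip (χ : H₁ → ℂ) (θ : K → ℂ) ≠ 0} // ip (x.1 : H₁ → ℂ) (y.1 : R → ℂ) ≠ 0} =
      cnt p H₁ (y.1 : R → ℂ) :=
    Nat.card_congr
      { toFun := fun χ => ⟨χ.1.1, χ.1.2.1, χ.2⟩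
        invFun := fun χ => ⟨⟨χ.1, χ.2.1, ip_ne_zero_of_trans hKR hRH₁ χ.1 y.1 θ χ.2.2
          (by rw [ip_isExt y.2]; exact one_ne_zero)⟩, χ.2.2⟩
        left_inv := fun _ => rfl
        right_inv := fun _ => rfl }
  have e2 : Nat.card {x : {χ : IrrCharacter N₁ // ¬ p ∣ charDegree (χ : N₁ → ℂ) ∧
      ip (χ : N₁ → ℂ) (φ : (K ⊓ cm L (S : Subgroup G) : Subgroup G) → ℂ) ≠ 0} //
      ip (x.1 : N₁ → ℂ) (z.1 : R₀ → ℂ) ≠ 0} = cnt p N₁ (z.1 : R₀ → ℂ) :=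
    Nat.card_congr
      { toFun := fun χ => ⟨χ.1.1, χ.1.2.1, χ.2⟩
        invFun := fun χ => ⟨⟨χ.1, χ.2.1, ip_ne_zero_of_trans hCR₀ hR₀N₁ χ.1 z.1 φ χ.2.2
          (by rw [ip_isExt z.2]; exact one_ne_zero)⟩, χ.2.2⟩
        left_inv := fun _ => rfl
        right_inv := fun _ => rfl }
  refine e1.trans (Eq.trans ?_ e2.symm)
  rw [cnt_fibre hRH₁ hRn (not_dvd_relIndex_of_sylow_le S hSR hRH₁) y.1
      (by rw [charDegree_ext y.2]; exact hθp),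
    cnt_fibre hR₀N₁ hR₀n (not_dvd_relIndex_of_sylow_le S hSR₀ hR₀N₁) z.1
      (by rw [charDegree_ext z.2]; exact hφp)]
  have hfixiff : ∀ x ∈ U, Fixes (y.1 : R → ℂ) x ↔ Fixes (z.1 : R₀ → ℂ) x := by
    intro x hx
    rw [fixes_iff_cj (hRn x (hUH₁ hx)), fixes_iff_cj (hR₀n x (hUN₁ hx))]
    constructor
    · intro h
      have h1 := congrArg Subtype.val (hequiv x hx y)
      rw [show (⟨cj (hRn x (hUH₁ hx)) y.1, hstab₁ x hx _ y.2⟩ : Y₁) = y from Subtype.ext h] at h1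
      exact h1.symm
    · intro h
      exact congrArg Subtype.val (hfinj ((hequiv x hx y).trans (Subtype.ext h)))
  generalize hU₂ : U ⊓ fixer (y.1 : R → ℂ) = U₂
  have := Fintype.ofFinite U₂
  have hU₂U : U₂ ≤ U := hU₂ ▸ inf_le_left
  have hRy : R ≤ fixer (y.1 : R → ℂ) := le_fixer_self (isClassFunction_of_isIrr y.1.2)
  have hRz : R₀ ≤ fixer (z.1 : R₀ → ℂ) := le_fixer_self (isClassFunction_of_isIrr z.1.2)
  have hU₂y : ∀ x ∈ U₂, Fixes (y.1 : R → ℂ) x := fun x hx => (hU₂.symm ▸ hx : x ∈ U ⊓ fixer _).2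
  have hU₂z : ∀ x ∈ U₂, Fixes (z.1 : R₀ → ℂ) x := fun x hx => (hfixiff x (hU₂U hx)).1 (hU₂y x hx)
  have c1 := overCard_eq_lam (U := U₂) (le_inf hRH₁ hRy) (le_inf (hU₂U.trans hUH₁) hU₂y)
    (fun g hg => by
      obtain ⟨x, hx, r, hr, rfl⟩ := hprodH g hg.1
      refine ⟨x, hU₂ ▸ ⟨hx, ?_⟩, r, hr, rfl⟩
      simpa using (fixer (y.1 : R → ℂ)).mul_mem hg.2 ((fixer (y.1 : R → ℂ)).inv_mem (hRy hr)))
    y.1 (fun g hg => hg.2)
  have c2 := overCard_eq_lam (U := U₂) (le_inf hR₀N₁ hRz) (le_inf (hU₂U.trans hUN₁) hU₂z)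
    (fun g hg => by
      obtain ⟨x, hx, r, hr, rfl⟩ := hprodN g hg.1
      refine ⟨x, hU₂ ▸ ⟨hx, (hfixiff x hx).2 ?_⟩, r, hr, rfl⟩
      refine mem_fixer.1 ?_
      simpa using (fixer (z.1 : R₀ → ℂ)).mul_mem hg.2 ((fixer (z.1 : R₀ → ℂ)).inv_mem (hRz hr)))
    z.1 (fun g hg => hg.2)
  have hinf : U₂ ⊓ R₀ = U₂ ⊓ R := le_antisymm (inf_le_inf_left _ hR₀R)
    fun x hx => ⟨hx.1, hRN x hx.2 (hN₁le (hUN₁ (hU₂U hx.1)))⟩
  have hUL : ¬ p ∣ L.relIndex U := fun hd => hUp (hd.trans (Subgroup.relIndex_dvd_card _ _))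
  have hsum : (∑ x : U₂, ∑ g : U₂, if ⁅(x : G), (g : G)⁆ ∈ R then lam R (y.1 : R → ℂ) x g else 0) =
      ∑ x : U₂, ∑ g : U₂, if ⁅(x : G), (g : G)⁆ ∈ R₀ then lam R₀ (z.1 : R₀ → ℂ) x g else 0 := by
    refine Finset.sum_congr rfl fun x _ => Finset.sum_congr rfl fun g _ => ?_
    have hxgU : ⁅(x : G), (g : G)⁆ ∈ U := by
      rw [commutatorElement_def]
      exact U.mul_mem (U.mul_mem (U.mul_mem (hU₂U x.2) (hU₂U g.2)) (U.inv_mem (hU₂U x.2)))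
        (U.inv_mem (hU₂U g.2))
    by_cases hc : ⁅(x : G), (g : G)⁆ ∈ R
    · have hc0 := hUR _ hxgU hc
      rw [if_pos hc, if_pos (hCR₀ hc0),
        lam_restrict hKR y.2 (hUθ (hU₂U x.2)) (hUθ (hU₂U g.2)) (hU₂y x x.2) (hU₂y g g.2) hc0.1,
        lam_restrict hCR₀ z.2 (hN₁φ (hUN₁ (hU₂U x.2))) (hN₁φ (hUN₁ (hU₂U g.2))) (hU₂z x x.2)
          (hU₂z g g.2) hc0]
      exact (lam_transfer hUnS hUL _ K rfl A θ hθS φ hφS hocc x g (hU₂U x.2) (hU₂U g.2) hc0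
        (hUθ (hU₂U x.2)) (hUθ (hU₂U g.2))).symm
    · rw [if_neg hc, if_neg fun h => hc (hR₀R h)]
  rw [← hsum, ← c1, hinf] at c2
  exact Nat.cast_inj.1 (mul_left_cancel₀
    (mul_ne_zero (card_ne_zero_complex U₂) (card_ne_zero_complex (U₂ ⊓ R : Subgroup G))) c2).symm

end Cfsg.Agent.Lib.RelMcKay
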