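import Cfsg.Agent.Lib.CharClifford.Gallagher
import Cfsg.Agent.Lib.CharClifford.MatrixRep
import Cfsg.Agent.Lib.CharClifford.Extend
import Cfsg.Agent.Lib.OddCorr.Matrices

/-!
# The commutation scalar of an invariant character at two elements
-/

set_option autoImplicit false
set_option linter.unusedSectionVars false

open scoped ComplexConjugate Classical commutatorElement

namespace Cfsg.Agent.Lib.RelMcKay

open Cfsg Cfsg.Agent.Lib.Char Cfsg.Agent.Lib.CharClifford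

universe u

variable {G : Type u} [Group G] [Finite G]

/-- The conjugation invariance of a function on a subgroup by an element. -/
def Fixes {K : Subgroup G} (θ : K → ℂ) (x : G) : Prop :=
  (∀ k, k ∈ K ↔ x * k * x⁻¹ ∈ K) ∧
    ∀ k k' : K, (k' : G) = x * k * x⁻¹ → θ k' = θ k

/-- The elements fixing a function on a subgroup. -/
def fixer {K : Subgroup G} (θ : K → ℂ) : Subgroup G where
  carrier := {x | Fixes θ x}
  one_mem' := ⟨fun k => by simp, fun k k' h => congrArg θ (Subtype.ext (by simpa using h))⟩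
  mul_mem' := fun {a b} ha hb => by
    refine ⟨fun k => ?_, fun k k' h => ?_⟩
    · rw [hb.1 k, ha.1 (b * k * b⁻¹)]
      simp [mul_assoc]
    · have h1 : b * (k : G) * b⁻¹ ∈ K := (hb.1 k).1 k.2
      rw [ha.2 ⟨_, h1⟩ k' (by rw [h]; simp [mul_assoc]), hb.2 k ⟨_, h1⟩ rfl]
  inv_mem' := fun {a} ha => by
    refine ⟨fun k => ?_, fun k k' h => ?_⟩
    · rw [ha.1 (a⁻¹ * k * a⁻¹⁻¹)]
      simp [mul_assoc]
    · exact (ha.2 k' k (by rw [h]; simp [mul_assoc])).symm

theorem mem_fixer {K : Subgroup G} {θ : K → ℂ} {x : G} : x ∈ fixer θ ↔ Fixes θ x := Iff.rfl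

theorem fixer_le_normalizer {K : Subgroup G} (θ : K → ℂ) :
    fixer θ ≤ Subgroup.normalizer (K : Set G) := fun _ hx =>
  Subgroup.mem_normalizer_iff.2 hx.1

/-- The commutation scalar. -/
noncomputable def lam (K : Subgroup G) (θ : K → ℂ) (x g : G) : ℂ :=
  θ 1 / (Nat.card K : ℂ) ^ 2 *
    ∑ᶠ a : K, ∑ᶠ b : K, conj (extendByZero K θ ⁅x * (a : G), g * (b : G)⁆)

theorem lam_def (K : Subgroup G) [Fintype K] (θ : K → ℂ) (x g : G) :
    lam K θ x g = θ 1 / (Nat.card K : ℂ) ^ 2 *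
      ∑ a : K, ∑ b : K, conj (extendByZero K θ ⁅x * (a : G), g * (b : G)⁆) := by
  simp only [lam, finsum_eq_sum_of_fintype]

theorem extendByZero_inv {K : Subgroup G} {θ : K → ℂ} (hθ : IsCharacter K θ) (r : G) :
    extendByZero K θ r⁻¹ = conj (extendByZero K θ r) := by
  by_cases h : r ∈ K
  · rw [extendByZero_mem K θ h, extendByZero_mem K θ (K.inv_mem h), ← char_inv hθ]
    rfl
  · rw [extendByZero_not_mem K θ h, extendByZero_not_mem K θ fun h' => h (by simpa using K.inv_mem h'),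
      map_zero]

theorem lam_swap {K : Subgroup G} {θ : K → ℂ} (hθ : IsCharacter K θ) (x g : G) :
    lam K θ g x = conj (lam K θ x g) := by
  have := Fintype.ofFinite K
  have h1 : conj (θ 1) = θ 1 := by
    obtain ⟨d, hd⟩ := exists_natDegree hθ
    rw [hd, Complex.conj_natCast]
  rw [lam_def, lam_def, map_mul, map_div₀, map_pow, Complex.conj_natCast, h1, map_sum]
  simp only [map_sum]
  congr 1
  rw [Finset.sum_comm]
  refine Finset.sum_congr rfl fun a _ => Finset.sum_congr rfl fun b _ => ?_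
  rw [← extendByZero_inv hθ ⁅x * (a : G), g * (b : G)⁆, commutatorElement_inv]

/-- Averaging conjugates in a representation irreducible on a subgroup. -/
theorem sum_conj_char {J : Subgroup G} {K : Subgroup G} [Fintype K] (hKJ : K ≤ J) {θ : K → ℂ}
    (hθ : IsIrrCharacter K θ) {η : J → ℂ} (hη : IsCharacter J η)
    (hext : ∀ k : K, η (Subgroup.inclusion hKJ k) = θ k) (u v : J) :
    θ 1 * ∑ a : K, η (u * Subgroup.inclusion hKJ a * v * (Subgroup.inclusion hKJ a)⁻¹) =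
      (Nat.card K : ℂ) * η u * η v := by
  obtain ⟨d, ρ₀, hρ⟩ := hη
  let σ : J →* Matrix (Fin d) (Fin d) ℂ :=
    (LinearMap.toMatrixAlgEquiv (Pi.basisFun ℂ (Fin d))).toAlgHom.toMonoidHom.comp ρ₀
  have ht : ∀ g, (σ g).trace = η g := fun g => by
    rw [← hρ, Representation.character, LinearMap.trace_eq_matrix_trace ℂ (Pi.basisFun ℂ (Fin d))]
    rfl
  let τ : K →* Matrix (Fin d) (Fin d) ℂ := σ.comp (Subgroup.inclusion hKJ)
  have hτ : IsIrrCharacter K fun k => (τ k).trace := by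
    rw [show (fun k => (τ k).trace) = θ from funext fun k => by rw [← hext, ← ht]; rfl]
    exact hθ
  obtain ⟨c, hc⟩ := scalar_of_irr τ hτ (∑ a, τ a * σ v * τ a⁻¹) fun x => by
    rw [Finset.sum_mul, Finset.mul_sum]
    refine (Fintype.sum_equiv (Equiv.mulLeft x) _ _ fun g => ?_).symm
    rw [Equiv.coe_mulLeft, _root_.mul_inv_rev, map_mul, map_mul]
    simp only [mul_assoc]
    rw [inv_mul_rep, mul_one]
  have hd : θ 1 = (d : ℂ) := by
    rw [← hext 1, map_one, ← hρ, Representation.char_one, Module.finrank_fin_fun]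
  have htr : (Nat.card K : ℂ) * η v = c * d := by
    have h1 := congrArg Matrix.trace hc
    rw [Matrix.trace_sum, Matrix.trace_smul, Matrix.trace_one, smul_eq_mul, Fintype.card_fin,
      Finset.sum_congr rfl fun a _ => by
        rw [Matrix.trace_mul_cycle, inv_mul_rep, one_mul, ht], Finset.sum_const, Finset.card_univ,
      nsmul_eq_mul, ← Nat.card_eq_fintype_card] at h1
    exact h1
  have h2 : ∑ a : K, η (u * Subgroup.inclusion hKJ a * v * (Subgroup.inclusion hKJ a)⁻¹) = c * η u := by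
    have h3 := congrArg (fun X => (σ u * X).trace) hc
    simp only [Finset.mul_sum, Matrix.trace_sum, Matrix.mul_smul, mul_one, Matrix.trace_smul,
      smul_eq_mul, ht] at h3
    rw [← h3]
    refine Finset.sum_congr rfl fun a _ => ?_
    rw [← ht]
    simp only [τ, MonoidHom.comp_apply, map_inv, ← map_mul, mul_assoc]
  rw [h2, hd, mul_right_comm, htr]
  ring

/-- The scalar read off an extension. -/
theorem lam_eq_of_ext {K : Subgroup G} {θ : K → ℂ} (hθ : IsIrrCharacter K θ) {x g : G}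
    (hx : Fixes θ x) {J : Subgroup G} (hKJ : K ≤ J) (hgJ : g ∈ J) (hc : ⁅x, g⁆ ∈ K)
    (hgK : Fixes θ g) {η : J → ℂ} (hη : IsCharacter J η)
    (hext : ∀ k : K, η (Subgroup.inclusion hKJ k) = θ k) (lv : ℂ)
    (hlv : ∀ h h' : J, (∃ b : K, (h : G) = g * b) → (h' : G) = x⁻¹ * h * x → η h' = lv * η h) :
    lam K θ x g = lv := by
  have := Fintype.ofFinite K
  have hd := irr_degree_ne_zero hθ
  have hK : (Nat.card K : ℂ) ≠ 0 := card_ne_zero_complex K
  have hgi : ∀ k, k ∈ K → g⁻¹ * k * g ∈ K := fun k hk => by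
    rw [hgK.1, show g * (g⁻¹ * k * g) * g⁻¹ = k by group]; exact hk
  have hxi : ∀ k, k ∈ K → x⁻¹ * k * x ∈ K := fun k hk => by
    rw [hx.1, show x * (x⁻¹ * k * x) * x⁻¹ = k by group]; exact hk
  -- the twisted element
  have htw : ∀ b : K, x⁻¹ * (g * b) * x ∈ J := fun b => by
    have h1 : g⁻¹ * ⁅x⁻¹, g⁆ * g ∈ K := hgi _ (by
      rw [show ⁅x⁻¹, g⁆ = x⁻¹ * ⁅x, g⁆⁻¹ * x by simp [commutatorElement_def, mul_assoc]]
      exact hxi _ (K.inv_mem hc))
    have : x⁻¹ * (g * b) * x = g * ((g⁻¹ * ⁅x⁻¹, g⁆ * g) * (x⁻¹ * b * x)) := by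
      rw [commutatorElement_def]; group
    rw [this]
    exact J.mul_mem hgJ (hKJ (K.mul_mem h1 (hxi _ b.2)))
  have hgb : ∀ b : K, g * b ∈ J := fun b => J.mul_mem hgJ (hKJ b.2)
  have hterm : ∀ a b : K, conj (extendByZero K θ ⁅x * (a : G), g * (b : G)⁆) =
      η (⟨_, htw b⟩ * Subgroup.inclusion hKJ a * (⟨_, hgb b⟩ : J)⁻¹ * (Subgroup.inclusion hKJ a)⁻¹) := by
    intro a b
    rw [← extendByZero_inv (isCharacter_of_isIrr hθ)]
    have hmem : x⁻¹ * ⁅x * (a : G), g * (b : G)⁆⁻¹ * x ∈ K := by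
      have e : x⁻¹ * ⁅x * (a : G), g * (b : G)⁆⁻¹ * x =
          (x⁻¹ * ⁅x, g⁆⁻¹ * x) * (g * ((x⁻¹ * b * x) * ((a : G) * (b : G)⁻¹)) * g⁻¹) * (a : G)⁻¹ := by
        simp only [commutatorElement_def]; group
      rw [e]
      exact K.mul_mem (K.mul_mem (hxi _ (K.inv_mem hc))
        ((hgK.1 _).1 (K.mul_mem (hxi _ b.2) (K.mul_mem a.2 (K.inv_mem b.2))))) (K.inv_mem a.2)
    have hmem' : ⁅x * (a : G), g * (b : G)⁆⁻¹ ∈ K := by
      have := (hx.1 _).1 hmem
      simpa [mul_assoc] using this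
    rw [extendByZero_mem K θ hmem',
      hx.2 ⟨_, hmem⟩ ⟨_, hmem'⟩ (by simp [mul_assoc]), ← hext]
    refine congrArg η (Subtype.ext ?_)
    simp [commutatorElement_def, mul_assoc]
  have hsum : ∀ b : K, θ 1 * ∑ a : K, conj (extendByZero K θ ⁅x * (a : G), g * (b : G)⁆) =
      (Nat.card K : ℂ) * lv * (η ⟨_, hgb b⟩ * conj (η ⟨_, hgb b⟩)) := fun b => by
    rw [Finset.sum_congr rfl fun a _ => hterm a b, sum_conj_char hKJ hθ hη hext,
      hlv ⟨_, hgb b⟩ ⟨_, htw b⟩ ⟨b, rfl⟩ rfl, char_inv hη]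
    ring
  have hnorm : ∑ b : K, η ⟨_, hgb b⟩ * conj (η ⟨_, hgb b⟩) = (Nat.card K : ℂ) := by
    obtain ⟨d, ρ₀, hρ⟩ := hη
    let σ : J →* Matrix (Fin d) (Fin d) ℂ :=
      (LinearMap.toMatrixAlgEquiv (Pi.basisFun ℂ (Fin d))).toAlgHom.toMonoidHom.comp ρ₀
    have ht : ∀ y, (σ y).trace = η y := fun y => by
      rw [← hρ, Representation.character, LinearMap.trace_eq_matrix_trace ℂ (Pi.basisFun ℂ (Fin d))]
      rfl
    let τ : K →* Matrix (Fin d) (Fin d) ℂ := σ.comp (Subgroup.inclusion hKJ)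
    have hτ : IsIrrCharacter K fun k => (τ k).trace := by
      rw [show (fun k => (τ k).trace) = θ from funext fun k => by rw [← hext, ← ht]; rfl]
      exact hθ
    have hne : Nonempty (Fin d) := by
      refine ⟨⟨0, Nat.pos_of_ne_zero fun h0 => hd ?_⟩⟩
      subst h0
      rw [← hext 1, ← ht]; simp
    let P : (Matrix (Fin d) (Fin d) ℂ)ˣ := (Units.map σ) (toUnits (⟨g, hgJ⟩ : J))
    have h2 := OddCorr.schur_sum_units τ hτ P
    rw [← Nat.card_eq_fintype_card] at h2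
    rw [← h2]
    refine Finset.sum_congr rfl fun b _ => ?_
    rw [← char_inv ⟨d, ρ₀, hρ⟩, ← ht, ← ht]
    simp only [P, τ, MonoidHom.comp_apply, ← map_inv, Units.coe_map, val_toUnits_apply, ← map_mul,
      _root_.mul_inv_rev]
    congr 3
    exact Subtype.ext (by simp [mul_assoc])
  rw [lam_def, Finset.sum_comm, div_mul_eq_mul_div, Finset.mul_sum, Finset.sum_congr rfl fun b _ => hsum b,
    ← Finset.mul_sum, hnorm, eq_comm, eq_div_iff (pow_ne_zero 2 hK)]
  ring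

theorem normal_subgroupOf_adjoin {K : Subgroup G} {θ : K → ℂ} {g : G} (hgK : Fixes θ g) :
    (K.subgroupOf (K ⊔ Subgroup.zpowers g)).Normal := by
  refine (Subgroup.normal_subgroupOf_iff_le_normalizer le_sup_left).2 (sup_le Subgroup.le_normalizer ?_)
  rw [Subgroup.zpowers_le]
  exact fixer_le_normalizer θ hgK

/-- An invariant character extends to the subgroup generated with one element. -/
theorem exists_ext {K : Subgroup G} {θ : K → ℂ} (hθ : IsIrrCharacter K θ) {g : G} (hgK : Fixes θ g) :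
    ∃ η : (K ⊔ Subgroup.zpowers g : Subgroup G) → ℂ, IsIrrCharacter _ η ∧
      ∀ k : K, η (Subgroup.inclusion le_sup_left k) = θ k := by
  set J : Subgroup G := K ⊔ Subgroup.zpowers g with hJ
  have hKJ : K ≤ J := le_sup_left
  have hgJ : g ∈ J := Subgroup.mem_sup_right (Subgroup.mem_zpowers g)
  haveI := normal_subgroupOf_adjoin hgK
  let e := Subgroup.subgroupOfEquivOfLe hKJ
  have hinv : ∀ y : J, conjChar (K.subgroupOf J) y (θ ∘ e) = θ ∘ e := by
    have hle : J ≤ fixer θ := sup_le (fun k hk => ⟨fun m => ⟨fun hm => K.mul_mem (K.mul_mem hk hm) (K.inv_mem hk),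
      fun hm => by simpa [mul_assoc] using K.mul_mem (K.mul_mem (K.inv_mem hk) hm) hk⟩, fun m m' h => by
        have := isClassFunction_of_isIrr hθ m ⟨k, hk⟩
        rw [← this]
        exact congrArg θ (Subtype.ext (by simpa using h))⟩) (by rw [Subgroup.zpowers_le]; exact hgK)
    intro y
    funext n
    exact (hle y.2).2 (e n) _ (by simp [e])
  have hcyc : IsCyclic (J ⧸ K.subgroupOf J) := by
    refine ⟨⟨((⟨g, hgJ⟩ : J) : J ⧸ K.subgroupOf J), fun z => ?_⟩⟩
    obtain ⟨y, rfl⟩ := QuotientGroup.mk_surjective z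
    let W : Subgroup J :=
      (Subgroup.zpowers ((⟨g, hgJ⟩ : J) : J ⧸ K.subgroupOf J)).comap (QuotientGroup.mk' _)
    have hW : J ≤ W.map J.subtype := sup_le (fun k hk => ⟨⟨k, hKJ hk⟩, by
        show ((⟨k, hKJ hk⟩ : J) : J ⧸ K.subgroupOf J) ∈ Subgroup.zpowers _
        rw [(QuotientGroup.eq_one_iff (N := K.subgroupOf J) (⟨k, hKJ hk⟩ : J)).2 hk]
        exact Subgroup.one_mem _, rfl⟩) (by
      rw [Subgroup.zpowers_le]
      exact ⟨⟨g, hgJ⟩, Subgroup.mem_zpowers _, rfl⟩)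
    obtain ⟨w, hw, hwy⟩ := hW y.2
    rw [← show w = y from Subtype.ext hwy]
    exact hw
  obtain ⟨η, hη, hext⟩ := extends_of_cyclic (isIrrCharacter_comp_equiv e hθ) hinv hcyc
  exact ⟨η, hη, fun k => by
    rw [show Subgroup.inclusion hKJ k = ((e.symm k : K.subgroupOf J) : J) from rfl, hext]
    simp⟩

theorem conj_mem_adjoin {K : Subgroup G} {θ : K → ℂ} {x g : G} (hx : Fixes θ x) (hgK : Fixes θ g)
    (hc : ⁅x, g⁆ ∈ K) (h : G) (hh : h ∈ K ⊔ Subgroup.zpowers g) :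
    x⁻¹ * h * x ∈ K ⊔ Subgroup.zpowers g := by
  have hle : K ⊔ Subgroup.zpowers g ≤ (K ⊔ Subgroup.zpowers g).comap (MulAut.conj x⁻¹).toMonoidHom := by
    refine sup_le (fun k hk => ?_) ?_
    · show x⁻¹ * k * x⁻¹⁻¹ ∈ (K ⊔ Subgroup.zpowers g : Subgroup G)
      refine Subgroup.mem_sup_left ?_
      rw [hx.1]; simpa [mul_assoc] using hk
    · rw [Subgroup.zpowers_le]
      show x⁻¹ * g * x⁻¹⁻¹ ∈ (K ⊔ Subgroup.zpowers g : Subgroup G)
      have h1 : x⁻¹ * ⁅x, g⁆⁻¹ * x ∈ K := by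
        rw [hx.1]; simpa [mul_assoc] using K.inv_mem hc
      rw [show x⁻¹ * g * x⁻¹⁻¹ = (x⁻¹ * ⁅x, g⁆⁻¹ * x) * g by rw [commutatorElement_def]; group]
      exact Subgroup.mul_mem _ (Subgroup.mem_sup_left h1) (Subgroup.mem_sup_right (Subgroup.mem_zpowers g))
  simpa using hle hh

/-- The twist of an extension by a fixing element. -/
theorem exists_twist_hom {K : Subgroup G} {θ : K → ℂ} (hθ : IsIrrCharacter K θ) {x g : G} (hx : Fixes θ x)
    (hgK : Fixes θ g) (hc : ⁅x, g⁆ ∈ K) {η : (K ⊔ Subgroup.zpowers g : Subgroup G) → ℂ}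
    (hη : IsIrrCharacter _ η) (hext : ∀ k : K, η (Subgroup.inclusion le_sup_left k) = θ k) :
    ∃ l : (K ⊔ Subgroup.zpowers g : Subgroup G) →* ℂˣ,
      (∀ h : (K ⊔ Subgroup.zpowers g : Subgroup G), (h : G) ∈ K → l h = 1) ∧
      ∀ h h' : (K ⊔ Subgroup.zpowers g : Subgroup G), (h' : G) = x⁻¹ * h * x →
        η h' = (l h : ℂ) * η h := by
  have hKJ : K ≤ (K ⊔ Subgroup.zpowers g : Subgroup G) := le_sup_left
  haveI := normal_subgroupOf_adjoin hgK
  haveI := Fintype.ofFinite (K ⊔ Subgroup.zpowers g : Subgroup G)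
  haveI := Fintype.ofFinite (K.subgroupOf (K ⊔ Subgroup.zpowers g : Subgroup G))
  let e := Subgroup.subgroupOfEquivOfLe hKJ
  let f : (K ⊔ Subgroup.zpowers g : Subgroup G) →* (K ⊔ Subgroup.zpowers g : Subgroup G) := MonoidHom.codRestrict ((MulAut.conj x⁻¹).toMonoidHom.comp (K ⊔ Subgroup.zpowers g : Subgroup G).subtype) (K ⊔ Subgroup.zpowers g : Subgroup G) fun y => by
    simpa using conj_mem_adjoin hx hgK hc y y.2
  have hf : ∀ y : (K ⊔ Subgroup.zpowers g : Subgroup G), (f y : G) = x⁻¹ * y * x := fun y => by simp [f]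
  have hfs : Function.Surjective f := Finite.surjective_of_injective fun a b h => Subtype.ext (by
    have := congrArg (fun z : (K ⊔ Subgroup.zpowers g : Subgroup G) => (z : G)) h
    simpa [hf] using this)
  have hext' : ∀ n : K.subgroupOf (K ⊔ Subgroup.zpowers g : Subgroup G), η (n : (K ⊔ Subgroup.zpowers g : Subgroup G)) = (θ ∘ e) n := fun n => by
    rw [Function.comp_apply, ← hext]; exact congrArg η (Subtype.ext rfl)
  have hext2 : ∀ n : K.subgroupOf (K ⊔ Subgroup.zpowers g : Subgroup G), η (f n) = (θ ∘ e) n := fun n => by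
    have hm : x⁻¹ * ((n : (K ⊔ Subgroup.zpowers g : Subgroup G)) : G) * x ∈ K := by
      refine (hx.1 _).2 ?_
      rw [show x * (x⁻¹ * ((n : (K ⊔ Subgroup.zpowers g : Subgroup G)) : G) * x) * x⁻¹ = ((n : (K ⊔ Subgroup.zpowers g : Subgroup G)) : G) by group]
      exact n.2
    rw [Function.comp_apply, hx.2 ⟨_, hm⟩ (e n) (by simp [e, mul_assoc]), ← hext]
    exact congrArg η (Subtype.ext (hf _))
  obtain ⟨l, hl, hle⟩ := extension_unique_mul_linear (K.subgroupOf (K ⊔ Subgroup.zpowers g : Subgroup G)) (isIrrCharacter_comp_equiv e hθ)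
    hη hext' (isIrrCharacter_comp hη f hfs) hext2
  refine ⟨l, fun h hk => hl ⟨h, hk⟩, fun h h' hh' => ?_⟩
  rw [show h' = f h from Subtype.ext (by rw [hf, hh'])]
  exact congrFun hle h

/-- The twist of an extension by a fixing element. -/
theorem exists_twist {K : Subgroup G} {θ : K → ℂ} (hθ : IsIrrCharacter K θ) {x g : G} (hx : Fixes θ x)
    (hgK : Fixes θ g) (hc : ⁅x, g⁆ ∈ K) {η : (K ⊔ Subgroup.zpowers g : Subgroup G) → ℂ}
    (hη : IsIrrCharacter _ η) (hext : ∀ k : K, η (Subgroup.inclusion le_sup_left k) = θ k) :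
    ∃ lv : ℂ, ∀ h h' : (K ⊔ Subgroup.zpowers g : Subgroup G), (∃ b : K, (h : G) = g * b) →
      (h' : G) = x⁻¹ * h * x → η h' = lv * η h := by
  obtain ⟨l, hl, hle⟩ := exists_twist_hom hθ hx hgK hc hη hext
  refine ⟨(l ⟨g, Subgroup.mem_sup_right (Subgroup.mem_zpowers g)⟩ : ℂ), fun h h' ⟨b, hb⟩ hh' => ?_⟩
  rw [hle h h' hh']
  congr 2
  rw [show h = ⟨g, Subgroup.mem_sup_right (Subgroup.mem_zpowers g)⟩ *
      Subgroup.inclusion le_sup_left b from Subtype.ext hb, map_mul, hl (Subgroup.inclusion _ b) b.2, mul_one]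

/-- Multiplying the first element by a power of the second does not change the scalar. -/
theorem lam_mul_pow {K : Subgroup G} {θ : K → ℂ} (hθ : IsIrrCharacter K θ) {x g : G} (hx : Fixes θ x)
    (hgK : Fixes θ g) (hc : ⁅x, g⁆ ∈ K) (j : ℕ) : lam K θ (x * g ^ j) g = lam K θ x g := by
  obtain ⟨η, hη, hext⟩ := exists_ext hθ hgK
  obtain ⟨lv, hlv⟩ := exists_twist hθ hx hgK hc hη hext
  have hgJ : g ∈ K ⊔ Subgroup.zpowers g := Subgroup.mem_sup_right (Subgroup.mem_zpowers g)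
  have hxg : Fixes θ (x * g ^ j) := (fixer θ).mul_mem hx ((fixer θ).pow_mem hgK j)
  have hc' : ⁅x * g ^ j, g⁆ ∈ K := by
    rw [show ⁅x * g ^ j, g⁆ = ⁅x, g⁆ by
      rw [commutatorElement_def, commutatorElement_def, mul_inv_rev, ← mul_assoc, mul_assoc x (g ^ j) g,
        (Commute.pow_self g j).eq, ← mul_assoc, mul_assoc (x * g) (g ^ j) (g ^ j)⁻¹, mul_inv_cancel, mul_one]]
    exact hc
  rw [lam_eq_of_ext hθ hx le_sup_left hgJ hc hgK (isCharacter_of_isIrr hη) hext lv hlv,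
    lam_eq_of_ext hθ hxg le_sup_left hgJ hc' hgK (isCharacter_of_isIrr hη) hext lv]
  intro h h' hb hh'
  let z : (K ⊔ Subgroup.zpowers g : Subgroup G) := ⟨g, hgJ⟩
  rw [show h' = (z ^ j)⁻¹ * ⟨_, conj_mem_adjoin hx hgK hc h h.2⟩ * (z ^ j)⁻¹⁻¹ from
      Subtype.ext (by simp [z, hh', mul_assoc]),
    isClassFunction_of_isIrr hη ⟨_, conj_mem_adjoin hx hgK hc h h.2⟩ (z ^ j)⁻¹]
  exact hlv h _ hb rfl

end Cfsg.Agent.Lib.RelMcKay
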