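import Cfsg.Agent.Lib.RelMcKay.Key

/-!
# Characters of degree prime to `p` over an invariant character, for a series with `p` and `p'` factors
-/

set_option autoImplicit false
set_option linter.unusedSectionVars false

open scoped ComplexConjugate Classical commutatorElement

namespace Cfsg.Agent.Lib.RelMcKay

open Cfsg Cfsg.Agent.Lib.Char Cfsg.Agent.Lib.CharClifford

universe u

section

variable {G : Type u} [Group G] [Finite G] {p : ℕ} [hp : Fact p.Prime]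

/-- A normal series of length `n` from `L` with `p`-power and `p'` factors. -/
def Ser (p n : ℕ) (L : Subgroup G) : Prop :=
  ∃ K : ℕ → Subgroup G, K 0 = L ∧ K n = ⊤ ∧ (∀ i, (K i).Normal) ∧ Monotone K ∧
    ∀ i < n, (∃ m, (K i).relIndex (K (i + 1)) = p ^ m) ∨ ¬ p ∣ (K i).relIndex (K (i + 1))

theorem relIndex_dvd_of_le_right {K A B : Subgroup G} [K.Normal] (h : A ≤ B) :
    K.relIndex A ∣ K.relIndex B := by
  rw [← Subgroup.relIndex_sup_right (H := A) (K := K), ← Subgroup.relIndex_sup_right (H := B) (K := K)]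
  exact Dvd.intro _ (Subgroup.relIndex_mul_relIndex K (A ⊔ K) (B ⊔ K) le_sup_right (sup_le_sup_right h K))

theorem Ser.subgroupOf {n : ℕ} {L : Subgroup G} (h : Ser p n L) (T : Subgroup G) :
    Ser p n (L.subgroupOf T) := by
  obtain ⟨K, h0, hn, hnor, hmono, hfac⟩ := h
  refine ⟨fun i => (K i).subgroupOf T, congrArg (Subgroup.subgroupOf · T) h0,
    by show (K n).subgroupOf T = ⊤; rw [hn]; exact Subgroup.top_subgroupOf T,
    fun i => (hnor i).subgroupOf T, fun i j hij => Subgroup.comap_mono (hmono hij), fun i hi => ?_⟩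
  have e : ((K i).subgroupOf T).relIndex ((K (i + 1)).subgroupOf T) = (K i).relIndex (K (i + 1) ⊓ T) := by
    rw [← Subgroup.inf_subgroupOf_right (K (i + 1)) T]
    exact Subgroup.relIndex_subgroupOf inf_le_right
  rw [e]
  haveI := hnor i
  have hd : (K i).relIndex (K (i + 1) ⊓ T) ∣ (K i).relIndex (K (i + 1)) :=
    relIndex_dvd_of_le_right inf_le_left
  rcases hfac i hi with ⟨m, hm⟩ | h
  · obtain ⟨j, -, hj⟩ := (Nat.dvd_prime_pow hp.out).1 (hm ▸ hd)
    exact Or.inl ⟨j, hj⟩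
  · exact Or.inr fun hd' => h (hd'.trans hd)

/-- Counts are preserved by injective homomorphisms. -/
theorem cnt_congr {G' : Type u} [Group G'] [Finite G'] (f : G' →* G) (hf : Function.Injective f)
    {H' : Subgroup G'} {H : Subgroup G} (hH : H'.map f = H) {K' : Subgroup G'} {K : Subgroup G}
    (hK : K'.map f = K) (θ' : K' → ℂ) (θ : K → ℂ)
    (hθ : ∀ (k' : K') (k : K), f k' = k → θ' k' = θ k) : cnt p H' θ' = cnt p H θ := by
  subst hH hK
  let e : H' ≃* H'.map f := Subgroup.equivMapOfInjective H' f hf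
  let eK : K' ≃* K'.map f := Subgroup.equivMapOfInjective K' f hf
  have := Fintype.ofFinite K'
  have := Fintype.ofFinite (K'.map f)
  let F : IrrCharacter (H'.map f) ≃ IrrCharacter H' :=
    { toFun := fun χ => ⟨(χ : H'.map f → ℂ) ∘ e, isIrrCharacter_comp_equiv e χ.2⟩
      invFun := fun χ => ⟨(χ : H' → ℂ) ∘ e.symm, isIrrCharacter_comp_equiv e.symm χ.2⟩
      left_inv := fun χ => Subtype.ext (funext fun x => congrArg (χ : H'.map f → ℂ) (e.apply_symm_apply x))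
      right_inv := fun χ => Subtype.ext (funext fun x => congrArg (χ : H' → ℂ) (e.symm_apply_apply x)) }
  symm
  refine Nat.card_congr (F.subtypeEquiv fun χ => ?_)
  have hd : charDegree (F χ : H' → ℂ) = charDegree (χ : H'.map f → ℂ) := by
    apply Nat.cast_injective (R := ℂ)
    rw [← CharAux.charDegree_eq (isCharacter_of_isIrr (F χ).2), ← CharAux.charDegree_eq (isCharacter_of_isIrr χ.2)]
    exact congrArg (χ : H'.map f → ℂ) (map_one e)
  have hip : ip (F χ : H' → ℂ) θ' = ip (χ : H'.map f → ℂ) θ := by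
    simp only [ip, finsum_eq_sum_of_fintype, Nat.card_congr eK.toEquiv]
    congr 1
    refine Fintype.sum_equiv eK.toEquiv _ _ fun k => ?_
    rw [show θ' k = θ (eK k) from hθ k (eK k) rfl]
    refine congrArg (· * _) ?_
    by_cases hk : (k : G') ∈ H'
    · rw [extendByZero_mem H' _ hk,
        extendByZero_mem (H'.map f) _ (show ((eK.toEquiv k : K'.map f) : G) ∈ H'.map f from ⟨k, hk, rfl⟩)]
      exact congrArg (χ : H'.map f → ℂ) (Subtype.ext rfl)
    · rw [extendByZero_not_mem H' _ hk, extendByZero_not_mem (H'.map f) _]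
      rintro ⟨y, hy, he⟩
      exact hk (hf he ▸ hy)
  rw [hd, hip]

/-- A character below a character over an invariant one lies over it. -/
theorem over_of_over {H K L : Subgroup G} (hLK : L ≤ K) (hKH : K ≤ H) {ν : IrrCharacter L}
    (hν : ∀ g, Fixes (ν : L → ℂ) g) (χ : IrrCharacter H) (θ : IrrCharacter K)
    (hχ : ip (χ : H → ℂ) (ν : L → ℂ) ≠ 0) (hθ : ip (χ : H → ℂ) (θ : K → ℂ) ≠ 0) :
    ip (θ : K → ℂ) (ν : L → ℂ) ≠ 0 := by
  obtain ⟨ν', hν'⟩ := exists_ip_ne_zero hLK θ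
  obtain ⟨u, hu, e⟩ := conj_of_constituents (hLK.trans hKH) (fun h _ => (hν h).1) χ hχ
    (ip_ne_zero_of_trans hLK hKH χ θ ν' hθ hν')
  rw [(fixes_iff_cj (hν u).1).1 (hν u)] at e
  rw [e]
  exact hν'

theorem charDegree_cj {K : Subgroup G} {u : G} (h : Nrm K u) (θ : IrrCharacter K) :
    charDegree (cj h θ : K → ℂ) = charDegree (θ : K → ℂ) := by
  apply Nat.cast_injective (R := ℂ)
  rw [← CharAux.charDegree_eq (isCharacter_of_isIrr (cj h θ).2), ← CharAux.charDegree_eq (isCharacter_of_isIrr θ.2),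
    cj_apply, map_one]

/-- The fixed characters of a layer. -/
def Layer (p : ℕ) (S K : Subgroup G) {L : Subgroup G} (ν : L → ℂ) (θ : IrrCharacter K) : Prop :=
  (∀ s ∈ S, Fixes (θ : K → ℂ) s) ∧ ¬ p ∣ charDegree (θ : K → ℂ) ∧ ip (θ : K → ℂ) ν ≠ 0

theorem layer_cj {S K L : Subgroup G} (hLK : L ≤ K) {ν : IrrCharacter L}
    (hν : ∀ g, Fixes (ν : L → ℂ) g) {u : G} (hS : Nrm S u) (hK : Nrm K u) {θ : IrrCharacter K}
    (h : Layer p S K (ν : L → ℂ) θ) : Layer p S K (ν : L → ℂ) (cj hK θ) := by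
  refine ⟨fixes_cj hK hS h.1, by rw [charDegree_cj]; exact h.2.1, ?_⟩
  conv in (ν : L → ℂ) => rw [← (fixes_iff_cj (hν u).1).1 (hν u)]
  rw [ip_cj hK (hν u).1 hLK]
  exact h.2.2

/-- Comparison of two layers. -/
theorem cnt_eq_of_layers (S : Sylow p G) {L K₁ K₂ H₁ H₂ : Subgroup G} {ν : IrrCharacter L}
    (hν : ∀ g, Fixes (ν : L → ℂ) g) (h1L : L ≤ K₁) (h2L : L ≤ K₂) (h1H : K₁ ≤ H₁) (h2H : K₂ ≤ H₂)
    (h1n : ∀ h ∈ H₁, Nrm K₁ h) (h2n : ∀ h ∈ H₂, Nrm K₂ h)
    (h1S : ∀ u, Nrm (S : Subgroup G) u → u ∈ H₁) (h2S : ∀ u, Nrm (S : Subgroup G) u → u ∈ H₂)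
    (f : {θ : IrrCharacter K₁ // Layer p (S : Subgroup G) K₁ (ν : L → ℂ) θ} ≃
      {φ : IrrCharacter K₂ // Layer p (S : Subgroup G) K₂ (ν : L → ℂ) φ})
    (hf : ∀ (u : G) (hu : Nrm (S : Subgroup G) u) θ,
      f ⟨cj (h1n u (h1S u hu)) θ.1, layer_cj h1L hν hu _ θ.2⟩ =
        ⟨cj (h2n u (h2S u hu)) (f θ).1, layer_cj h2L hν hu _ (f θ).2⟩)
    (hfib : ∀ θ, cnt p H₁ (θ.1 : K₁ → ℂ) = cnt p H₂ ((f θ).1 : K₂ → ℂ)) :
    cnt p H₁ (ν : L → ℂ) = cnt p H₂ (ν : L → ℂ) := by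
  let U : Subgroup G := Subgroup.normalizer ((S : Subgroup G) : Set G)
  have hU : ∀ u ∈ U, Nrm (S : Subgroup G) u := fun u hu => nrm_iff.2 hu
  have hSH₁ : (S : Subgroup G) ≤ H₁ := fun s hs => h1S s (nrm_iff.2 (Subgroup.le_normalizer hs))
  have hSH₂ : (S : Subgroup G) ≤ H₂ := fun s hs => h2S s (nrm_iff.2 (Subgroup.le_normalizer hs))
  letI a₁ : MulAction U {θ : IrrCharacter K₁ // Layer p (S : Subgroup G) K₁ (ν : L → ℂ) θ} :=
    cjAction U _ (fun u hu => h1n u (h1S u (hU u hu))) fun u hu θ h => layer_cj h1L hν (hU u hu) _ h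
  letI a₂ : MulAction U {θ : IrrCharacter K₂ // Layer p (S : Subgroup G) K₂ (ν : L → ℂ) θ} :=
    cjAction U _ (fun u hu => h2n u (h2S u (hU u hu))) fun u hu θ h => layer_cj h2L hν (hU u hu) _ h
  refine card_eq_of_orbits (N := U)
    (fun (χ : {χ : IrrCharacter H₁ // ¬ p ∣ charDegree (χ : H₁ → ℂ) ∧ ip (χ : H₁ → ℂ) (ν : L → ℂ) ≠ 0})
      (θ : {θ : IrrCharacter K₁ // Layer p (S : Subgroup G) K₁ (ν : L → ℂ) θ}) =>
        ip (χ.1 : H₁ → ℂ) (θ.1 : K₁ → ℂ) ≠ 0)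
    (fun (χ : {χ : IrrCharacter H₂ // ¬ p ∣ charDegree (χ : H₂ → ℂ) ∧ ip (χ : H₂ → ℂ) (ν : L → ℂ) ≠ 0})
      (θ : {θ : IrrCharacter K₂ // Layer p (S : Subgroup G) K₂ (ν : L → ℂ) θ}) =>
        ip (χ.1 : H₂ → ℂ) (θ.1 : K₂ → ℂ) ≠ 0)
    ?_ ?_ ?_ ?_ ?_ ?_ f (fun n θ => hf _ (hU _ (U.inv_mem n.2)) θ) ?_
  · intro χ n θ h
    show ip _ (cj _ θ.1 : K₁ → ℂ) ≠ 0
    rw [ip_cj_left h1H _ _ (h1S _ (hU _ (U.inv_mem n.2)))]
    exact h
  · intro χ n θ h
    show ip _ (cj _ θ.1 : K₂ → ℂ) ≠ 0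
    rw [ip_cj_left h2H _ _ (h2S _ (hU _ (U.inv_mem n.2)))]
    exact h
  · intro χ
    obtain ⟨θ, a, b, c⟩ := exists_fixed_constituent h1H h1n S.isPGroup' hSH₁ χ.1 χ.2.1
    exact ⟨⟨θ, a, b, over_of_over h1L h1H hν χ.1 θ χ.2.2 c⟩, c⟩
  · intro χ
    obtain ⟨θ, a, b, c⟩ := exists_fixed_constituent h2H h2n S.isPGroup' hSH₂ χ.1 χ.2.1
    exact ⟨⟨θ, a, b, over_of_over h2L h2H hν χ.1 θ χ.2.2 c⟩, c⟩
  · intro χ θ θ' h h'
    obtain ⟨v, hv, hvS, e⟩ := fixed_transitive h1H h1n S.isPGroup' hSH₁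
      (not_dvd_relIndex_of_sylow_le S le_rfl hSH₁) χ.1 θ.2.1 θ'.2.1 h h'
    refine ⟨⟨v, nrm_iff.1 hvS⟩⁻¹, Subtype.ext ?_⟩
    show cj _ θ.1 = θ'.1
    rw [← e]
    congr 1
    simp
  · intro χ θ θ' h h'
    obtain ⟨v, hv, hvS, e⟩ := fixed_transitive h2H h2n S.isPGroup' hSH₂
      (not_dvd_relIndex_of_sylow_le S le_rfl hSH₂) χ.1 θ.2.1 θ'.2.1 h h'
    refine ⟨⟨v, nrm_iff.1 hvS⟩⁻¹, Subtype.ext ?_⟩
    show cj _ θ.1 = θ'.1
    rw [← e]
    congr 1
    simp
  intro θ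
  have e1 : Nat.card {x : {χ : IrrCharacter H₁ // ¬ p ∣ charDegree (χ : H₁ → ℂ) ∧
      ip (χ : H₁ → ℂ) (ν : L → ℂ) ≠ 0} // ip (x.1 : H₁ → ℂ) (θ.1 : K₁ → ℂ) ≠ 0} =
      cnt p H₁ (θ.1 : K₁ → ℂ) :=
    Nat.card_congr
      { toFun := fun χ => ⟨χ.1.1, χ.1.2.1, χ.2⟩
        invFun := fun χ => ⟨⟨χ.1, χ.2.1, ip_ne_zero_of_trans h1L h1H χ.1 θ.1 ν χ.2.2 θ.2.2.2⟩, χ.2.2⟩
        left_inv := fun _ => rfl
        right_inv := fun _ => rfl }
  have e2 : Nat.card {x : {χ : IrrCharacter H₂ // ¬ p ∣ charDegree (χ : H₂ → ℂ) ∧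
      ip (χ : H₂ → ℂ) (ν : L → ℂ) ≠ 0} // ip (x.1 : H₂ → ℂ) ((f θ).1 : K₂ → ℂ) ≠ 0} =
      cnt p H₂ ((f θ).1 : K₂ → ℂ) :=
    Nat.card_congr
      { toFun := fun χ => ⟨χ.1.1, χ.1.2.1, χ.2⟩
        invFun := fun χ => ⟨⟨χ.1, χ.2.1, ip_ne_zero_of_trans h2L h2H χ.1 (f θ).1 ν χ.2.2 (f θ).2.2.2⟩, χ.2.2⟩
        left_inv := fun _ => rfl
        right_inv := fun _ => rfl }
  exact e1.trans ((hfib θ).trans e2.symm)

theorem nrm_of_normal (K : Subgroup G) [hK : K.Normal] (u : G) : Nrm K u := fun k =>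
  ⟨fun hk => hK.conj_mem k hk u, fun hk => by simpa [mul_assoc] using hK.conj_mem _ hk u⁻¹⟩

/-- One step of the series, over an invariant character. -/
theorem step_invariant {L K : Subgroup G} [hL : L.Normal] [hK : K.Normal] (S : Sylow p G) (hLK : L ≤ K)
    (hfac : (∃ m, L.relIndex K = p ^ m) ∨ ¬ p ∣ L.relIndex K) (ν : IrrCharacter L)
    (hν : ∀ g, Fixes (ν : L → ℂ) g)
    (ih : ∀ θ : IrrCharacter K, (∀ s ∈ (S : Subgroup G), Fixes (θ : K → ℂ) s) →
      cnt p (⊤ : Subgroup G) (θ : K → ℂ) =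
        cnt p (Subgroup.normalizer ((K ⊔ (S : Subgroup G) : Subgroup G) : Set G)) (θ : K → ℂ)) :
    cnt p (⊤ : Subgroup G) (ν : L → ℂ) =
      cnt p (Subgroup.normalizer ((L ⊔ (S : Subgroup G) : Subgroup G) : Set G)) (ν : L → ℂ) := by
  have hnS : ∀ (M : Subgroup G) [M.Normal] (u : G), Nrm (S : Subgroup G) u →
      u ∈ Subgroup.normalizer ((M ⊔ (S : Subgroup G) : Subgroup G) : Set G) := fun M _ u hu =>
    nrm_iff.1 ((nrm_of_normal M u).sup hu)
  have hKN' : K ≤ Subgroup.normalizer ((K ⊔ (S : Subgroup G) : Subgroup G) : Set G) :=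
    le_sup_left.trans Subgroup.le_normalizer
  rw [cnt_eq_of_layers S hν hLK hLK le_top hKN' (fun h _ => nrm_of_normal K h)
    (fun h _ => nrm_of_normal K h) (fun u _ => trivial) (fun u hu => hnS K u hu) (Equiv.refl _)
    (fun u hu θ => rfl) fun θ => ih θ.1 θ.2.1]
  rcases hfac with ⟨m, hm⟩ | hidx
  · have hKP : K ⊔ (S : Subgroup G) = L ⊔ (S : Subgroup G) := by
      refine le_antisymm (sup_le ?_ le_sup_right) (sup_le_sup_right hLK _)
      let P : Subgroup G := L ⊔ (S : Subgroup G)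
      have h1 : K.relIndex P = (K ⊓ P).relIndex P := (Subgroup.inf_relIndex_right K P).symm
      have h2 : (K ⊓ P).relIndex K * K.relIndex (P ⊔ K) = (K ⊓ P).relIndex P * P.relIndex (P ⊔ K) := by
        rw [Subgroup.relIndex_mul_relIndex _ _ _ inf_le_left le_sup_right,
          Subgroup.relIndex_mul_relIndex _ _ _ inf_le_right le_sup_left]
      rw [Subgroup.relIndex_sup_right, ← h1, mul_comm] at h2
      have h3 : (K ⊓ P).relIndex K = P.relIndex (P ⊔ K) :=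
        Nat.eq_of_mul_eq_mul_left (Nat.pos_of_ne_zero Subgroup.index_ne_zero_of_finite) h2
      have h4 : P.relIndex (P ⊔ K) ∣ p ^ m := by
        rw [← h3, ← hm]
        exact Dvd.intro_left _ (Subgroup.relIndex_mul_relIndex L (K ⊓ P) K (le_inf hLK le_sup_left) inf_le_left)
      obtain ⟨j, -, hj⟩ := (Nat.dvd_prime_pow hp.out).1 h4
      have h5 : ¬ p ∣ P.relIndex (P ⊔ K) := not_dvd_relIndex_of_sylow_le S le_sup_right le_sup_left
      have hj0 : j = 0 := by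
        by_contra hne
        exact h5 (hj ▸ dvd_pow_self p hne)
      subst hj0
      exact le_sup_right.trans (Subgroup.relIndex_eq_one.1 hj)
    rw [hKP]
  have A : Act p L K (S : Subgroup G) := ⟨hLK, fun t _ k hk => hK.conj_mem k hk t, S.isPGroup', hidx⟩
  have hLC : L ≤ K ⊓ cm L (S : Subgroup G) := le_inf hLK (le_cm L _)
  have hCn : ∀ h ∈ Subgroup.normalizer ((L ⊔ (S : Subgroup G) : Subgroup G) : Set G),
      Nrm (K ⊓ cm L (S : Subgroup G)) h := fun h hh => by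
    have h1 := (nrm_of_normal K h).inf (Nrm.cm (L := L) (nrm_iff.2 hh))
    rwa [cm_sup] at h1
  have hCN : K ⊓ cm L (S : Subgroup G) ≤
      Subgroup.normalizer ((L ⊔ (S : Subgroup G) : Subgroup G) : Set G) := by
    intro c hc
    have hfw : ∀ c ∈ cm L (S : Subgroup G),
        L ⊔ (S : Subgroup G) ≤ (L ⊔ (S : Subgroup G)).comap (MulAut.conj c).toMonoidHom := by
      intro c hc
      refine sup_le (fun l hl => Subgroup.mem_sup_left (hL.conj_mem l hl c)) fun s hs => ?_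
      show c * s * c⁻¹ ∈ L ⊔ (S : Subgroup G)
      rw [show c * s * c⁻¹ = ⁅c, s⁆ * s by rw [commutatorElement_def]; group]
      exact Subgroup.mul_mem _ (Subgroup.mem_sup_left (mem_cm_comm.1 hc s hs)) (Subgroup.mem_sup_right hs)
    rw [← nrm_iff]
    exact fun k => ⟨fun hk => hfw c hc.2 hk, fun hk => by
      simpa [mul_assoc] using hfw c⁻¹ (Subgroup.inv_mem _ hc.2) hk⟩
  have hne : ∀ {θ : IrrCharacter K} {φ : IrrCharacter (K ⊓ cm L (S : Subgroup G) : Subgroup G)},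
      Occ p (θ : K → ℂ) (φ : (K ⊓ cm L (S : Subgroup G) : Subgroup G) → ℂ) →
      ip (θ : K → ℂ) (φ : (K ⊓ cm L (S : Subgroup G) : Subgroup G) → ℂ) ≠ 0 := by
    rintro θ φ ⟨m, hm, hpm⟩ h0
    exact hpm (Nat.cast_eq_zero.1 (hm.symm.trans h0) ▸ dvd_zero p)
  choose φ hφS hocc using fun θ : {θ : IrrCharacter K // Layer p (S : Subgroup G) K (ν : L → ℂ) θ} =>
    A.exists_corr θ.1 θ.2.1
  let f : {θ : IrrCharacter K // Layer p (S : Subgroup G) K (ν : L → ℂ) θ} →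
      {φ : IrrCharacter (K ⊓ cm L (S : Subgroup G) : Subgroup G) //
        Layer p (S : Subgroup G) (K ⊓ cm L (S : Subgroup G)) (ν : L → ℂ) φ} := fun θ =>
    ⟨φ θ, hφS θ, fun h => θ.2.2.1 ((A.degree_dvd_iff θ.2.1 (hφS θ) (hocc θ)).1 h),
      over_of_over hLC inf_le_left hν θ.1 (φ θ) θ.2.2.2 (hne (hocc θ))⟩
  have hinj : Function.Injective f := fun θ θ' h => by
    have h1 : φ θ = φ θ' := congrArg Subtype.val h
    exact Subtype.ext (A.corr_injective θ.2.1 θ'.2.1 (hφS θ) (hocc θ) (h1 ▸ hocc θ'))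
  have hsurj : Function.Surjective f := fun z => by
    obtain ⟨θ, hθS, hθo⟩ := A.exists_corr_symm z.1 z.2.1
    let θ' : {θ : IrrCharacter K // Layer p (S : Subgroup G) K (ν : L → ℂ) θ} :=
      ⟨θ, hθS, fun h => z.2.2.1 ((A.degree_dvd_iff hθS z.2.1 hθo).2 h),
        ip_ne_zero_of_trans hLC inf_le_left θ z.1 ν (hne hθo) z.2.2.2⟩
    refine ⟨θ', Subtype.ext ?_⟩
    exact A.corr_unique hθS (hφS θ') z.2.1 (hocc θ') hθo
  refine cnt_eq_of_layers S hν hLK hLC hKN' hCN (fun h _ => nrm_of_normal K h) hCn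
    (fun u hu => hnS K u hu) (fun u hu => hnS L u hu) (Equiv.ofBijective f ⟨hinj, hsurj⟩) ?_ ?_
  · intro u hu θ
    let θ' : {θ : IrrCharacter K // Layer p (S : Subgroup G) K (ν : L → ℂ) θ} :=
      ⟨cj (nrm_of_normal K u) θ.1, layer_cj hLK hν hu _ θ.2⟩
    refine Subtype.ext ?_
    show φ θ' = cj (hCn u (hnS L u hu)) (φ θ)
    exact A.corr_unique (θ := θ'.1) θ'.2.1 (hφS θ') (fixes_cj (hCn u (hnS L u hu)) hu (hφS θ)) (hocc θ')
      (A.corr_cj hu (nrm_of_normal K u) θ.2.1 (hφS θ) (hocc θ))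
  · intro θ
    exact key S hLK hidx θ.1 θ.2.1 θ.2.2.1 (φ θ) (hφS θ) (hocc θ)

end

variable {p : ℕ} [hp : Fact p.Prime]

/-- The reduction to an invariant character. -/
theorem count_of_invariant (n : ℕ)
    (h : ∀ (G : Type u) [Group G] [Finite G] (L : Subgroup G) [L.Normal] (S : Sylow p G), Ser p n L →
      ∀ ν : IrrCharacter L, (∀ g, Fixes (ν : L → ℂ) g) →
        cnt p (⊤ : Subgroup G) (ν : L → ℂ) =
          cnt p (Subgroup.normalizer ((L ⊔ (S : Subgroup G) : Subgroup G) : Set G)) (ν : L → ℂ))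
    {G : Type u} [Group G] [Finite G] (L : Subgroup G) [hL : L.Normal] (S : Sylow p G) (hser : Ser p n L)
    (ν : IrrCharacter L) (hν : ∀ s ∈ (S : Subgroup G), Fixes (ν : L → ℂ) s) :
    cnt p (⊤ : Subgroup G) (ν : L → ℂ) =
      cnt p (Subgroup.normalizer ((L ⊔ (S : Subgroup G) : Subgroup G) : Set G)) (ν : L → ℂ) := by
  generalize hT : fixer (ν : L → ℂ) = T
  generalize hN : Subgroup.normalizer ((L ⊔ (S : Subgroup G) : Subgroup G) : Set G) = N
  have hST : (S : Subgroup G) ≤ T := hT ▸ hν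
  have hLT : L ≤ T := hT ▸ le_fixer_self (isClassFunction_of_isIrr ν.2)
  have hSN : (S : Subgroup G) ≤ N := hN ▸ le_sup_right.trans Subgroup.le_normalizer
  have hLN : L ≤ N := hN ▸ le_sup_left.trans Subgroup.le_normalizer
  rw [cnt_inertia le_top (fun g _ => nrm_of_normal L g) ν
      (not_dvd_relIndex_of_sylow_le S (le_inf le_top hν) inf_le_left),
    cnt_inertia hLN (fun g _ => nrm_of_normal L g) ν
      (not_dvd_relIndex_of_sylow_le S (le_inf hSN hν) inf_le_left), hT, top_inf_eq]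
  let e := Subgroup.subgroupOfEquivOfLe hLT
  let ν' : IrrCharacter (L.subgroupOf T) := ⟨(ν : L → ℂ) ∘ e, isIrrCharacter_comp_equiv e ν.2⟩
  have h1 := h T (L.subgroupOf T) (S.subtype hST) (hser.subgroupOf T) ν' fun t =>
    ⟨fun k => (nrm_of_normal L (t : G)) (k : G), fun k k' ek => by
      have ht : Fixes (ν : L → ℂ) (t : G) := (hT.symm ▸ t.2 : (t : G) ∈ fixer (ν : L → ℂ))
      exact ht.2 (e k) (e k') (congrArg Subtype.val ek)⟩
  have hsup : L.subgroupOf T ⊔ ((S.subtype hST : Sylow p T) : Subgroup T) =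
      (L ⊔ (S : Subgroup G)).subgroupOf T := (Subgroup.subgroupOf_sup hLT hST).symm
  have hmap : (Subgroup.normalizer ((L.subgroupOf T ⊔ ((S.subtype hST : Sylow p T) : Subgroup T) :
      Subgroup T) : Set T)).map T.subtype = N ⊓ T := by
    rw [hsup, ← hN]
    have hP : L ⊔ (S : Subgroup G) ≤ T := sup_le hLT hST
    ext g
    rw [Subgroup.mem_map, Subgroup.mem_inf]
    constructor
    · rintro ⟨t, ht, rfl⟩
      refine ⟨nrm_iff.1 fun k => ?_, t.2⟩
      have ht' := Subgroup.mem_normalizer_iff.1 ht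
      constructor
      · intro hk
        exact (ht' ⟨k, hP hk⟩).1 hk
      · intro hk
        have hkT : k ∈ T := by
          simpa [mul_assoc] using T.mul_mem (T.mul_mem (T.inv_mem t.2) (hP hk)) t.2
        exact (ht' ⟨k, hkT⟩).2 hk
    · rintro ⟨h2, h3⟩
      exact ⟨⟨g, h3⟩, Subgroup.mem_normalizer_iff.2 fun k => (nrm_iff.2 h2) (k : G), rfl⟩
  have hLmap : (L.subgroupOf T).map T.subtype = L := by
    rw [Subgroup.subgroupOf_map_subtype, inf_eq_left.2 hLT]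
  have hval : ∀ (k' : L.subgroupOf T) (k : L), T.subtype k' = k → (ν' : L.subgroupOf T → ℂ) k' =
      (ν : L → ℂ) k := fun k' k ek => congrArg (ν : L → ℂ) (Subtype.ext ek)
  rw [← cnt_congr T.subtype T.subtype_injective (show (⊤ : Subgroup T).map T.subtype = T by
      rw [← MonoidHom.range_eq_map, Subgroup.range_subtype]) hLmap _ _ hval,
    ← cnt_congr T.subtype T.subtype_injective hmap hLmap _ _ hval]
  exact h1

/-- Characters of degree prime to `p` over a fixed character are counted in the normalizer. -/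
theorem count : ∀ (n : ℕ) (G : Type u) [Group G] [Finite G] (L : Subgroup G) [L.Normal] (S : Sylow p G),
    Ser p n L → ∀ ν : IrrCharacter L, (∀ s ∈ (S : Subgroup G), Fixes (ν : L → ℂ) s) →
      cnt p (⊤ : Subgroup G) (ν : L → ℂ) =
        cnt p (Subgroup.normalizer ((L ⊔ (S : Subgroup G) : Subgroup G) : Set G)) (ν : L → ℂ) := by
  intro n
  induction n with
  | zero =>
    intro G _ _ L _ S hser ν _
    obtain ⟨K, h0, hn, -⟩ := hser
    have hLtop : L = ⊤ := h0 ▸ hn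
    have : Subgroup.normalizer ((L ⊔ (S : Subgroup G) : Subgroup G) : Set G) = ⊤ :=
      eq_top_iff.2 (hLtop ▸ le_sup_left.trans Subgroup.le_normalizer)
    rw [this]
  | succ n ih =>
    intro G _ _ L _ S hser ν hν
    refine count_of_invariant (n + 1) ?_ L S hser ν hν
    intro G _ _ L _ S hser ν hν
    obtain ⟨K, h0, hn, hnor, hmono, hfac⟩ := hser
    haveI := hnor 1
    have hf := hfac 0 (Nat.succ_pos n)
    rw [h0, zero_add] at hf
    exact step_invariant S (h0 ▸ hmono (Nat.zero_le 1)) hf ν hν fun θ hθ =>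
      ih G (K 1) S ⟨fun i => K (i + 1), rfl, hn, fun i => hnor _, fun i j hij => hmono (by omega),
        fun i hi => hfac (i + 1) (Nat.succ_lt_succ hi)⟩ θ hθ

end Cfsg.Agent.Lib.RelMcKay
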